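import Cfsg.Agent.H538.Pw.GFourThree

/-!
# S2465, `G₂(4)`: the centralizer `SL₃(4)` (helper538)
-/

set_option autoImplicit false
set_option linter.unusedVariables false
set_option maxHeartbeats 1000000

namespace Cfsg.Agent.H538.Pw.GFour

open Matrix
open Cfsg.Agent.SporRec
open Cfsg.Agent.SporRec.GF4
open Cfsg.Agent.SporRec.G24Code (app)
open Cfsg.Agent.SporRec.G24Orb (allb allb_spec)
open Cfsg.Agent.StdG24.Mod6
open Cfsg.Agent.StdG24.Ord6
open Cfsg.Agent.StdG24.Al6
open Cfsg.Agent.StdG24.Cent6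
open Cfsg.Agent.StdG24.Cls6 (add_self' F4_add_self)

/-- the diagonal of `y` -/
def dg : Fin 6 → F4 := ![F4.w, F4.v, F4.v, F4.w, F4.w, F4.v]

/-- the element `y` -/
def yE : GL6 := Cfsg.Agent.GTwoFour.Mdl.y
def yC : List ℕ := [2, 3, 12, 4, 48, 16, 128, 192, 512, 768, 3072, 1024]

theorem isCode_yE : IsCode (yE : Mat) yC := Cfsg.Agent.GTwoFour.Mdl.Cd_y

theorem yE_mem : yE ∈ L := ev_mem _

theorem yE_mat : (yE : Mat) = Matrix.diagonal dg := by
  refine isCode_yE.mat_eq (isCode_of_cols rfl (by decide) (fun j hj => ?_))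
  have h : ∀ j < 12, dec (yC.getD j 0) = (Matrix.diagonal dg).mulVec (dec (2 ^ j)) := by decide +kernel
  exact h j hj

theorem yE_nofix : ∀ x, act yE x = x → x = 0 := by
  intro x hx
  funext i
  have h1 : act yE x i = x i := congrFun hx i
  rw [act, yE_mat, mulVec_diagonal] at h1
  have h2 : ∀ (i : Fin 6) (c : F4), dg i * c = c → c = 0 := by decide
  exact h2 i _ h1

theorem yE_cube : yE ^ 3 = 1 := Cfsg.Agent.GTwoFour.Mdl.y_pow

theorem y_conj_s0 : ∃ k ∈ L, k * yE * k⁻¹ = s0 := caseB yE_mem yE_cube yE_nofix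

/-- basis vectors -/
theorem act_single (g : GL6) (j : Fin 6) (i : Fin 6) : act g (Pi.single j 1) i = (g : Mat) i j := by
  rw [act, mulVec_single_one]; rfl

theorem form_single (i j : Fin 6) : form (Pi.single i 1) (Pi.single j 1) = if j = Fin.rev i then 1 else 0 := by
  revert i j; decide

theorem form_left_single (x : Vec) (i : Fin 6) : form x (Pi.single i 1) = x (Fin.rev i) := by
  rw [form, Finset.sum_eq_single (Fin.rev i)]
  · rw [Fin.rev_rev, Pi.single_eq_same, mul_one]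
  · intro j _ hj
    rw [Pi.single_eq_of_ne (fun e => hj (by rw [← e, Fin.rev_rev])), mul_zero]
  · intro h; exact absurd (Finset.mem_univ _) h

/-- the columns of an element of `L` -/
theorem form_cols {g : GL6} (hg : g ∈ L) (i j : Fin 6) :
    ∑ k, (g : Mat) k i * (g : Mat) (Fin.rev k) j = if j = Fin.rev i then 1 else 0 := by
  rw [← form_single, ← form_act hg, form]
  apply Finset.sum_congr rfl
  intro k _
  rw [act_single, act_single]

/-- the blocks of an element which commutes with `y` -/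
theorem block_zero {g : GL6} (h : g * yE = yE * g) {i j : Fin 6} (hij : dg i ≠ dg j) :
    (g : Mat) i j = 0 := by
  have h1 : (g : Mat) * Matrix.diagonal dg = Matrix.diagonal dg * (g : Mat) := by
    rw [← yE_mat, ← Units.val_mul, ← Units.val_mul, h]
  have h2 := congrFun (congrFun h1 i) j
  rw [mul_diagonal, diagonal_mul] at h2
  have h3 : ∀ a b c : F4, a ≠ b → c * b = a * c → c = 0 := by decide
  exact h3 _ _ _ hij h2

/-- the block on the natural module -/
def bM (g : GL6) : Matrix (Fin 3) (Fin 3) F4 := fun a b => (g : Mat) (ep (Sum.inl a)) (ep (Sum.inl b))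
/-- the block on the dual module -/
def bN (g : GL6) : Matrix (Fin 3) (Fin 3) F4 := fun a b => (g : Mat) (ep (Sum.inr b)) (ep (Sum.inr a))

theorem dg_inl (a : Fin 3) : dg (ep (Sum.inl a)) = F4.w := by revert a; decide
theorem dg_inr (a : Fin 3) : dg (ep (Sum.inr a)) = F4.v := by revert a; decide

theorem mat_eq_psM {g : GL6} (h : g * yE = yE * g) : (g : Mat) = psM (bM g) (bN g) := by
  funext i j
  obtain ⟨a, rfl⟩ := ep.surjective i
  obtain ⟨b, rfl⟩ := ep.surjective j
  rw [psM, submatrix_apply, Equiv.symm_apply_apply, Equiv.symm_apply_apply]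
  rcases a with a | a <;> rcases b with b | b
  · rfl
  · rw [fromBlocks_apply₁₂]
    exact block_zero h (by rw [dg_inl, dg_inr]; decide)
  · rw [fromBlocks_apply₂₁]
    exact block_zero h (by rw [dg_inl, dg_inr]; decide)
  · rfl

theorem rev_ep : ∀ a : Fin 3, Fin.rev (ep (Sum.inl a)) = ep (Sum.inr a) := by decide
theorem rev_ep' : ∀ a : Fin 3, Fin.rev (ep (Sum.inr a)) = ep (Sum.inl a) := by decide

theorem bN_mul_bM {g : GL6} (hg : g ∈ L) (h : g * yE = yE * g) : bN g * bM g = 1 := by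
  funext a b
  rw [mul_apply, one_apply]
  have h1 := form_cols hg (ep (Sum.inr a)) (ep (Sum.inl b))
  rw [← ep.sum_comp, Fintype.sum_sum_type] at h1
  have h2 : ∑ c, (g : Mat) (ep (Sum.inl c)) (ep (Sum.inr a)) *
      (g : Mat) (Fin.rev (ep (Sum.inl c))) (ep (Sum.inl b)) = 0 := by
    apply Finset.sum_eq_zero
    intro c _
    rw [block_zero h (i := ep (Sum.inl c)) (j := ep (Sum.inr a)) (by rw [dg_inl, dg_inr]; decide), zero_mul]
  rw [h2, zero_add, rev_ep'] at h1
  have h3 : (ep (Sum.inl b) = ep (Sum.inl a)) ↔ a = b := by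
    rw [ep.apply_eq_iff_eq, Sum.inl.injEq, eq_comm]
  simp only [h3] at h1
  rw [← h1]
  apply Finset.sum_congr rfl
  intro c _
  rw [rev_ep']
  rfl

theorem psM_diag (a b c a' b' c' : F4) : psM (Matrix.diagonal ![a, b, c]) (Matrix.diagonal ![a', b', c']) =
    Matrix.diagonal ![a, c', b', b, c, a'] := by
  have h : ∀ (i j : Fin 6), (psM (Matrix.diagonal ![a, b, c]) (Matrix.diagonal ![a', b', c'])) i j =
      (Matrix.diagonal ![a, c', b', b, c, a'] : Mat) i j := by
    intro i j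
    obtain ⟨x, rfl⟩ := ep.surjective i
    obtain ⟨y, rfl⟩ := ep.surjective j
    rw [psM, submatrix_apply, Equiv.symm_apply_apply, Equiv.symm_apply_apply]
    rcases x with x | x <;> rcases y with y | y
    · fin_cases x <;> fin_cases y <;> rfl
    · fin_cases x <;> fin_cases y <;> rfl
    · fin_cases x <;> fin_cases y <;> rfl
    · fin_cases x <;> fin_cases y <;> rfl
  funext i j
  exact h i j

theorem diag_check : ∀ e ∈ ALT, ∀ m ∈ [512, 768], app e.1 64 = 64 → app e.1 256 = m → False := by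
  decide +kernel

theorem act_diag {k : GL6} {d : Fin 6 → F4} (h : (k : Mat) = Matrix.diagonal d) (j : Fin 6) :
    act k (Pi.single j 1) = d j • Pi.single j 1 := by
  funext i
  rw [act_single, h, Pi.smul_apply, smul_eq_mul]
  by_cases hij : i = j
  · subst hij; rw [diagonal_apply_eq, Pi.single_eq_same, mul_one]
  · rw [diagonal_apply_ne _ hij, Pi.single_eq_of_ne hij, mul_zero]

theorem singles : (e0 = Pi.single 0 1 ∧ e1 = Pi.single 5 1) ∧
    (dec 64 = Pi.single 3 1 ∧ dec 256 = Pi.single 4 1) ∧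
    (dec 512 = F4.w • Pi.single 4 1 ∧ dec 768 = F4.v • Pi.single 4 1) := by decide +kernel

/-- a diagonal element of `L` -/
theorem diag_one {k : GL6} (hk : k ∈ L) {D D' : F4}
    (h : (k : Mat) = Matrix.diagonal ![1, D', 1, 1, D, 1]) (hD : D ≠ 0) : D = 1 := by
  have h0 : act k e0 = e0 := by
    rw [singles.1.1, act_diag h]
    exact one_smul _ _
  have h5 : act k e1 = e1 := by
    rw [singles.1.2, act_diag h]
    exact one_smul _ _
  have hA : k ∈ Al := mem_Al_iff.2 ⟨⟨hk, h0⟩, h5⟩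
  obtain ⟨e, he, hc⟩ := exists_cod_Al hA
  have h3 : app e.1 64 = 64 := (hc.1.app_eq_iff (by norm_num) (by norm_num)).1 (by
    change act k (dec 64) = dec 64
    rw [singles.2.1.1, act_diag h]
    exact one_smul _ _)
  have h4 : act k (dec 256) = D • Pi.single 4 1 := by
    rw [singles.2.1.2, act_diag h]; rfl
  have hcases : ∀ D : F4, D ≠ 0 → D = 1 ∨ D = F4.w ∨ D = F4.v := by decide
  rcases hcases D hD with h6 | h6 | h6
  · exact h6
  · exfalso
    rw [h6, ← singles.2.2.1] at h4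
    exact diag_check e he 512 (by simp) h3 ((hc.1.app_eq_iff (by norm_num) (by norm_num)).1 h4)
  · exfalso
    rw [h6, ← singles.2.2.2] at h4
    exact diag_check e he 768 (by simp) h3 ((hc.1.app_eq_iff (by norm_num) (by norm_num)).1 h4)

/-- the centralizer of `y` is `SL₃(4)` -/
theorem exists_phi {g : GL6} (hg : g ∈ L) (h : g * yE = yE * g) : ∃ M : SL3, g = phi M := by
  have hNA := bN_mul_bM hg h
  have hAN : bM g * bN g = 1 := mul_eq_one_comm.1 hNA
  have hdet : (bN g).det * (bM g).det = 1 := by rw [← det_mul, hNA, det_one]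
  obtain ⟨D, hD⟩ : ∃ D : F4, D = (bM g).det := ⟨_, rfl⟩
  obtain ⟨D', hD'⟩ : ∃ D' : F4, D' = (bN g).det := ⟨_, rfl⟩
  rw [← hD, ← hD'] at hdet
  have hD0 : D ≠ 0 := by rintro h0; rw [h0, mul_zero] at hdet; exact absurd hdet (by decide)
  have hd1 : (Matrix.diagonal ![1, 1, D] : Matrix (Fin 3) (Fin 3) F4).det = D := by
    rw [det_diagonal, Fin.prod_univ_three]
    change 1 * 1 * D = D
    rw [one_mul, one_mul]
  let h0 : SL3 := ⟨bN g * Matrix.diagonal ![1, 1, D], by rw [det_mul, hd1, ← hD', hdet]⟩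
  have hh0 : cM h0 = bN g * Matrix.diagonal ![1, 1, D] := rfl
  have hP : bM g * cM h0 = Matrix.diagonal ![1, 1, D] := by
    rw [hh0, ← Matrix.mul_assoc, hAN, Matrix.one_mul]
  have hR : cM h0⁻¹ * bN g = Matrix.diagonal ![1, 1, D'] := by
    have h1 : (cM h0⁻¹ * bN g) * Matrix.diagonal ![1, 1, D] = 1 := by
      rw [Matrix.mul_assoc, ← hh0, cM_inv_mul]
    have h2 : (Matrix.diagonal ![1, 1, D] : Matrix (Fin 3) (Fin 3) F4) * Matrix.diagonal ![1, 1, D'] = 1 := by
      rw [diagonal_mul_diagonal, ← diagonal_one]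
      congr 1
      funext i
      fin_cases i
      · rfl
      · rfl
      · change D * D' = 1
        rw [mul_comm, hdet]
    calc cM h0⁻¹ * bN g = (cM h0⁻¹ * bN g) * (Matrix.diagonal ![1, 1, D] * Matrix.diagonal ![1, 1, D']) := by
          rw [h2, Matrix.mul_one]
      _ = 1 * Matrix.diagonal ![1, 1, D'] := by rw [← Matrix.mul_assoc, h1]
      _ = _ := Matrix.one_mul _
  have hk : ((g * phi h0 : GL6) : Mat) = Matrix.diagonal ![1, D', 1, 1, D, 1] := by
    rw [Units.val_mul, coe_phi, mat_eq_psM h, psM_mul, hP, hR, psM_diag]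
  have hD1 : D = 1 := diag_one (L.mul_mem hg (phi_mem h0)) hk hD0
  let M : SL3 := ⟨bM g, by rw [← hD, hD1]⟩
  refine ⟨M, Units.ext ?_⟩
  have hM : cM M = bM g := rfl
  have hMi : cM M⁻¹ = bN g := by
    calc cM M⁻¹ = (bN g * bM g) * cM M⁻¹ := by rw [hNA, Matrix.one_mul]
      _ = bN g * (cM M * cM M⁻¹) := by rw [Matrix.mul_assoc, hM]
      _ = bN g := by rw [cM_mul_inv, Matrix.mul_one]
  rw [coe_phi, hM, hMi]
  exact mat_eq_psM h

/-! ### The orders 5 and 7 in `SL₃(4)` -/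

theorem card_F4' : Nat.card F4 = 4 := by
  rw [Nat.card_eq_fintype_card, F4.card_F4]

theorem adm7 : H962.PP.Adm F4 3 7 := by
  refine H962.PP.adm_prime (by norm_num) (by norm_num) ?_
  rw [card_F4']
  rw [orderOf_eq_iff (by norm_num)]
  decide

theorem adm5 : H962.PP.Adm F4 2 5 := by
  refine H962.PP.adm_prime (by norm_num) (by norm_num) ?_
  rw [card_F4']
  rw [orderOf_eq_iff (by norm_num)]
  decide

/-- `w` lies in `SL₃(4)` -/
theorem wE_phi : ∃ M : SL3, wE = phi M := by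
  have e : ∀ (r : Fin 12) (t : Fin 3), r = 5 ∨ r = 6 → ∃ M : SL3, gx r t = phi M := by
    intro r t hr
    refine exists_phi (gx_mem r t) ?_
    have h : ∀ (r : Fin 12) (t : Fin 3), r = 5 ∨ r = 6 → mulC (xc r t) yC = mulC yC (xc r t) := by decide +kernel
    have h1 := isCode_mul' (isCode_gx r t) isCode_yE
    have h2 := isCode_mul' isCode_yE (isCode_gx r t)
    rw [h r t hr] at h1
    exact Units.ext (h1.mat_eq h2)
  obtain ⟨A, hA⟩ := e 5 0 (Or.inl rfl)
  obtain ⟨B, hB⟩ := e 6 1 (Or.inr rfl)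
  refine ⟨A * B, ?_⟩
  rw [map_mul, ← hA, ← hB]
  exact ev_pair 5 6 0 1

/-- elements which commute with `y` -/
theorem Q6_of_y {g : GL6} (hg : g ∈ L) (h : g * yE = yE * g) : Q6 g := by
  obtain ⟨M, rfl⟩ := exists_phi hg h
  by_cases hM : M ∈ Subgroup.center SL3
  · obtain ⟨W, hW⟩ := wE_phi
    apply Q6_of_w hg
    rw [hW, ← map_mul, ← map_mul, Subgroup.mem_center_iff.1 hM W]
  · obtain ⟨x, y, rfl, hx, hy⟩ := H962.PP.sl_mul (k := 1) M hM adm7 adm5
    refine ⟨phi x, phi_mem x, phi y, phi_mem y, map_mul _ _ _, ⟨7, by norm_num, ?_⟩, 5, by norm_num, ?_⟩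
    · rw [← map_pow, hx, map_one]
    · rw [← map_pow, hy, map_one]

/-- **elements which commute with an element of order three** -/
theorem Q6_of_three {g t : GL6} (hg : g ∈ L) (ht : t ∈ L) (h3 : t ^ 3 = 1) (h1 : t ≠ 1)
    (hc : g * t = t * g) : Q6 g := by
  by_cases hfix : ∀ x, act t x = x → x = 0
  · obtain ⟨k, hk, e⟩ := caseB ht h3 hfix
    obtain ⟨k', hk', e'⟩ := y_conj_s0
    have hm : k'⁻¹ * k ∈ L := L.mul_mem (L.inv_mem hk') hk
    have e2 : (k'⁻¹ * k) * t * (k'⁻¹ * k)⁻¹ = yE := by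
      calc (k'⁻¹ * k) * t * (k'⁻¹ * k)⁻¹ = k'⁻¹ * (k * t * k⁻¹) * k' := by group
        _ = k'⁻¹ * (k' * yE * k'⁻¹) * k' := by rw [e, e']
        _ = yE := by group
    apply Q6.of_conj hm
    apply Q6_of_y (L.mul_mem (L.mul_mem hm hg) (L.inv_mem hm))
    rw [← e2]
    calc (k'⁻¹ * k) * g * (k'⁻¹ * k)⁻¹ * ((k'⁻¹ * k) * t * (k'⁻¹ * k)⁻¹)
        = (k'⁻¹ * k) * (g * t) * (k'⁻¹ * k)⁻¹ := by group
      _ = (k'⁻¹ * k) * (t * g) * (k'⁻¹ * k)⁻¹ := by rw [hc]
      _ = _ := by group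
  · push Not at hfix
    obtain ⟨x, hx, hx0⟩ := hfix
    exact Q6_of_fix hg ht h3 h1 hc hx0 hx

end Cfsg.Agent.H538.Pw.GFour
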