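import Cfsg.Agent.H538.Pw.GFourU
import Cfsg.Agent.H538.Pw.GFourCent
import Cfsg.Agent.StdG24.Iso6

/-!
# S2465, `G₂(4)`: every element is a product of two elements of order prime to 6 (helper538)
-/

set_option autoImplicit false
set_option linter.unusedVariables false
set_option maxHeartbeats 1000000

namespace Cfsg.Agent.H538.Pw.GFour

open Cfsg.Agent.StdG24.Mod6
open Cfsg.Agent.StdG24.Ord6
open Cfsg.Agent.GTwoFour
open Cfsg.Agent.GTwoFour.Mdl
open Cfsg.Agent.GTwoFour.MdlInv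
open Cfsg.Agent.GTwoFour.MdlInvChk
open Cfsg.Agent.H78.Pw

/-- elements of `U` -/
theorem Q6_U {u : GL6} (hu : u ∈ U) : Q6 u := by
  obtain ⟨D, j, hD, h⟩ := allNi_spec U_check Cd_one u (U_PS hu)
  rw [one_mul] at hD
  obtain ⟨a, ha, h13, h⟩ := leaf_spec hD h
  exact ⟨a⁻¹, L.inv_mem ha, a * u, L.mul_mem ha (U_le_L hu), (inv_mul_cancel_left a u).symm,
    ⟨13, by norm_num, by rw [inv_pow, h13, inv_one]⟩, 13, by norm_num, h⟩

/-- a 2-element of `L` is conjugate into `U` -/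
theorem exists_conj_U' {y : GL6} (hy : y ∈ L) {n : ℕ} (h2 : y ^ 2 ^ n = 1) :
    ∃ a ∈ L, a * y * a⁻¹ ∈ U := by
  have : Fact (Nat.Prime 2) := ⟨Nat.prime_two⟩
  have hfin : Finite L := MdlInv.finite_L
  have hc : Nat.card (U.subgroupOf L) = 2 ^ (Nat.card L).factorization 2 := by
    rw [Nat.card_congr (Subgroup.subgroupOfEquivOfLe U_le_L).toEquiv, card_U, card_L,
      show (251596800 : ℕ) = 2 ^ 12 * 61425 by norm_num,
      Nat.factorization_mul (by norm_num) (by norm_num), Finsupp.add_apply,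
      Nat.Prime.factorization_pow (by norm_num), Finsupp.single_eq_same,
      Nat.factorization_eq_zero_of_not_dvd (by norm_num)]
    norm_num
  let T : Sylow 2 L := Sylow.ofCard _ hc
  have h3 : (⟨y, hy⟩ : L) ^ 2 ^ n = 1 := Subtype.ext h2
  have hp : IsPGroup 2 (Subgroup.zpowers (⟨y, hy⟩ : L)) := by
    rintro ⟨x, k, rfl⟩
    refine ⟨n, Subtype.ext ?_⟩
    change ((⟨y, hy⟩ : L) ^ k) ^ (2 ^ n) = 1
    rw [← zpow_natCast, ← zpow_mul, mul_comm, zpow_mul, zpow_natCast, h3, one_zpow]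
  obtain ⟨Q, hQ⟩ := hp.exists_le_sylow
  obtain ⟨g, hg⟩ := MulAction.exists_smul_eq L Q T
  refine ⟨g, g.2, ?_⟩
  have h4 : (⟨y, hy⟩ : L) ∈ (Q : Subgroup L) := hQ (Subgroup.mem_zpowers _)
  have h5 : g * ⟨y, hy⟩ * g⁻¹ ∈ ((g • Q : Sylow 2 L) : Subgroup L) := by
    rw [Sylow.coe_subgroup_smul]
    exact Subgroup.smul_mem_pointwise_smul _ (MulAut.conj g) _ h4
  rw [hg] at h5
  have h6 : g * ⟨y, hy⟩ * g⁻¹ ∈ U.subgroupOf L := h5
  exact Subgroup.mem_subgroupOf.1 h6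

theorem Q6_two {y : GL6} (hy : y ∈ L) {n : ℕ} (h2 : y ^ 2 ^ n = 1) : Q6 y := by
  obtain ⟨a, ha, h⟩ := exists_conj_U' hy h2
  exact Q6.of_conj ha (Q6_U h)

theorem orderOf_dvd_of_mem {K : Subgroup GL6} {y : GL6} (hy : y ∈ K) : orderOf y ∣ Nat.card K := by
  have h := orderOf_dvd_natCard (⟨y, hy⟩ : K)
  rwa [Subgroup.orderOf_mk] at h

/-- the order of an element which commutes with an involution -/
theorem order_of_inv {g i : GL6} (hg : g ∈ L) (hi : i ∈ L) (h2 : i * i = 1) (h1 : i ≠ 1)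
    (hc : g * i = i * g) : orderOf g ∣ 61440 := by
  obtain ⟨a, ha, h⟩ := conj_of_mem_L hi h2 h1
  have hg' : a * g * a⁻¹ ∈ L := L.mul_mem (L.mul_mem ha hg) (L.inv_mem ha)
  have hc' : (a * g * a⁻¹) * (a * i * a⁻¹) = (a * i * a⁻¹) * (a * g * a⁻¹) := by
    calc (a * g * a⁻¹) * (a * i * a⁻¹) = a * (g * i) * a⁻¹ := by group
      _ = a * (i * g) * a⁻¹ := by rw [hc]
      _ = _ := by group
  have ho : orderOf (a * g * a⁻¹) = orderOf g := by
    have := (MulAut.conj a).orderOf_eq g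
    simpa using this
  rw [← ho]
  rcases h with h | h
  · rw [h] at hc'
    have := orderOf_dvd_of_mem (mem_P_of_comm hg' hc')
    rwa [card_P] at this
  · rw [h] at hc'
    have h3 : a * g * a⁻¹ ∈ Cfsg.Agent.StdG24.Inv6.Cv := ⟨hg', hc'⟩
    have h4 : a * g * a⁻¹ ∈ S1 := ⟨hg', Cfsg.Agent.StdG24.Inv6.Cv_e0 h3⟩
    have := orderOf_dvd_of_mem h4
    rwa [card_S1] at this

/-- **every element of `G₂(4)`** -/
theorem Q6_all {g : GL6} (hg : g ∈ L) : Q6 g := by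
  have hfin : Finite L := MdlInv.finite_L
  have hpos : 0 < orderOf g := by
    have h := orderOf_pos (⟨g, hg⟩ : L)
    rwa [Subgroup.orderOf_mk] at h
  have hpr : ∀ p : ℕ, p.Prime → p ∣ orderOf g → ∃ s ∈ L, s ^ p = 1 ∧ s ≠ 1 ∧ g * s = s * g := by
    intro p hp hd
    refine ⟨g ^ (orderOf g / p), L.pow_mem hg _, ?_, ?_, (Commute.refl g).pow_right _⟩
    · rw [← pow_mul, Nat.div_mul_cancel hd, pow_orderOf_eq_one]
    · intro h
      have h1 := orderOf_dvd_of_pow_eq_one h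
      have h2 : orderOf g / p < orderOf g := Nat.div_lt_self hpos hp.one_lt
      have h3 : 0 < orderOf g / p := Nat.div_pos (Nat.le_of_dvd hpos hd) hp.pos
      exact absurd (Nat.le_of_dvd h3 h1) (not_le.2 h2)
  by_cases h5 : 5 ∣ orderOf g
  · obtain ⟨s, hs, hs5, hs1, hc⟩ := hpr 5 (by norm_num) h5
    exact Q6_of_five hg hs hs5 hs1 hc
  by_cases h3 : 3 ∣ orderOf g
  · obtain ⟨s, hs, hs3, hs1, hc⟩ := hpr 3 (by norm_num) h3
    exact Q6_of_three hg hs hs3 hs1 hc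
  by_cases h2 : 2 ∣ orderOf g
  · obtain ⟨s, hs, hs2, hs1, hc⟩ := hpr 2 (by norm_num) h2
    have h6 := order_of_inv hg hs (by rw [← pow_two, hs2]) hs1 hc
    have h7 : orderOf g ∣ 2 ^ 12 := by
      have e : (61440 : ℕ) = 2 ^ 12 * 15 := by norm_num
      rw [e] at h6
      refine Nat.Coprime.dvd_of_dvd_mul_right ?_ h6
      rw [show (15 : ℕ) = 3 * 5 by norm_num]
      exact Nat.Coprime.mul_right (((Nat.Prime.coprime_iff_not_dvd (by norm_num)).2 h3).symm)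
        (((Nat.Prime.coprime_iff_not_dvd (by norm_num)).2 h5).symm)
    exact Q6_two hg (n := 12) (orderOf_dvd_iff_pow_eq_one.1 h7)
  · refine ⟨g, hg, 1, L.one_mem, (mul_one g).symm, ⟨orderOf g, ?_, pow_orderOf_eq_one g⟩, 1, by norm_num,
      one_pow _⟩
    exact (show (orderOf g).Coprime (2 * 3) from
      Nat.Coprime.mul_right (((Nat.Prime.coprime_iff_not_dvd (by norm_num)).2 h2).symm)
        (((Nat.Prime.coprime_iff_not_dvd (by norm_num)).2 h3).symm))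

theorem all_L : All 6 L := by
  rintro ⟨g, hg⟩
  obtain ⟨a, ha, b, hb, e, ⟨m, hm, hm'⟩, n, hn, hn'⟩ := Q6_all hg
  refine ⟨⟨a, ha⟩, ⟨b, hb⟩, Subtype.ext e, ?_, ?_⟩
  · exact Nat.Coprime.of_dvd_left (orderOf_dvd_of_pow_eq_one (Subtype.ext hm')) hm
  · exact Nat.Coprime.of_dvd_left (orderOf_dvd_of_pow_eq_one (Subtype.ext hn')) hn

/-- **`G₂(4)`** -/
theorem six_g2_four (F : Type*) [Field F] [Fintype F] (hF : Fintype.card F = 4) :
    All 6 ↥(Cfsg.Lie.chevG2.group F) := by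
  obtain ⟨e⟩ := Cfsg.Agent.StdG24.Iso6.equiv_chev F hF
  exact all_L.congr e

end Cfsg.Agent.H538.Pw.GFour
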