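import Cfsg.Agent.GTwoFour.MdlInv
import Cfsg.Agent.StdG24.Ax6
import Cfsg.Agent.H962.PP.PwPsl
import Cfsg.Agent.LieClassical.SLGen
import Cfsg.Agent.H78.Pw.Base

/-!
# S2465, `G₂(4)`: elements of order divisible by 3 or 5 (helper538)

In the six dimensional model `L` of `G₂(4)` every element of order divisible by 3 or 5 is a product of two
elements of order prime to 6.
-/

set_option autoImplicit false
set_option linter.unusedVariables false
set_option maxHeartbeats 1000000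

namespace Cfsg.Agent.H538.Pw.GFour

open Matrix
open Cfsg.Agent.SporRec
open Cfsg.Agent.SporRec.GF4
open Cfsg.Agent.SporRec.G24Code (app)
open Cfsg.Agent.SporRec.G24Orb (allb allb_spec)
open Cfsg.Agent.StdG24.Mod6
open Cfsg.Agent.StdG24.Ord6
open Cfsg.Agent.StdG24.Al6
open Cfsg.Agent.StdG24.Cent6
open Cfsg.Agent.StdG24.Cls6 (add_self' F4_add_self)

/-- product of two elements of `L` of order prime to 6 -/
def Q6 (g : GL6) : Prop :=
  ∃ a ∈ L, ∃ b ∈ L, g = a * b ∧ (∃ m : ℕ, m.Coprime 6 ∧ a ^ m = 1) ∧ ∃ m : ℕ, m.Coprime 6 ∧ b ^ m = 1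

theorem Q6.conj {g k : GL6} (h : Q6 g) (hk : k ∈ L) : Q6 (k * g * k⁻¹) := by
  obtain ⟨a, ha, b, hb, rfl, ⟨m, hm, hm'⟩, n, hn, hn'⟩ := h
  have hc : ∀ (x : GL6) (i : ℕ), (k * x * k⁻¹) ^ i = k * x ^ i * k⁻¹ := fun x i => conj_pow
  refine ⟨k * a * k⁻¹, L.mul_mem (L.mul_mem hk ha) (L.inv_mem hk), k * b * k⁻¹,
    L.mul_mem (L.mul_mem hk hb) (L.inv_mem hk), by group, ⟨m, hm, ?_⟩, n, hn, ?_⟩
  · rw [hc, hm', mul_one, mul_inv_cancel]
  · rw [hc, hn', mul_one, mul_inv_cancel]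

theorem Q6.of_conj {g k : GL6} (hk : k ∈ L) (h : Q6 (k * g * k⁻¹)) : Q6 g := by
  have h1 := h.conj (L.inv_mem hk)
  have e : k⁻¹ * (k * g * k⁻¹) * k⁻¹⁻¹ = g := by group
  rwa [e] at h1

theorem Q6.of_conj' {g k : GL6} (hk : k ∈ L) (h : Q6 (k⁻¹ * g * k)) : Q6 g := by
  have h1 := h.conj hk
  have e : k * (k⁻¹ * g * k) * k⁻¹ = g := by group
  rwa [e] at h1

/-! ### `A₅ × A₅` -/

def fiveProd (T : List (List ℕ × List ℕ)) : Bool :=
  T.all fun x => T.any fun p => eqC (powC p.1 5) idC && eqC (powC (mulC p.2 x.1) 5) idC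

theorem fiveProd_Al : fiveProd ALT = true := by decide +kernel
theorem fiveProd_As : fiveProd AST = true := by decide +kernel

theorem five_of {H : Subgroup GL6} {T : List (List ℕ × List ℕ)} (hT : fiveProd T = true)
    (h1 : ∀ g ∈ H, ∃ e ∈ T, Cod g e) (h2 : ∀ e ∈ T, ∃ g ∈ H, Cod g e) {g : GL6} (hg : g ∈ H) :
    ∃ p ∈ H, ∃ q ∈ H, g = p * q ∧ p ^ 5 = 1 ∧ q ^ 5 = 1 := by
  obtain ⟨e, he, hc⟩ := h1 g hg
  have h3 := List.all_eq_true.1 hT e he
  obtain ⟨d, hd, h4⟩ := List.any_eq_true.1 h3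
  rw [Bool.and_eq_true, eqC_iff, eqC_iff] at h4
  obtain ⟨p, hp, hpc⟩ := h2 d hd
  refine ⟨p, hp, p⁻¹ * g, H.mul_mem (H.inv_mem hp) hg, (mul_inv_cancel_left p g).symm, ?_, ?_⟩
  · exact (eq_one_iff (isCode_pow hpc.1 5)).2 h4.1
  · exact (eq_one_iff (isCode_pow (isCode_mul' hpc.2 hc.1) 5)).2 h4.2

theorem five_Al {g : GL6} (hg : g ∈ Al) : ∃ p ∈ Al, ∃ q ∈ Al, g = p * q ∧ p ^ 5 = 1 ∧ q ^ 5 = 1 :=
  five_of fiveProd_Al (fun _ => exists_cod_Al) (fun _ => exists_elt_Al) hg

theorem five_As {g : GL6} (hg : g ∈ As) : ∃ p ∈ As, ∃ q ∈ As, g = p * q ∧ p ^ 5 = 1 ∧ q ^ 5 = 1 :=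
  five_of fiveProd_As (fun _ => exists_cod_As) (fun _ => exists_elt_As) hg

/-- elements of `A₅ × A₅` -/
theorem Q6_prod {s a : GL6} (hs : s ∈ As) (ha : a ∈ Al) : Q6 (s * a) := by
  obtain ⟨p, hp, q, hq, rfl, hp5, hq5⟩ := five_As hs
  obtain ⟨p', hp', q', hq', rfl, hp5', hq5'⟩ := five_Al ha
  have c1 : Commute p p' := (comm_Al_As hp' hp).symm
  have c2 : Commute q q' := (comm_Al_As hq' hq).symm
  have c3 : q * p' = p' * q := (comm_Al_As hp' hq).symm
  refine ⟨p * p', L.mul_mem (As_le hp) (Al_le hp'), q * q', L.mul_mem (As_le hq) (Al_le hq'), ?_,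
    ⟨5, by norm_num, ?_⟩, 5, by norm_num, ?_⟩
  · calc p * q * (p' * q') = p * (q * p') * q' := by group
      _ = p * (p' * q) * q' := by rw [c3]
      _ = p * p' * (q * q') := by group
  · rw [c1.mul_pow, hp5, hp5', one_mul]
  · rw [c2.mul_pow, hq5, hq5', one_mul]

/-- elements which commute with `w` -/
theorem Q6_of_w {g : GL6} (hg : g ∈ L) (h : g * wE = wE * g) : Q6 g := by
  obtain ⟨i, s, hs, rfl⟩ := cent_w hg h
  have e : wE ^ i * s = s * wE ^ i := comm_Al_As (Al.pow_mem wE_mem i) hs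
  rw [e]
  exact Q6_prod hs (Al.pow_mem wE_mem i)

theorem Q6_of_u {g : GL6} (hg : g ∈ L) (h : g * uE = uE * g) : Q6 g := by
  obtain ⟨i, s, hs, rfl⟩ := cent_u hg h
  exact Q6_prod (As.pow_mem uE_mem i) hs

theorem exists_inv_mod {k : ℕ} (hk : ¬ 5 ∣ k) : ∃ j : ℕ, (k * j) % 5 = 1 := by
  have h : k % 5 ≠ 0 := fun h => hk (Nat.dvd_of_mod_eq_zero h)
  have h2 : k % 5 < 5 := Nat.mod_lt _ (by norm_num)
  have h3 : ∀ r < 5, r ≠ 0 → ∃ j : ℕ, (r * j) % 5 = 1 := by
    intro r hr hr0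
    interval_cases r
    · exact absurd rfl hr0
    · exact ⟨1, rfl⟩
    · exact ⟨3, rfl⟩
    · exact ⟨2, rfl⟩
    · exact ⟨4, rfl⟩
  obtain ⟨j, hj⟩ := h3 _ h2 h
  exact ⟨j, by rw [Nat.mul_mod, Nat.mod_mod] at hj; rw [Nat.mul_mod]; exact hj⟩

theorem comm_of_pow {g w : GL6} (hw : w ^ 5 = 1) {k : ℕ} (hk : w ^ k ≠ 1) (h : g * w ^ k = w ^ k * g) :
    g * w = w * g := by
  have hk5 : ¬ 5 ∣ k := by
    rintro ⟨m, rfl⟩
    exact hk (by rw [pow_mul, hw, one_pow])
  obtain ⟨j, hj⟩ := exists_inv_mod hk5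
  have e : (w ^ k) ^ j = w := by
    rw [← pow_mul]
    have h1 : k * j = 5 * (k * j / 5) + 1 := by
      have := Nat.div_add_mod (k * j) 5
      omega
    rw [h1, pow_add, pow_mul, hw, one_pow, one_mul, pow_one]
  have h1 : Commute g ((w ^ k) ^ j) := (show Commute g (w ^ k) from h).pow_right j
  rw [e] at h1
  exact h1.eq

/-- an element which commutes with an element of order 5 -/
theorem Q6_of_five {g s : GL6} (hg : g ∈ L) (hs : s ∈ L) (h5 : s ^ 5 = 1) (h1 : s ≠ 1)
    (hc : g * s = s * g) : Q6 g := by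
  obtain ⟨⟨k, hk⟩, i, h⟩ := Cfsg.Agent.StdG24.Ax6.l_five ⟨s, hs⟩ (Subtype.ext h5)
  have hc' : (k * g * k⁻¹) * (k * s * k⁻¹) = (k * s * k⁻¹) * (k * g * k⁻¹) := by
    calc (k * g * k⁻¹) * (k * s * k⁻¹) = k * (g * s) * k⁻¹ := by group
      _ = k * (s * g) * k⁻¹ := by rw [hc]
      _ = _ := by group
  have hne : k * s * k⁻¹ ≠ 1 := by
    intro h
    apply h1
    calc s = k⁻¹ * (k * s * k⁻¹) * k := by group
      _ = 1 := by rw [h]; group
  have hgk : k * g * k⁻¹ ∈ L := L.mul_mem (L.mul_mem hk hg) (L.inv_mem hk)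
  apply Q6.of_conj hk
  rcases h with h | h
  · have h' : k * s * k⁻¹ = uE ^ i := congrArg Subtype.val h
    rw [h'] at hc' hne
    exact Q6_of_u hgk (comm_of_pow uE_pow hne hc')
  · have h' : k * s * k⁻¹ = wE ^ i := congrArg Subtype.val h
    rw [h'] at hc' hne
    exact Q6_of_w hgk (comm_of_pow wE_pow hne hc')

/-! ### Elements of order three with fixed vectors -/

theorem fix3_check : (ALT.all fun e => eqC e.1 idC || !(eqC (powC e.1 3) idC) ||
    allb (fun m => !(Nat.beq (app e.1 (4 * m)) (4 * m)) || Nat.beq m 0) 256) = true := by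
  decide +kernel

theorem e0_apply : ∀ i : Fin 6, e0 i = if i = 0 then 1 else 0 := by decide +kernel
theorem e1_apply : ∀ i : Fin 6, e1 i = if i = 5 then 1 else 0 := by decide +kernel

theorem V0_lin : ∀ c d : F4, V0 (c • e0 + d • e1) := by
  have h : ∀ c d : F4, ∃ a < 4, ∃ b < 4, c • e0 + d • e1 = dec (a + 1024 * b) := by decide +kernel
  exact h

theorem coord_zero {n : ℕ} {i : Fin 6} (h : dec n i = 0) :
    n / 2 ^ (2 * (i : ℕ)) % 2 = 0 ∧ n / 2 ^ (2 * (i : ℕ) + 1) % 2 = 0 := by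
  have h1 : SporRec.G24Code.ofBits (n.testBit (2 * (i : ℕ))) (n.testBit (2 * (i : ℕ) + 1)) = 0 := h
  have h2 : ∀ a b : Bool, SporRec.G24Code.ofBits a b = 0 → a = false ∧ b = false := by decide
  obtain ⟨h3, h4⟩ := h2 _ _ h1
  rw [Nat.testBit_eq_decide_div_mod_eq, decide_eq_false_iff_not] at h3 h4
  omega

/-- the fixed vectors of an element of order 3 of `A_l` -/
theorem V0_of_fix3 {t : GL6} (ht : t ∈ Al) (h3 : t ^ 3 = 1) (h1 : t ≠ 1) {x : Vec} (hx : act t x = x) :
    V0 x := by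
  obtain ⟨e, he, hc⟩ := exists_cod_Al ht
  have hk := List.all_eq_true.1 fix3_check e he
  rw [Bool.or_eq_true, Bool.or_eq_true, eqC_iff, Bool.not_eq_true', ← Bool.not_eq_true, eqC_iff] at hk
  rcases hk with (hk | hk) | hk
  · exact absurd ((eq_one_iff hc.1).2 hk) h1
  · exact absurd ((eq_one_iff (isCode_pow hc.1 3)).1 h3) hk
  obtain ⟨⟨htL, ht0⟩, ht1⟩ := mem_Al_iff.1 ht
  obtain ⟨x', hx'⟩ : ∃ x' : Vec, x' = x + (x 0 • e0 + x 5 • e1) := ⟨_, rfl⟩
  have hfix : act t x' = x' := by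
    rw [hx', act_add, act_add, act_smul, act_smul, hx, ht0, ht1]
  have h0 : x' 0 = 0 := by
    rw [hx']
    simp only [Pi.add_apply, Pi.smul_apply, e0_apply, e1_apply, smul_eq_mul]
    simp only [if_true, mul_one]
    rw [if_neg (by decide), mul_zero, add_zero]
    exact F4_add_self _
  have h5 : x' 5 = 0 := by
    rw [hx']
    simp only [Pi.add_apply, Pi.smul_apply, e0_apply, e1_apply, smul_eq_mul]
    simp only [if_true, mul_one]
    rw [if_neg (by decide), mul_zero, zero_add]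
    exact F4_add_self _
  obtain ⟨n, hn, hnx⟩ := exists_dec x'
  rw [← hnx] at h0 h5
  have c0 := coord_zero h0
  have c5 := coord_zero h5
  have e0' : ((0 : Fin 6) : ℕ) = 0 := rfl
  have e5' : ((5 : Fin 6) : ℕ) = 5 := rfl
  rw [e0'] at c0
  rw [e5'] at c5
  norm_num at c0 c5
  obtain ⟨m, rfl⟩ : ∃ m, n = 4 * m := ⟨n / 4, by omega⟩
  have hm : m < 256 := by omega
  have h2 := allb_spec hk m hm
  rw [Bool.or_eq_true, Bool.not_eq_true'] at h2
  have hm0 : m = 0 := by
    rcases h2 with h2 | h2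
    · exfalso
      have h6 : app e.1 (4 * m) = 4 * m := (hc.1.app_eq_iff hn hn).1 (by rw [hnx]; exact hfix)
      rw [h6, Nat.beq_refl] at h2
      exact absurd h2 (by decide)
    · exact Nat.eq_of_beq_eq_true h2
  subst hm0
  have h7 : x' = 0 := by rw [← hnx]; exact dec_zero
  have h8 : x = x 0 • e0 + x 5 • e1 := by
    have h9 : x + (x 0 • e0 + x 5 • e1) = 0 := by rw [← hx', h7]
    have h10 := add_self' (x 0 • e0 + x 5 • e1)
    calc x = x + (x 0 • e0 + x 5 • e1) + (x 0 • e0 + x 5 • e1) := by rw [add_assoc, h10, add_zero]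
      _ = _ := by rw [h9, zero_add]
  rw [h8]
  exact V0_lin _ _

/-- an element which commutes with an element of order 3 with fixed vectors -/
theorem Q6_of_fix {g t : GL6} (hg : g ∈ L) (ht : t ∈ L) (h3 : t ^ 3 = 1) (h1 : t ≠ 1)
    (hc : g * t = t * g) {x : Vec} (hx0 : x ≠ 0) (hx : act t x = x) : Q6 g := by
  obtain ⟨y0, hy0⟩ := Cfsg.Agent.StdG24.Cls6.exists_form_one hx0
  have hinv : ∀ z, form x (act t z) = form x z := by
    intro z
    conv_lhs => rw [← hx]
    exact form_act ht x z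
  obtain ⟨y, hy⟩ : ∃ y : Vec, y = y0 + act t y0 + act t (act t y0) := ⟨_, rfl⟩
  have hxy : form x y = 1 := by
    rw [hy, form_add_right, form_add_right, hinv, hinv, hinv, hy0]
    decide
  have hty : act t y = y := by
    have e : act t (act t (act t y0)) = y0 := by
      rw [← act_mul, ← act_mul]
      have : t * t * t = 1 := by rw [← h3, pow_succ, pow_two]
      rw [this, act_one]
    rw [hy, act_add, act_add, e]
    abel
  obtain ⟨k, hk, hk0, hk1⟩ := trans_pair hxy
  have ht' : k⁻¹ * t * k ∈ L := L.mul_mem (L.mul_mem (L.inv_mem hk) ht) hk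
  have hA : k⁻¹ * t * k ∈ Al := by
    rw [mem_Al_iff]
    refine ⟨⟨ht', ?_⟩, ?_⟩
    · rw [act_mul, act_mul, hk0, hx, ← hk0, act_inv_act]
    · rw [act_mul, act_mul, hk1, hty, ← hk1, act_inv_act]
  have h3' : (k⁻¹ * t * k) ^ 3 = 1 := by
    calc (k⁻¹ * t * k) ^ 3 = k⁻¹ * t ^ 3 * k := by simp only [pow_succ, pow_zero]; group
      _ = 1 := by rw [h3]; group
  have h1' : k⁻¹ * t * k ≠ 1 := by
    intro h
    apply h1
    calc t = k * (k⁻¹ * t * k) * k⁻¹ := by group
      _ = 1 := by rw [h]; group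
  apply Q6.of_conj' hk
  have hg' : k⁻¹ * g * k ∈ L := L.mul_mem (L.mul_mem (L.inv_mem hk) hg) hk
  have hfix : ∀ z, act (k⁻¹ * t * k) z = z → V0 (act (k⁻¹ * g * k) z) := by
    intro z hz
    apply V0_of_fix3 hA h3' h1'
    rw [← act_mul]
    have e : k⁻¹ * t * k * (k⁻¹ * g * k) = (k⁻¹ * g * k) * (k⁻¹ * t * k) := by
      calc k⁻¹ * t * k * (k⁻¹ * g * k) = k⁻¹ * (t * g) * k := by group
        _ = k⁻¹ * (g * t) * k := by rw [hc]
        _ = _ := by group
    rw [e, act_mul, hz]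
  obtain ⟨⟨-, hA0⟩, hA1⟩ := mem_Al_iff.1 hA
  obtain ⟨s, hs, a, ha, e⟩ := split hg' (hfix _ hA0) (hfix _ hA1)
  rw [e]
  exact Q6_prod hs ha

/-! ### Elements of order three without fixed vectors -/

/-- the element `e0 ↦ e1 ↦ e0 + e1` of `A_s` -/
def s0W : Wd := [(9, 0), (2, 0)]
def s0 : GL6 := ev s0W
def s0C : List ℕ := [1024, 2048, 64, 128, 256, 512, 68, 136, 272, 544, 1025, 2050]

theorem cw_s0 : cw s0W = s0C := by decide +kernel
theorem isCode_s0 : IsCode (s0 : Mat) s0C := by rw [← cw_s0]; exact isCode_ev _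
theorem s0_mem : s0 ∈ As := ev_mem_As (by decide)

theorem s0_act : app s0C 1 = 1024 ∧ app s0C 1024 = 1025 := by decide +kernel

theorem s0_e0 : act s0 e0 = e1 := (isCode_s0.app_eq_iff (by norm_num) (by norm_num)).2 s0_act.1
theorem dec_1025 : dec 1025 = e0 + e1 := by
  have : (1025 : ℕ) = 1 ^^^ 1024 := by decide
  rw [this, dec_xor]; rfl
theorem s0_e1 : act s0 e1 = e0 + e1 := by
  rw [← dec_1025]
  exact (isCode_s0.app_eq_iff (by norm_num) (by norm_num)).2 s0_act.2
theorem s0_cube : s0 ^ 3 = 1 := (eq_one_iff (isCode_pow isCode_s0 3)).2 (by decide +kernel)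

theorem nofix_check : (ALT.all fun e => eqC e.1 idC || !(eqC (powC e.1 3) idC) ||
    ([72, 76, 288, 304, 360, 380, 80, 84].any fun n => Nat.beq (app (mulC s0C e.1) n) n)) = true := by
  decide +kernel

theorem dec_ne_zero {n : ℕ} (hn : n < 4096) (h : n ≠ 0) : dec n ≠ 0 := fun h1 =>
  h (dec_inj hn (by norm_num) (h1.trans dec_zero.symm))

theorem caseB {t : GL6} (ht : t ∈ L) (h3 : t ^ 3 = 1) (hfix : ∀ x, act t x = x → x = 0) :
    ∃ k ∈ L, k * t * k⁻¹ = s0 := by
  have e3 : ∀ x, act t (act t (act t x)) = x := by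
    intro x
    rw [← act_mul, ← act_mul]
    have : t * t * t = 1 := by rw [← h3, pow_succ, pow_two]
    rw [this, act_one]
  have hx : ∀ x, act t (act t x) = x + act t x := by
    intro x
    have h1 := hfix (x + act t x + act t (act t x)) (by
      rw [act_add, act_add, e3]; abel)
    have h2 := add_self' (x + act t x)
    calc act t (act t x) = (x + act t x + act t (act t x)) + (x + act t x) := by
          rw [add_right_comm, h2, zero_add]
      _ = _ := by rw [h1, zero_add]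
  obtain ⟨x, hxne⟩ : ∃ x, form x (act t x) ≠ 0 := by
    by_contra hcon
    push Not at hcon
    have h1 : ∀ x y, form x (act t y) = form y (act t x) := by
      intro x y
      have h2 := hcon (x + y)
      rw [act_add, form_add_left, form_add_right, form_add_right, hcon, hcon, zero_add, add_zero] at h2
      exact Cfsg.Agent.StdG24.Cls6.F4_eq_of_add h2
    have h2 : ∀ x y, form x y = 0 := by
      intro x y
      have h4 : form y (act t x) = form x (act t y) + form x y := by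
        calc form y (act t x) = form (act t x) y := form_comm _ _
          _ = form (act t (act t x)) (act t y) := (form_act ht _ _).symm
          _ = form (x + act t x) (act t y) := by rw [hx]
          _ = form x (act t y) + form x y := by rw [form_add_left, form_act ht]
      rw [← h1 x y] at h4
      exact left_eq_add.1 h4
    have h5 := h2 e0 e1
    rw [form_e0_e1] at h5
    exact absurd h5 (by decide)
  obtain ⟨c, hc⟩ : ∃ c : F4, c * (c * form x (act t x)) = 1 := by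
    have h : ∀ b : F4, b ≠ 0 → ∃ c : F4, c * (c * b) = 1 := by decide
    exact h _ hxne
  have hp : form (c • x) (act t (c • x)) = 1 := by
    rw [act_smul, form_smul_left, form_smul_right, hc]
  obtain ⟨k, hk, hk0, hk1⟩ := trans_pair hp
  have ht' : k⁻¹ * t * k ∈ L := L.mul_mem (L.mul_mem (L.inv_mem hk) ht) hk
  have a0 : act (k⁻¹ * t * k) e0 = e1 := by
    rw [act_mul, act_mul, hk0, ← hk1, act_inv_act]
  have a1 : act (k⁻¹ * t * k) e1 = e0 + e1 := by
    rw [act_mul, act_mul, hk1, hx, ← hk1, ← hk0, ← act_add, act_inv_act]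
  obtain ⟨s, hs, a, ha, e⟩ := split ht' (by rw [a0]; exact V0_e1) (by
    rw [a1, ← dec_1025]; exact ⟨1, by norm_num, 1, by norm_num, rfl⟩)
  obtain ⟨⟨haL, ha0⟩, ha1⟩ := mem_Al_iff.1 ha
  have b0 : act s e0 = e1 := by rw [← a0, e, act_mul, ha0]
  have b1 : act s e1 = e0 + e1 := by rw [← a1, e, act_mul, ha1]
  have hss : s = s0 := by
    have h1 : s0⁻¹ * s ∈ Al := by
      rw [mem_Al_iff]
      refine ⟨⟨L.mul_mem (L.inv_mem (As_le s0_mem)) (As_le hs), ?_⟩, ?_⟩
      · rw [act_mul, b0, ← s0_e0, act_inv_act]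
      · rw [act_mul, b1, ← s0_e1, act_inv_act]
    have h2 := inter (As.mul_mem (As.inv_mem s0_mem) hs) h1
    exact (inv_mul_eq_one.1 h2).symm
  subst hss
  have hcm : Commute s0 a := (comm_Al_As ha s0_mem).symm
  have h3' : (k⁻¹ * t * k) ^ 3 = 1 := by
    calc (k⁻¹ * t * k) ^ 3 = k⁻¹ * t ^ 3 * k := by simp only [pow_succ, pow_zero]; group
      _ = 1 := by rw [h3]; group
  have ha3 : a ^ 3 = 1 := by
    rw [e, hcm.mul_pow, s0_cube, one_mul] at h3'
    exact h3'
  have ha_one : a = 1 := by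
    by_contra hne
    obtain ⟨d, hd, hcd⟩ := exists_cod_Al ha
    have h1 := List.all_eq_true.1 nofix_check d hd
    rw [Bool.or_eq_true, Bool.or_eq_true, eqC_iff, Bool.not_eq_true', ← Bool.not_eq_true, eqC_iff] at h1
    rcases h1 with (h1 | h1) | h1
    · exact hne ((eq_one_iff hcd.1).2 h1)
    · exact h1 ((eq_one_iff (isCode_pow hcd.1 3)).1 ha3)
    · obtain ⟨n, hn, h2⟩ := List.any_eq_true.1 h1
      have hn' : n < 4096 ∧ n ≠ 0 := by
        have : ∀ n ∈ ([72, 76, 288, 304, 360, 380, 80, 84] : List ℕ), n < 4096 ∧ n ≠ 0 := by decide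
        exact this n hn
      have h4 : act (s0 * a) (dec n) = dec n :=
        ((isCode_mul' isCode_s0 hcd.1).app_eq_iff hn'.1 hn'.1).2 (Nat.eq_of_beq_eq_true h2)
      rw [← e] at h4
      have h5 : act t (act k (dec n)) = act k (dec n) := by
        conv_rhs => rw [← h4]
        rw [← act_mul, ← act_mul]
        congr 1
        group
      have h6 := hfix _ h5
      have h7 : dec n = 0 := by
        rw [← act_inv_act k (dec n), h6, act_zero]
      exact dec_ne_zero hn'.1 hn'.2 h7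
  refine ⟨k⁻¹, L.inv_mem hk, ?_⟩
  rw [inv_inv, e, ha_one, mul_one]

/-! ### The centralizer `SL₃(4)` -/

/-- the positions of the natural module and of its dual -/
def ep : Fin 3 ⊕ Fin 3 ≃ Fin 6 where
  toFun := Sum.elim ![0, 3, 4] ![5, 2, 1]
  invFun := ![Sum.inl 0, Sum.inr 2, Sum.inr 1, Sum.inl 1, Sum.inl 2, Sum.inr 0]
  left_inv := by decide
  right_inv := by decide

abbrev SL3 : Type := SpecialLinearGroup (Fin 3) F4

/-- `M ↦ M ⊕ M⁻ᵀ` as a matrix -/
def psM (M N : Matrix (Fin 3) (Fin 3) F4) : Mat := (fromBlocks M 0 0 Nᵀ).submatrix ep.symm ep.symm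

theorem psM_mul (M N M' N' : Matrix (Fin 3) (Fin 3) F4) :
    psM M N * psM M' N' = psM (M * M') (N' * N) := by
  rw [psM, psM, psM, submatrix_mul_equiv, fromBlocks_multiply]
  simp [transpose_mul]

theorem psM_one : psM 1 1 = 1 := by
  rw [psM, transpose_one, fromBlocks_one, submatrix_one_equiv]

/-- the matrix -/
def cM (M : SL3) : Matrix (Fin 3) (Fin 3) F4 := M.val

theorem cM_mul (M N : SL3) : cM (M * N) = cM M * cM N := rfl
theorem cM_one : cM 1 = 1 := rfl
theorem cM_inj {M N : SL3} (h : cM M = cM N) : M = N := Subtype.ext h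
theorem cM_mul_inv (M : SL3) : cM M * cM M⁻¹ = 1 := by rw [← cM_mul, mul_inv_cancel, cM_one]
theorem cM_inv_mul (M : SL3) : cM M⁻¹ * cM M = 1 := by rw [← cM_mul, inv_mul_cancel, cM_one]

/-- the embedding of `SL₃(4)` -/
def phi : SL3 →* GL6 where
  toFun M := ⟨psM (cM M) (cM M⁻¹), psM (cM M⁻¹) (cM M),
    by rw [psM_mul, cM_mul_inv, psM_one], by rw [psM_mul, cM_inv_mul, psM_one]⟩
  map_one' := Units.ext (by
    change psM (cM 1) (cM 1⁻¹) = 1
    rw [inv_one, cM_one, psM_one])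
  map_mul' M N := Units.ext (by
    change psM (cM (M * N)) (cM (M * N)⁻¹) = psM (cM M) (cM M⁻¹) * psM (cM N) (cM N⁻¹)
    rw [psM_mul, _root_.mul_inv_rev, cM_mul, cM_mul])

theorem coe_phi (M : SL3) : (phi M : Mat) = psM (cM M) (cM M⁻¹) := rfl

/-- transvections -/
def tv (i j : Fin 3) (c : F4) : Matrix (Fin 3) (Fin 3) F4 := fun a b =>
  (if a = b then 1 else 0) + if a = i ∧ b = j then c else 0

theorem tv_check : ∀ (i j : Fin 3), i ≠ j → ∀ c : F4, psM (tv i j c) (tv i j c) = 1 ∨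
    ∃ (r : Fin 12) (t : Fin 3), psM (tv i j c) (tv i j c) = matOf (xc r t) := by
  decide +kernel

theorem phi_tv {i j : Fin 3} (h : i ≠ j) (c : F4) : phi (SpecialLinearGroup.transvection h c) ∈ L := by
  have e1 : cM (SpecialLinearGroup.transvection h c : SL3) = tv i j c := by
    funext a b
    rw [tv]
    change transvection i j c a b = _
    rw [transvection, Matrix.add_apply, one_apply, single_apply]
    simp only [eq_comm]
  have e2 : cM (SpecialLinearGroup.transvection h c : SL3)⁻¹ = tv i j c := by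
    have h1 : (SpecialLinearGroup.transvection h c : SL3)⁻¹ = SpecialLinearGroup.transvection h c := by
      rw [inv_eq_iff_mul_eq_one]
      apply Subtype.ext
      change transvection i j c * transvection i j c = 1
      rw [transvection_mul_transvection_same _ _ h, F4_add_self, transvection_zero]
    rw [h1, e1]
  have e3 : (phi (SpecialLinearGroup.transvection h c) : Mat) = psM (tv i j c) (tv i j c) := by
    rw [coe_phi, e1, e2]
  rcases tv_check i j h c with h1 | ⟨r, t, h1⟩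
  · have : phi (SpecialLinearGroup.transvection h c) = 1 := Units.ext (by rw [e3, h1]; rfl)
    rw [this]
    exact L.one_mem
  · have : phi (SpecialLinearGroup.transvection h c) = gx r t := Units.ext (by rw [e3, h1]; rfl)
    rw [this]
    exact gx_mem _ _

theorem phi_mem (M : SL3) : phi M ∈ L :=
  Cfsg.Agent.LieClassical.SLGen.transvection_induction (fun M => phi M ∈ L) (fun _ _ h c => phi_tv h c)
    (fun A B hA hB => by rw [map_mul]; exact L.mul_mem hA hB) M

end Cfsg.Agent.H538.Pw.GFour
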