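import Cfsg.Agent.H538.Pw.HexRGD
import Cfsg.Agent.H650.AH.RowTwD4
import Cfsg.Agent.OddHalf.NI.ModelTw
import Cfsg.Agent.Nodes.RGDTwNode
import Cfsg.Agent.Nodes.ChevChart

/-!
# S2465: `³D₄(q)`, Gauss decomposition (helper538)
-/

set_option autoImplicit false
set_option linter.unusedSectionVars false

namespace Cfsg.Agent.H538.Pw

open CoxeterSystem Cfsg.Agent.ChevalleyStructure.CoxeterGeom Cfsg.Agent.Tits.Roots Cfsg.Agent.Tits.Core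
  Cfsg.Agent.Nodes.BNOf Cfsg.Agent.Nodes.BNOf.RGD Cfsg.Agent.Nodes.RGDTwGen Cfsg.Agent.Nodes.RGDChev
  Cfsg.Agent.Nodes.RGDFold Cfsg.Agent.Nodes.RGDTwD4
open Cfsg.Lie Cfsg.Agent.ChevalleyStructure
  Cfsg.Agent.ChevalleyStructure.TwistedU Cfsg.Agent.ChevalleyStructure.TwistedFix
open Cfsg.Agent.ChevalleyStructure.D4Comm
open Cfsg.Agent.ChevalleyStructure.D4Pos (lprod_inj)
open Cfsg.Agent.ChevalleyStructure.D4NConj (nR hR)
open Cfsg.Agent.ChevalleyStructure.D4U Cfsg.Agent.ChevalleyStructure.D4Twisted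
open Cfsg.Agent.ChevalleyStructure.D4Fixed (sig)
open Cfsg.Agent.TitsThree.RankTwoZ Cfsg.Agent.Cit.HexBase Cfsg.Agent.Cit.HexBase.HexGrp Cfsg.Agent.Lib.SL2Mat
open Cfsg.Agent.Hexagon.TwD4Par Cfsg.Agent.Hexagon.TwD4Rel
open Cfsg.Agent.H650.AH.RowTwD4 (LL cls_pos X_eq hwp two)

universe u

theorem cls_neg' : ∀ r : Fin 24, (∀ i : Fin 2, V chevD4 J r i ≤ 0) →
    ∃ k ∈ ({0, 7, 8, 9, 10, 11} : Finset (ZMod (2 * 6))), ∀ s < 24, (V chevD4 J s = V chevD4 J r ↔ s ∈ LL k) := by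
  decide +kernel

theorem cls_neg (r : ℕ) (hr : r < 24) (h : ∀ i : Fin 2, V chevD4 J r i ≤ 0) :
    ∃ k ∈ ({0, 7, 8, 9, 10, 11} : Finset (ZMod (2 * 6))), ∀ s < 24, (V chevD4 J s = V chevD4 J r ↔ s ∈ LL k) :=
  cls_neg' ⟨r, hr⟩ h

variable {K : Type u} [Field K] [Fintype K] {q : ℕ}

theorem hfD {φ : K →+* K} (i : Fin 2) : ∀ s ∈ Cfsg.Agent.Nodes.RGDTwNode.D4.rep i :: Cfsg.Agent.Nodes.RGDTwNode.D4.rest i,
    ∀ t : K, ((eps s : ℤ) : K) * φ t = φ t := fun s hs t => by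
  rw [Cfsg.Agent.Nodes.RGDTwNode.D4.eps_one i s hs, Int.cast_one, one_mul]

theorem coordD4 {φ : K →+* K} (hφ : ∀ x, φ x = x ^ q) (hK : Fintype.card K = q ^ 3) :
    Cfsg.Agent.OddHalf.NI.Mult.Coord (Cfsg.Agent.Nodes.RGDTwD4.X φ q)
      (fun i => Cfsg.Agent.Nodes.RGDFoldSL.Fx φ ((Cfsg.Agent.Nodes.RGDTwNode.D4.rest i).length + 1))
      (fun i => Cfsg.Agent.Nodes.RGDFoldSL.Phi (foldGrp hφ (D4Fixed.twisted_le_fix hK hφ))
        (Cfsg.Agent.Nodes.RGDTwNode.D4.nodeOK i) (hfD i)) := by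
  obtain ⟨p, hp'⟩ := CharP.exists K
  have : Fact p.Prime := ⟨CharP.char_is_prime K p⟩
  exact Cfsg.Agent.OddHalf.NI.ModelTw.coord (foldGrp hφ (D4Fixed.twisted_le_fix hK hφ))
    Cfsg.Agent.Nodes.RGDTwNode.D4.nodeOK hfD CoxeterMatrix.G₂.toCoxeterSystem isCartan foldData p

theorem hg_d4 {σ : K ≃+* K} (hK : Fintype.card K = q ^ 3) (hσ : ∀ x, σ x = x ^ q) (hq : IsPrimePow q) :
    HG (Cfsg.Agent.Cit.HexD4.d4 hq hK hσ) := by
  obtain ⟨p, hpc⟩ := CharP.exists K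
  have : Fact p.Prime := ⟨CharP.char_is_prime K p⟩
  have : IsSimpleGroup ↥(twistedD4 K q) := (S1071.result hq hK).1
  have hφ : ∀ x, (σ : K →+* K) x = x ^ q := hσ
  have hle : twistedD4 K q ≤ D4Fixed.fix (σ : K →+* K) := D4Fixed.twisted_le_fix hK hσ
  set cs := (CoxeterMatrix.G₂).toCoxeterSystem with hcs
  have hW := Nodes.RGDFold.finite_W (hp := hp) cs isCartan foldData
  refine hg_of_rgd (Nodes.RGDTwD4.rgd cs hK hφ p) (Nodes.RGDTwD4.G1_eq_top cs hK hφ) (coordD4 hφ hK)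
    (Cfsg.Agent.Nodes.ChevChart.irr_of Cfsg.Agent.Nodes.ChevChart.irrG) ?_ ?_
  · refine Sup_le fun x hx => ?_
    obtain ⟨r, hr, rfl⟩ := (foldData.isRoot_iff (cs := cs) (h := isCartan) hp.checked hwp x).1 hx.1
    obtain ⟨k, hk, h1⟩ := cls_pos r hr hx.2
    exact le_trans (le_of_eq (X_eq hle h1)) (X_le_Sg hk)
  · refine Sup_le fun x hx => ?_
    obtain ⟨r, hr, rfl⟩ := (foldData.isRoot_iff (cs := cs) (h := isCartan) hp.checked hwp x).1 hx.1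
    obtain ⟨k, hk, h1⟩ := cls_neg r hr hx.2
    exact le_trans (le_of_eq (X_eq hle h1)) (X_le_Sg hk)

theorem own_d4 (hK : Fintype.card K = q ^ 3) (hq : IsPrimePow q) (p : ℕ) [CharP K p] {N : ℕ} (hN : p.Coprime N) :
    H78.Pw.All N ↥(twistedD4 K q) := by
  have : Fact p.Prime := ⟨CharP.char_is_prime K p⟩
  have : IsSimpleGroup ↥(twistedD4 K q) := (S1071.result hq hK).1
  obtain ⟨φ, hφ⟩ := D4Fixed.exists_frob hq hK
  set cs := (CoxeterMatrix.G₂).toCoxeterSystem with hcs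
  have hW := Nodes.RGDFold.finite_W (hp := hp) cs isCartan foldData
  exact all_own (Nodes.RGDTwD4.rgd cs hK hφ p) (Nodes.RGDTwD4.G1_eq_top cs hK hφ) (coordD4 hφ hK)
    (Cfsg.Agent.Nodes.ChevChart.irr_of Cfsg.Agent.Nodes.ChevChart.irrG) hN

end Cfsg.Agent.H538.Pw
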