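import Cfsg.Agent.H538.Pw.HexRGD
import Cfsg.Agent.H162.GaussExc
import Cfsg.Agent.H650.AH.RowG2
import Cfsg.Agent.Nodes.ChevChart

/-!
# S2465: `G₂(q)` (helper538)

* `hg_g2` : the Gauss decomposition with trivial torus part;
* `own_g2` : products of two `r`-elements;
-/

set_option autoImplicit false

namespace Cfsg.Agent.H538.Pw

open Cfsg Cfsg.Lie Cfsg.Agent.Tits.RootComb Cfsg.Agent.Nodes.Comb Cfsg.Agent.Nodes.Reps Cfsg.Agent.Nodes.BNOf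
  Cfsg.Agent.Nodes.BNOf.RGD Cfsg.Agent.Nodes.RGDChev Cfsg.Agent.ChevalleyStructure.Elts Cfsg.Agent.Tits.Roots
  Cfsg.Agent.ChevalleyStructure.NPerm Cfsg.Agent.ChevalleyStructure.BNChev Cfsg.Agent.ChevalleyStructure.CoxeterGeom
open Cfsg.Agent.Hexagon.G2Side Cfsg.Agent.Hexagon.G2Pos Cfsg.Agent.TitsThree.RankTwoZ
open Cfsg.Agent.Cit.HexBase Cfsg.Agent.Cit.HexBase.HexGrp Cfsg.Agent.Lib.SL2Mat
open Cfsg.Agent.H650.AH.RowG2 (hp tab_pos pos_tab two)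

universe u

variable {F : Type u} [Field F]

theorem tab_neg : ∀ r < 12, (∀ i : Fin 2, vec chevG2 2 r i ≤ 0) → ∃ k : ZMod (2 * 6),
    k ∈ ({0, 7, 8, 9, 10, 11} : Finset (ZMod (2 * 6))) ∧ tab k = r := by decide +kernel

theorem hg_g2 [Finite F] (ha : ∃ a : F, a ≠ 0 ∧ a ≠ 1) : HG (Cfsg.Agent.H148.Hex.g2' F ha) := by
  obtain ⟨p, hpc⟩ := CharP.exists F
  have : Fact p.Prime := ⟨CharP.char_is_prime F p⟩
  have hW := finite_W hp (CoxeterMatrix.G₂).toCoxeterSystem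
  have : IsSimpleGroup ↥(chevG2.group F) := (S1055.result ha).1
  set cs := (CoxeterMatrix.G₂).toCoxeterSystem with hcs
  refine hg_of_rgd (rgd (K := F) hp cs p) (G1_eq_top hp cs) (Cfsg.Agent.H162.GaussExc.coord hp)
    (Cfsg.Agent.Nodes.ChevChart.irr_of Cfsg.Agent.Nodes.ChevChart.irrG) ?_ ?_
  · refine Sup_le fun x hx => ?_
    obtain ⟨r, hr, rfl⟩ := (isRoot_iff hp cs x).1 hx.1
    obtain ⟨k, hk, rfl⟩ := tab_pos r hr hx.2
    refine le_trans (le_of_eq ?_) (X_le_Sg hk)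
    rw [XV_vec hp F hr]
    rfl
  · refine Sup_le fun x hx => ?_
    obtain ⟨r, hr, rfl⟩ := (isRoot_iff hp cs x).1 hx.1
    obtain ⟨k, hk, rfl⟩ := tab_neg r hr hx.2
    refine le_trans (le_of_eq ?_) (X_le_Sg hk)
    rw [XV_vec hp F hr]
    rfl

theorem own_g2 [Finite F] (ha : ∃ a : F, a ≠ 0 ∧ a ≠ 1) (p : ℕ) [CharP F p] {N : ℕ} (hN : p.Coprime N) :
    H78.Pw.All N ↥(chevG2.group F) := by
  have : Fact p.Prime := ⟨CharP.char_is_prime F p⟩
  have hW := finite_W hp (CoxeterMatrix.G₂).toCoxeterSystem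
  have : IsSimpleGroup ↥(chevG2.group F) := (S1055.result ha).1
  set cs := (CoxeterMatrix.G₂).toCoxeterSystem with hcs
  exact all_own (rgd (K := F) hp cs p) (G1_eq_top hp cs) (Cfsg.Agent.H162.GaussExc.coord hp)
    (Cfsg.Agent.Nodes.ChevChart.irr_of Cfsg.Agent.Nodes.ChevChart.irrG) hN

end Cfsg.Agent.H538.Pw
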