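import Cfsg.Agent.H148.EvenSL
import Cfsg.Agent.ClassicalGeometry.PSL2Basic

/-!
# `SL(2,q)`: products of two elements with given traces (helper538)

* `exists_prod` : a nonscalar matrix over a finite field is `A * B` with `tr A = a`, `tr B = b`, if `a ≠ ± b` or
  `X ^ 2 - b X + 1` has a root;
* `pow_of_trace` : `A ^ k` depends on the trace only.
* `exists_ell` : for `q = 2 ^ n, 3 ^ n`, `q > 3`, there is a prime `l ≥ 5` dividing `q ^ 2 - 1`.
-/

set_option autoImplicit false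

namespace Cfsg.Agent.H538.Pw

open Cfsg.Agent.Lib.SL2Mat Cfsg.Agent.H148.SLTwo

variable {K : Type*} [Field K]

/-- the conic -/
theorem conic [Fintype K] (t a b : K) (hab : (a ≠ b ∧ a ≠ -b) ∨ ∃ w : K, w * w - b * w + 1 = 0) :
    ∃ x z : K, x * x + z * z - t * x * z - b * x - (a - t * b) * z + 1 = 0 := by
  by_cases ht : t ^ 2 = 4
  · -- `t = ± 2`
    obtain ⟨ε, hε, hte⟩ : ∃ ε : K, (ε = 1 ∨ ε = -1) ∧ t = 2 * ε := by
      have : (t - 2) * (t + 2) = 0 := by linear_combination ht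
      rcases mul_eq_zero.1 this with h | h
      · exact ⟨1, Or.inl rfl, by linear_combination h⟩
      · exact ⟨-1, Or.inr rfl, by linear_combination h⟩
    have hε2 : ε * ε = 1 := by rcases hε with h | h <;> rw [h] <;> ring
    by_cases h1 : a = ε * b
    · obtain ⟨w, hw⟩ : ∃ w : K, w * w - b * w + 1 = 0 := by
        rcases hab with ⟨h2, h3⟩ | h2
        · exfalso
          rcases hε with h | h
          · exact h2 (by rw [h1, h]; ring)
          · exact h3 (by rw [h1, h]; ring)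
        · exact h2
      refine ⟨w, 0, ?_⟩
      linear_combination hw
    · have h2 : a - ε * b ≠ 0 := sub_ne_zero.2 h1
      refine ⟨ε * (1 / (a - ε * b)), 1 / (a - ε * b), ?_⟩
      rw [hte]
      field_simp
      linear_combination (1 + (-2 : K)) * hε2
  by_cases h2 : (2 : K) = 0
  · -- characteristic two
    have : CharP K 2 := CharTwo.of_one_ne_zero_of_two_eq_zero one_ne_zero h2
    have ht0 : t ≠ 0 := by
      rintro rfl
      apply ht
      linear_combination (-2) * h2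
    obtain ⟨x, hx⟩ := (FiniteField.isSquare_of_char_two (F := K) (ringChar.eq K 2)
      (-((b / t) * (b / t) + (a - t * b) * (b / t) + 1)))
    refine ⟨x, -(b / t), ?_⟩
    have e : b / t * t = b := div_mul_cancel₀ _ ht0
    linear_combination (-1 : K) * hx + x * e
  · -- odd characteristic
    have h4 : (4 : K) ≠ 0 := by
      have : (4 : K) = 2 * 2 := by norm_num
      rw [this]
      exact mul_ne_zero h2 h2
    have hodd : Fintype.card K % 2 = 1 := by
      rw [FiniteField.odd_card_of_char_ne_two]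
      intro h
      apply h2
      have : CharP K 2 := h ▸ ringChar.charP K
      exact_mod_cast CharP.cast_eq_zero K 2
    have hc : 4 - t ^ 2 ≠ 0 := fun h => ht (by linear_combination -h)
    obtain ⟨u, z, h⟩ := FiniteField.exists_root_sum_quadratic (R := K) (f := Polynomial.X ^ 2)
      (g := Polynomial.C (4 - t ^ 2) * Polynomial.X ^ 2 + Polynomial.C (-(4 * a - 2 * t * b)) * Polynomial.X +
        Polynomial.C (4 - b ^ 2)) (Polynomial.degree_X_pow 2) (Polynomial.degree_quadratic hc) hodd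
    simp only [Polynomial.eval_pow, Polynomial.eval_X, Polynomial.eval_add, Polynomial.eval_mul, Polynomial.eval_C] at h
    refine ⟨(u + t * z + b) / 2, z, ?_⟩
    apply mul_left_cancel₀ h4
    have e : (2 : K) * ((u + t * z + b) / 2) = u + t * z + b := mul_div_cancel₀ _ h2
    obtain ⟨x, hx⟩ : ∃ x, x = (u + t * z + b) / 2 := ⟨_, rfl⟩
    rw [← hx] at e ⊢
    have hu : u = 2 * x - t * z - b := by linear_combination -e
    rw [hu] at h
    linear_combination h

/-- **Products with given traces** -/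
theorem exists_prod [Fintype K] (a b : K) (hab : (a ≠ b ∧ a ≠ -b) ∨ ∃ w : K, w * w - b * w + 1 = 0) (M : S K)
    (hM : ¬ (ent M 0 1 = 0 ∧ ent M 1 0 = 0 ∧ ent M 0 0 = ent M 1 1)) : ∃ A B : S K, M = A * B ∧ tr A = a ∧ tr B = b := by
  obtain ⟨y, hy⟩ := exists_entry M hM 0
  obtain ⟨N, hN⟩ : ∃ N, N = y * M * y⁻¹ := ⟨_, rfl⟩
  rw [← hN] at hy
  have hd := det_eq N
  rw [hy] at hd
  have h01 : ent N 0 1 ≠ 0 := by
    intro h
    rw [h] at hd
    simp at hd
  obtain ⟨β, hβ⟩ : ∃ β, β = ent N 0 1 := ⟨_, rfl⟩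
  obtain ⟨γ, hγ⟩ : ∃ γ, γ = ent N 1 0 := ⟨_, rfl⟩
  obtain ⟨t, ht⟩ : ∃ t, t = ent N 1 1 := ⟨_, rfl⟩
  rw [← hβ, ← hγ] at hd
  rw [← hβ] at h01
  have hβγ : β * γ = -1 := by linear_combination -hd
  obtain ⟨x, z, hxz⟩ := conic t a b hab
  -- `C = [[x, y'], [z / β, b - x]]`
  let C : S K := mk x (-(β * (a - z - t * (b - x)))) (z / β) (b - x) (by
    field_simp
    linear_combination -hxz)
  have hC : tr C = b := by
    change ent C 0 0 + ent C 1 1 = b
    rw [mk_00, mk_11]
    ring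
  have hNC : tr (N * C) = a := by
    unfold tr
    rw [ent_mul, ent_mul, hy, ← hβ, ← hγ, ← ht, mk_00, mk_01, mk_10, mk_11]
    have e : β * (z / β) = z := mul_div_cancel₀ _ h01
    linear_combination e - (a - z - t * (b - x)) * hβγ
  refine ⟨y⁻¹ * (N * C) * y⁻¹⁻¹, y⁻¹ * C⁻¹ * y⁻¹⁻¹, ?_, by rw [tr_conj]; exact hNC, by rw [tr_conj, tr_inv]; exact hC⟩
  rw [hN]
  group

/-- Cayley–Hamilton -/
theorem sq_val (A : S K) : (A : Matrix (Fin 2) (Fin 2) K) * (A : Matrix (Fin 2) (Fin 2) K) = tr A • (A : Matrix (Fin 2) (Fin 2) K) - 1 := by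
  have hd := det_eq A
  have e : ∀ i j, (A : Matrix (Fin 2) (Fin 2) K) i j = ent A i j := fun _ _ => rfl
  ext i j
  rw [Matrix.mul_apply, Fin.sum_univ_two]
  unfold tr
  fin_cases i <;> fin_cases j <;> simp [e]
  · linear_combination -hd
  · ring
  · ring
  · linear_combination -hd

theorem exists_uv (t : K) (k : ℕ) : ∃ u v : K, ∀ A : S K, tr A = t →
    (A : Matrix (Fin 2) (Fin 2) K) ^ k = u • (A : Matrix (Fin 2) (Fin 2) K) + v • (1 : Matrix (Fin 2) (Fin 2) K) := by
  induction k with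
  | zero => exact ⟨0, 1, fun A _ => by simp⟩
  | succ k ih =>
    obtain ⟨u, v, h⟩ := ih
    refine ⟨u * t + v, -u, fun A hA => ?_⟩
    rw [pow_succ, h A hA, add_mul, smul_mul_assoc, sq_val, hA, smul_mul_assoc, one_mul, smul_sub, smul_smul]
    ext i j
    simp
    ring

/-- **The powers depend on the trace only.** -/
theorem pow_of_trace {X : S K} (hX : ¬ (ent X 0 1 = 0 ∧ ent X 1 0 = 0 ∧ ent X 0 0 = ent X 1 1)) {k : ℕ} (hk : X ^ k = 1)
    {A : S K} (hA : tr A = tr X) : A ^ k = 1 := by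
  obtain ⟨u, v, h⟩ := exists_uv (tr X) k
  have h1 := h X rfl
  have h2 := h A hA
  rw [← Matrix.SpecialLinearGroup.coe_pow, hk] at h1
  have e : ∀ (X : S K) i j, (X : Matrix (Fin 2) (Fin 2) K) i j = ent X i j := fun _ _ _ => rfl
  have q01 := congrFun (congrFun h1 0) 1
  have q10 := congrFun (congrFun h1 1) 0
  have q00 := congrFun (congrFun h1 0) 0
  have q11 := congrFun (congrFun h1 1) 1
  simp [e] at q01 q10 q00 q11
  have hu : u = 0 := by
    by_contra hu
    apply hX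
    refine ⟨q01.resolve_left hu, q10.resolve_left hu, ?_⟩
    have : u * (ent X 0 0 - ent X 1 1) = 0 := by linear_combination q11 - q00
    exact sub_eq_zero.1 ((mul_eq_zero.1 this).resolve_left hu)
  rw [hu] at q00 h2
  have hv : v = 1 := by linear_combination -q00
  rw [hv, zero_smul, zero_add, one_smul] at h2
  apply Subtype.ext
  rw [Matrix.SpecialLinearGroup.coe_pow]
  exact h2

/-- a prime divisor at least five -/
theorem exists_ell {q r : ℕ} (hr : r = 2 ∨ r = 3) {n : ℕ} (hq : q = r ^ n) (h4 : 4 ≤ q) :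
    ∃ l : ℕ, l.Prime ∧ 5 ≤ l ∧ l ∣ q ^ 2 - 1 := by
  by_contra hcon
  push Not at hcon
  have hn : n ≠ 0 := by
    rintro rfl
    rw [pow_zero] at hq
    omega
  have hqq : q ^ 2 - 1 = (q + 1) * (q - 1) := by
    obtain ⟨k, rfl⟩ : ∃ k, q = k + 1 := ⟨q - 1, by omega⟩
    rw [Nat.add_sub_cancel, show (k + 1) ^ 2 = (k + 1 + 1) * k + 1 by ring, Nat.add_sub_cancel]
  -- the other prime
  obtain ⟨s, hs, hrs⟩ : ∃ s : ℕ, s.Prime ∧ ((r = 2 ∧ s = 3) ∨ (r = 3 ∧ s = 2)) := by
    rcases hr with rfl | rfl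
    · exact ⟨3, Nat.prime_three, Or.inl ⟨rfl, rfl⟩⟩
    · exact ⟨2, Nat.prime_two, Or.inr ⟨rfl, rfl⟩⟩
  have hrq : r ∣ q := by rw [hq]; exact dvd_pow_self r hn
  have key : ∀ m : ℕ, m ≠ 0 → m ∣ q ^ 2 - 1 → ∃ k, m = s ^ k := by
    intro m hm0 hm
    refine ⟨_, Nat.eq_prime_pow_of_unique_prime_dvd hm0 ?_⟩
    intro l hl hlm
    have h1 := hcon l hl
    have h2 : ¬ 5 ≤ l := fun h5 => h1 h5 (hlm.trans hm)
    have h3 : l ≠ r := by
      rintro rfl
      have h5 := hlm.trans hm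
      have h6 : l ∣ q ^ 2 := hrq.trans (dvd_pow_self q (by norm_num))
      have h7 := Nat.dvd_sub h6 h5
      rw [show q ^ 2 - (q ^ 2 - 1) = 1 by
        have : 0 < q ^ 2 := by positivity
        omega] at h7
      exact hl.one_lt.ne' (Nat.dvd_one.1 h7)
    have h8 := hl.two_le
    have h9 : l ≠ 4 := by
      rintro rfl
      exact absurd hl (by decide)
    omega
  obtain ⟨i, hi⟩ := key (q + 1) (by omega) (by rw [hqq]; exact dvd_mul_right _ _)
  obtain ⟨j, hj⟩ := key (q - 1) (by omega) (by rw [hqq]; exact dvd_mul_left _ _)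
  have hij : s ^ i = s ^ j + 2 := by omega
  have hj0 : j ≠ 0 := by
    rintro rfl
    rw [pow_zero] at hj
    omega
  have hi0 : i ≠ 0 := by
    rintro rfl
    rw [pow_zero] at hi
    omega
  rcases hrs with ⟨-, rfl⟩ | ⟨-, rfl⟩
  · have h1 : 3 ∣ 3 ^ i := dvd_pow_self 3 hi0
    have h2 : 3 ∣ 3 ^ j := dvd_pow_self 3 hj0
    omega
  · have hj1 : 2 ≤ j := by
      by_contra hlt
      have : j = 1 := by omega
      rw [this] at hj
      omega
    have hi1 : 2 ≤ i := by
      by_contra hlt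
      have : i = 1 := by omega
      rw [this] at hi
      omega
    have h1 : 2 ^ 2 ∣ 2 ^ i := pow_dvd_pow 2 hi1
    have h2 : 2 ^ 2 ∣ 2 ^ j := pow_dvd_pow 2 hj1
    omega

end Cfsg.Agent.H538.Pw
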