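import Cfsg.Agent.H78.Pw.Base
import Cfsg.Agent.H538.Pw.SLTwo

/-!
# S2465: the row `PSL(2,q)` (helper538)
-/

set_option autoImplicit false
set_option linter.unusedSimpArgs false

namespace Cfsg.Agent.H538.Pw

open Cfsg.Agent.Lib.SL2Mat Cfsg.Agent.H148.SLTwo Cfsg.Agent.H78.Pw

universe u

variable {K : Type u} [Field K]

/-- The elements of `SL(2,q)` outside the centre are products of two elements of order prime to `n`. -/
def AllSL (n : ℕ) (K : Type u) [Field K] : Prop :=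
  ∀ M : S K, ¬ (ent M 0 1 = 0 ∧ ent M 1 0 = 0 ∧ ent M 0 0 = ent M 1 1) → Pr n M

theorem central_of {M : S K} (hM : ent M 0 1 = 0 ∧ ent M 1 0 = 0 ∧ ent M 0 0 = ent M 1 1) :
    M ∈ Subgroup.center (S K) := by
  rw [Subgroup.mem_center_iff]
  intro g
  obtain ⟨h1, h2, h3⟩ := hM
  refine ext_ent ?_ ?_ ?_ ?_ <;> simp only [ent_mul, h1, h2, h3] <;> ring

theorem all_psl {n : ℕ} (h : AllSL n K) : All n (Matrix.ProjectiveSpecialLinearGroup (Fin 2) K) := by
  intro g
  obtain ⟨M, rfl⟩ := QuotientGroup.mk'_surjective (Subgroup.center (S K)) g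
  by_cases hM : ent M 0 1 = 0 ∧ ent M 1 0 = 0 ∧ ent M 0 0 = ent M 1 1
  · have h1 : (QuotientGroup.mk' (Subgroup.center (S K))) M = 1 := by
      rw [QuotientGroup.mk'_apply, QuotientGroup.eq_one_iff]
      exact central_of hM
    rw [h1]
    exact Pr.one n
  · exact (h M hM).map _

/-- two classes given by elements `X`, `Y` -/
theorem allSL_of [Fintype K] {n k : ℕ} {X Y : S K}
    (hX : ¬ (ent X 0 1 = 0 ∧ ent X 1 0 = 0 ∧ ent X 0 0 = ent X 1 1)) (hXk : X ^ k = 1)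
    (hY : ¬ (ent Y 0 1 = 0 ∧ ent Y 1 0 = 0 ∧ ent Y 0 0 = ent Y 1 1)) (hYk : Y ^ k = 1) (hk : k.Coprime n)
    (hab : (tr X ≠ tr Y ∧ tr X ≠ -tr Y) ∨ ∃ w : K, w * w - tr Y * w + 1 = 0) : AllSL n K := by
  intro M hM
  obtain ⟨A, B, e, hA, hB⟩ := exists_prod (tr X) (tr Y) hab M hM
  exact ⟨A, B, e, Nat.Coprime.of_dvd_left (orderOf_dvd_of_pow_eq_one (pow_of_trace hX hXk hA)) hk,
    Nat.Coprime.of_dvd_left (orderOf_dvd_of_pow_eq_one (pow_of_trace hY hYk hB)) hk⟩

theorem one_00 : ent (1 : S K) 0 0 = 1 := rfl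
theorem one_01 : ent (1 : S K) 0 1 = 0 := rfl
theorem one_10 : ent (1 : S K) 1 0 = 0 := rfl
theorem one_11 : ent (1 : S K) 1 1 = 1 := rfl

theorem up_pow (b : K) (n : ℕ) : (up b) ^ n = up ((n : K) * b) := by
  induction n with
  | zero => rw [pow_zero, Nat.cast_zero, zero_mul, up_zero]
  | succ n ih => rw [pow_succ, ih, up_mul, Nat.cast_succ, add_mul, one_mul]

theorem dg_pow (b : K) (hb : b ≠ 0) (n : ℕ) : (dg b hb) ^ n = dg (b ^ n) (pow_ne_zero n hb) := by
  induction n with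
  | zero =>
    refine ext_ent ?_ ?_ ?_ ?_ <;> simp [one_00, one_01, one_10, one_11]
  | succ n ih =>
    rw [pow_succ, ih]
    refine ext_ent ?_ ?_ ?_ ?_ <;> simp [ent_mul, pow_succ, mul_comm]

/-- unipotent elements -/
theorem allSL_unip [Fintype K] {r n : ℕ} [CharP K r] (hr : r.Coprime n) : AllSL n K := by
  have hX : ¬ (ent (up (1 : K)) 0 1 = 0 ∧ ent (up (1 : K)) 1 0 = 0 ∧ ent (up (1 : K)) 0 0 = ent (up (1 : K)) 1 1) := by
    rintro ⟨h, -, -⟩
    rw [up_01] at h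
    exact one_ne_zero h
  have hXr : (up (1 : K)) ^ r = 1 := by
    rw [up_pow, CharP.cast_eq_zero, zero_mul, up_zero]
  refine allSL_of hX hXr hX hXr hr (Or.inr ⟨1, ?_⟩)
  unfold tr
  rw [up_00, up_11]
  ring

/-- split semisimple elements -/
theorem allSL_split [Fintype K] {n : ℕ} (h4 : 4 ≤ Fintype.card K) (hn : (Fintype.card K - 1).Coprime n) : AllSL n K := by
  classical
  obtain ⟨ζ, hζ⟩ : ∃ ζ : K, ζ ∉ ({0, 1, -1} : Finset K) := by
    by_contra hcon
    push Not at hcon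
    have h1 : (Finset.univ : Finset K) ⊆ {0, 1, -1} := fun x _ => hcon x
    have h2 := Finset.card_le_card h1
    have h3 : ({0, 1, -1} : Finset K).card ≤ 3 := Finset.card_le_three
    rw [Finset.card_univ] at h2
    omega
  simp only [Finset.mem_insert, Finset.mem_singleton, not_or] at hζ
  obtain ⟨h0, h1, h2⟩ := hζ
  have hne : ζ ≠ ζ⁻¹ := by
    intro h
    have h3 : (ζ - 1) * (ζ + 1) = 0 := by
      have : ζ * ζ = 1 := by
        calc ζ * ζ = ζ * ζ⁻¹ := by rw [← h]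
          _ = 1 := mul_inv_cancel₀ h0
      linear_combination this
    rcases mul_eq_zero.1 h3 with h4 | h4
    · exact h1 (sub_eq_zero.1 h4)
    · exact h2 (eq_neg_of_add_eq_zero_left h4)
  have hX : ¬ (ent (dg ζ h0) 0 1 = 0 ∧ ent (dg ζ h0) 1 0 = 0 ∧ ent (dg ζ h0) 0 0 = ent (dg ζ h0) 1 1) := by
    rintro ⟨-, -, h⟩
    rw [dg_00, dg_11] at h
    exact hne h
  have hXr : (dg ζ h0) ^ (Fintype.card K - 1) = 1 := by
    rw [dg_pow]
    refine ext_ent ?_ ?_ ?_ ?_ <;> simp [one_00, one_01, one_10, one_11, FiniteField.pow_card_sub_one_eq_one ζ h0]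
  refine allSL_of hX hXr hX hXr hn (Or.inr ⟨ζ, ?_⟩)
  unfold tr
  rw [dg_00, dg_11]
  field_simp
  ring

/-- nonscalar matrices -/
def NSc (M : S K) : Prop := ¬ (ent M 0 1 = 0 ∧ ent M 1 0 = 0 ∧ ent M 0 0 = ent M 1 1)

theorem sq_of_scalar {Z : S K} (h : ent Z 0 1 = 0 ∧ ent Z 1 0 = 0 ∧ ent Z 0 0 = ent Z 1 1) : Z ^ 2 = 1 := by
  obtain ⟨h1, h2, h3⟩ := h
  have hd := det_eq Z
  rw [h1, ← h3] at hd
  rw [pow_two]
  refine ext_ent ?_ ?_ ?_ ?_ <;> simp only [ent_mul, h1, h2, ← h3, one_00, one_01, one_10, one_11]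
  · linear_combination hd
  · ring
  · ring
  · linear_combination hd

theorem tr_sq (X : S K) : tr (X ^ 2) = tr X ^ 2 - 2 := by
  have hd := det_eq X
  unfold tr
  rw [pow_two, ent_mul, ent_mul]
  linear_combination -2 * hd

theorem nsc_up : NSc (up (1 : K)) := by
  rintro ⟨h, -, -⟩
  rw [up_01] at h
  exact one_ne_zero h

/-- elements of prime order `l ≥ 5`, characteristic two or three -/
theorem facts_ell {r l : ℕ} [CharP K r] (hr : r = 2 ∨ r = 3) (hl : l.Prime) (h5 : 5 ≤ l) {X : S K} (hXo : orderOf X = l) :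
    NSc X ∧ tr X ≠ 2 ∧ tr X ≠ -2 ∧ tr X ≠ 1 ∧ tr X ≠ -1 := by
  have hXl : X ^ l = 1 := by rw [← hXo]; exact pow_orderOf_eq_one X
  have hne : ∀ m : ℕ, 0 < m → (∀ p : ℕ, p.Prime → p ∣ m → p ≤ 3) → X ^ m ≠ 1 := by
    intro m hm hmp h
    have h1 := orderOf_dvd_of_pow_eq_one h
    rw [hXo] at h1
    have := hmp l hl h1
    omega
  have hX : NSc X := fun h =>
    hne 2 (by norm_num) (fun p _ hp => (Nat.le_of_dvd (by norm_num) hp).trans (by norm_num)) (sq_of_scalar h)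
  -- traces of elements of small order
  have htr : ∀ {t : K} {m : ℕ} {Z : S K} (hZ : ¬ (ent Z 0 1 = 0 ∧ ent Z 1 0 = 0 ∧ ent Z 0 0 = ent Z 1 1)),
      tr Z = t → Z ^ m = 1 → 0 < m → (∀ p : ℕ, p.Prime → p ∣ m → p ≤ 3) → tr X ≠ t := by
    intro t m Z hZ hZt hZm hm hmp h
    exact hne m hm hmp (pow_of_trace hZ hZm (by rw [h, hZt]))
  have hr3 : r ≤ 3 := by omega
  refine ⟨hX, ?_, ?_, ?_, ?_⟩
  · refine htr (Z := up 1) (m := r) nsc_up ?_ ?_ (by omega) ?_
    · unfold tr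
      rw [up_00, up_11]
      ring
    · rw [up_pow, CharP.cast_eq_zero, zero_mul, up_zero]
    · intro p _ hp
      exact (Nat.le_of_dvd (by omega) hp).trans hr3
  · intro h
    have h1 : tr (X ^ 2) = 2 := by
      rw [tr_sq, h]
      ring
    have h2 : (X ^ 2) ^ r = 1 := by
      refine pow_of_trace (X := up 1) nsc_up (k := r) ?_ ?_
      · rw [up_pow, CharP.cast_eq_zero, zero_mul, up_zero]
      · rw [h1]
        unfold tr
        rw [up_00, up_11]
        ring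
    rw [← pow_mul] at h2
    refine hne (2 * r) (by omega) (fun p hp hpd => ?_) h2
    rcases hp.dvd_mul.1 hpd with h3 | h3
    · exact (Nat.le_of_dvd (by norm_num) h3).trans (by norm_num)
    · exact (Nat.le_of_dvd (by omega) h3).trans hr3
  · refine htr (Z := mk 0 1 (-1) 1 (by ring)) (m := 6) ?_ ?_ ?_ (by norm_num) ?_
    · rintro ⟨h, -, -⟩
      rw [mk_01] at h
      exact one_ne_zero h
    · unfold tr
      rw [mk_00, mk_11]
      ring
    · have e2 : (mk (0 : K) 1 (-1) 1 (by ring)) ^ 2 = mk (-1) 1 (-1) 0 (by ring) := by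
        rw [pow_two]
        refine ext_ent ?_ ?_ ?_ ?_ <;> simp [ent_mul]
      rw [show 6 = 2 * 3 by norm_num, pow_mul, e2, pow_succ, pow_two]
      refine ext_ent ?_ ?_ ?_ ?_ <;> simp [ent_mul, one_00, one_01, one_10, one_11]
    · intro p hp hp6
      rw [show 6 = 2 * 3 by norm_num] at hp6
      rcases hp.dvd_mul.1 hp6 with h3 | h3
      · exact (Nat.le_of_dvd (by norm_num) h3).trans (by norm_num)
      · exact Nat.le_of_dvd (by norm_num) h3
  · refine htr (Z := mk 0 1 (-1) (-1) (by ring)) (m := 3) ?_ ?_ ?_ (by norm_num) ?_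
    · rintro ⟨h, -, -⟩
      rw [mk_01] at h
      exact one_ne_zero h
    · unfold tr
      rw [mk_00, mk_11]
      ring
    · rw [pow_succ, pow_two]
      refine ext_ent ?_ ?_ ?_ ?_ <;> simp [ent_mul, one_00, one_01, one_10, one_11]
    · intro p hp hp3
      exact Nat.le_of_dvd (by norm_num) hp3

/-- the square of an element of prime order `l ≥ 5` -/
theorem order_sq {l : ℕ} (hl : l.Prime) (h5 : 5 ≤ l) {G : Type*} [Group G] {X : G} (hXo : orderOf X = l) :
    orderOf (X ^ 2) = l := by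
  have h : Nat.Coprime (orderOf X) 2 := by
    rw [hXo]
    exact (Nat.coprime_primes hl Nat.prime_two).2 (by omega)
  rw [h.orderOf_pow, hXo]

theorem tr_ne_sq {r l : ℕ} [CharP K r] (hr : r = 2 ∨ r = 3) (hl : l.Prime) (h5 : 5 ≤ l) {X : S K} (hXo : orderOf X = l) :
    tr X ≠ tr (X ^ 2) ∧ tr X ≠ -tr (X ^ 2) := by
  obtain ⟨-, n2, n2', n1, n1'⟩ := facts_ell hr hl h5 hXo
  refine ⟨fun h => ?_, fun h => ?_⟩
  · rw [tr_sq] at h
    have h1 : (tr X - 2) * (tr X + 1) = 0 := by linear_combination -h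
    rcases mul_eq_zero.1 h1 with h2 | h2
    · exact n2 (sub_eq_zero.1 h2)
    · exact n1' (eq_neg_of_add_eq_zero_left h2)
  · rw [tr_sq] at h
    have h1 : (tr X + 2) * (tr X - 1) = 0 := by linear_combination h
    rcases mul_eq_zero.1 h1 with h2 | h2
    · exact n2' (eq_neg_of_add_eq_zero_left h2)
    · exact n1 (sub_eq_zero.1 h2)

theorem allSL_ell [Fintype K] {r n l : ℕ} [CharP K r] (hr : r = 2 ∨ r = 3) (hl : l.Prime) (h5 : 5 ≤ l)
    (hd : l ∣ Fintype.card K ^ 2 - 1) (hn : l.Coprime n) : AllSL n K := by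
  have : Fact l.Prime := ⟨hl⟩
  obtain ⟨X, hXo⟩ := exists_prime_orderOf_dvd_card' (G := S K) l (by
    rw [Cfsg.Agent.ClassicalGeometry.PSL2Basic.card_SL2]; exact hd.mul_left _)
  have hYo := order_sq hl h5 hXo
  refine allSL_of (facts_ell hr hl h5 hXo).1 (by rw [← hXo]; exact pow_orderOf_eq_one X) (facts_ell hr hl h5 hYo).1
    (by conv_lhs => rw [← hYo]
        exact pow_orderOf_eq_one _) hn (Or.inl (tr_ne_sq hr hl h5 hXo))

/-- the noncentral elements of `SL(2,q)`, `q ≥ 4` -/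
theorem allSL_six [Fintype K] (h4 : 4 ≤ Fintype.card K) : AllSL 6 K := by
  obtain ⟨r, hr⟩ := CharP.exists K
  obtain ⟨n, hrp, hc⟩ := FiniteField.card K r
  by_cases h5 : r = 2 ∨ r = 3
  · obtain ⟨l, hl, hl5, hd⟩ := exists_ell h5 hc h4
    refine allSL_ell h5 hl hl5 hd ?_
    rw [show (6 : ℕ) = 2 * 3 by norm_num]
    exact Nat.Coprime.mul_right ((Nat.coprime_primes hl Nat.prime_two).2 (by omega))
      ((Nat.coprime_primes hl Nat.prime_three).2 (by omega))
  · refine allSL_unip (r := r) ?_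
    rw [show (6 : ℕ) = 2 * 3 by norm_num]
    exact Nat.Coprime.mul_right ((Nat.coprime_primes hrp Nat.prime_two).2 (fun h => h5 (Or.inl h)))
      ((Nat.coprime_primes hrp Nat.prime_three).2 (fun h => h5 (Or.inr h)))

theorem allSL_prime [Fintype K] (h4 : 4 ≤ Fintype.card K) {p : ℕ} (hp : p.Prime) : AllSL p K := by
  obtain ⟨r, hr⟩ := CharP.exists K
  obtain ⟨n, hrp, hc⟩ := FiniteField.card K r
  by_cases hpr : r = p
  · subst hpr
    refine allSL_split h4 ?_
    rw [Nat.coprime_comm, Nat.Prime.coprime_iff_not_dvd hp]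
    intro h
    have h1 : r ∣ Fintype.card K := by rw [hc]; exact dvd_pow_self r n.ne_zero
    have h2 := Nat.dvd_sub h1 h
    rw [show Fintype.card K - (Fintype.card K - 1) = 1 by omega] at h2
    exact hp.one_lt.ne' (Nat.dvd_one.1 h2)
  · exact allSL_unip (r := r) ((Nat.coprime_primes hrp hp).2 hpr)

/-- **The row `PSL(2,q)`, `q ≥ 4`** -/
theorem pw_l2 [Fintype K] (h4 : 4 ≤ Fintype.card K) : Pw (Matrix.ProjectiveSpecialLinearGroup (Fin 2) K) :=
  ⟨all_psl (allSL_six h4), fun _ hp _ => all_psl (allSL_prime h4 hp)⟩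

end Cfsg.Agent.H538.Pw
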