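import Cfsg.Agent.H148.Large
import Cfsg.Agent.H538.Pw.LTwo

/-!
# S2465: groups of type `G₂` and `³D₄`, the abstract part (helper538)

* `HG c` : the Gauss decomposition with trivial torus part;
* `all_of_hex` : two classes `pa m₁ * s`, `pa m₂ * s⁻¹`, the traces of `m₁`, `m₂` are prescribed.
-/

set_option autoImplicit false

namespace Cfsg.Agent.H538.Pw

open Cfsg.Agent.SplitTwo Cfsg.Agent.TitsThree.RankTwoZ Cfsg.Agent.Lib.SL2Mat Cfsg.Agent.Cit.HexBase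
  Cfsg.Agent.Cit.HexBase.HexGrp Cfsg.Agent.H148.SLTwo Cfsg.Agent.H148.Hex Cfsg.Agent.H78.Pw

universe u

variable {E : Type*} [Field E] {σ : E ≃+* E} {L : Type u} [Group L]

/-- the Gauss decomposition with trivial torus part -/
def HG (c : HexGrp σ L) : Prop :=
  ∀ g : L, g ≠ 1 → ∃ y : L, ∃ v ∈ Sg c.X {0, 7, 8, 9, 10, 11}, ∃ u ∈ Sg c.X {1, 2, 3, 4, 5, 6}, y * g * y⁻¹ = v * u

variable {c : HexGrp σ L}

/-- the polynomial `1 - τ x + x²` has no root `x` -/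
def NR (τ x : E) : Prop := 1 - x * τ + x ^ 2 ≠ 0

theorem NR.inv {τ x : E} (hx : x ≠ 0) (h : NR τ x) : NR τ x⁻¹ := by
  intro h1
  apply h
  have h2 : x ^ 2 * (1 - x⁻¹ * τ + x⁻¹ ^ 2) = 0 := by rw [h1, mul_zero]
  have h3 : x * x⁻¹ = 1 := mul_inv_cancel₀ hx
  linear_combination h2 + (x * τ - (x * x⁻¹ + 1)) * h3

theorem fpf_tr {s : L} {c1 : E} (hs : c.Act s c1 1) {m : SL2 ↥(fx σ)} {τ : ↥(fx σ)} (hm : tr m = τ)
    (h1 : NR (τ : E) c1) (h2 : shp σ c1 ≠ 1) (h3 : NR (τ : E) (nrm σ c1)) : Fpf (c.pa m * s) (Sg c.X Qb) := by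
  have e1 : ((ent m 0 0 : ↥(fx σ)) : E) + ((ent m 1 1 : ↥(fx σ)) : E) = (τ : E) := by
    have := congrArg (fun x : ↥(fx σ) => (x : E)) hm
    exact this
  refine fpf_Qb c m hs ?_ ?_ ?_
  · rw [one_mul, e1, mul_one]
    exact h1
  · rwa [one_mul]
  · rw [mul_one, one_mul, e1, one_pow, mul_one]
    exact h3

theorem shp_inv_ne {c1 : E} (h0 : c1 ≠ 0) (h2 : shp σ c1 ≠ 1) : shp σ c1⁻¹ ≠ 1 := by
  intro h
  have h5 : shp σ c1 * shp σ c1⁻¹ = 1 := by rw [← shp_mul, mul_inv_cancel₀ h0]; unfold shp; simp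
  rw [h, mul_one] at h5
  exact h2 h5

theorem fpf_tr' {s : L} {c1 : E} (hs : c.Act s c1 1) {m : SL2 ↥(fx σ)} {τ : ↥(fx σ)} (hm : tr m = τ)
    (h1 : NR (τ : E) c1) (h2 : shp σ c1 ≠ 1) (h3 : NR (τ : E) (nrm σ c1)) : Fpf (c.pa m * s) (Sg c.X Qb') := by
  have hne := hs.ne1
  have h := fpf_tr (act_n3_one hs) hm (h1.inv hne) (shp_inv_ne hne h2) (by rw [nrm_inv]; exact h3.inv (nrm_ne (σ := σ) hne))
  have e : n3 c * (c.pa m * s) * (n3 c)⁻¹ = c.pa m * (n3 c * s * (n3 c)⁻¹) := by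
    calc n3 c * (c.pa m * s) * (n3 c)⁻¹ = (n3 c * c.pa m * (n3 c)⁻¹) * (n3 c * s * (n3 c)⁻¹) := by group
      _ = _ := by rw [comm_pa_n3]
  rw [← e] at h
  refine Fpf.of_conj (n := n3 c) (fun g hg => conj_Sg (maps_n3 c) (by decide +kernel) hg) (fun g hg => ?_) h
  have := conj_Sg (maps_n3_inv c) (s := Qb) (t := Qb') (by decide +kernel) hg
  rwa [inv_inv] at this

/-- the conditions on the pair `(s, τ)` -/
structure OK (c : HexGrp σ L) (N : ℕ) (s : L) (c1 : E) (τ : ↥(fx σ)) : Prop where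
  nr1 : NR (τ : E) c1
  nr2 : NR (τ : E) (nrm σ c1)
  ord : ∀ m : SL2 ↥(fx σ), tr m = τ → (orderOf m).Coprime N

/-- the product of two elements of the Levi subgroup -/
theorem pr_of_levi [Finite L] {N : ℕ} {s : L} {c1 : E} (hs : c.Act s c1 1) (hsN : (orderOf s).Coprime N)
    (h2 : shp σ c1 ≠ 1) {a b : ↥(fx σ)} (ha : OK c N s c1 a) (hb : OK c N s c1 b) {m1 m2 : SL2 ↥(fx σ)} (hm1 : tr m1 = a)
    (hm2 : tr m2 = b) {g y v u : L} (hv : v ∈ Sg c.X Qb') (hu : u ∈ Sg c.X Qb)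
    (e : y * g * y⁻¹ = v * c.pa (m1 * m2) * u) : H78.Pw.Pr N g := by
  have hinv := hs.inv.congr rfl rfl inv_one
  have hne := hs.ne1
  obtain ⟨a1, e1⟩ := (fpf_tr' hs hm1 ha.nr1 h2 ha.nr2).left hv
  obtain ⟨a2, e2⟩ := (fpf_tr hinv hm2 (hb.nr1.inv hne) (shp_inv_ne hne h2)
    (by rw [nrm_inv]; exact hb.nr2.inv (nrm_ne (σ := σ) hne))).right hu
  have hcm := comm_pa_of_one c hs m2
  have h3 : y * g * y⁻¹ = (a1 * (c.pa m1 * s) * a1⁻¹) * (a2 * (c.pa m2 * s⁻¹) * a2⁻¹) := by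
    rw [← e1, ← e2, e, map_mul]
    calc v * (c.pa m1 * c.pa m2) * u = v * (c.pa m1 * (c.pa m2 * s * s⁻¹)) * u := by group
      _ = v * (c.pa m1 * (s * c.pa m2 * s⁻¹)) * u := by rw [hcm]
      _ = _ := by group
  have hord : ∀ {s' : L} {d : E} (_ : c.Act s' d 1) (_ : (orderOf s').Coprime N) {m : SL2 ↥(fx σ)} {τ : ↥(fx σ)}
      (_ : (orderOf m).Coprime N) (w : L), (orderOf (w * (c.pa m * s') * w⁻¹)).Coprime N := by
    intro s' d hs' hN m τ hm w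
    have h4 : orderOf (w * (c.pa m * s') * w⁻¹) = orderOf (c.pa m * s') := by
      have := (MulAut.conj w).orderOf_eq (c.pa m * s')
      rwa [MulAut.conj_apply] at this
    rw [h4]
    exact coprime_orderOf_mul (comm_pa_of_one c hs' m).symm
      (Nat.Coprime.of_dvd_left (orderOf_map_dvd c.pa m) hm) hN
  refine Pr.of_conj (x := y) ⟨_, _, h3, hord hs hsN (τ := a) (ha.ord m1 hm1) a1, hord hinv ?_ (τ := b) (hb.ord m2 hm2) a2⟩
  rwa [orderOf_inv]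

/-- **All elements are products of two elements of order prime to `N`.** -/
theorem all_of_hex [Finite L] [Fintype ↥(fx σ)] (hG : HG c) {N : ℕ} {s : L} {c1 : E} (hs : c.Act s c1 1)
    (hsN : (orderOf s).Coprime N) (h2 : shp σ c1 ≠ 1) {a b : ↥(fx σ)} (ha : OK c N s c1 a) (hb : OK c N s c1 b)
    (hab : (a ≠ b ∧ a ≠ -b) ∨ ∃ w : ↥(fx σ), w * w - b * w + 1 = 0) : All N L := by
  intro g
  by_cases hg : g = 1
  · rw [hg]; exact Pr.one N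
  obtain ⟨y, v, hv, u, hu, e⟩ := hG g hg
  obtain ⟨v1, hv1, w0, h0, rfl⟩ := c.exists_mul' (k := 0) (s := Qb') (by decide +kernel)
    (Sg_mono (by decide +kernel) hv : v ∈ Sg c.X (insert 0 Qb'))
  obtain ⟨w6, h6, u1, hu1, rfl⟩ := c.exists_mul (k := 6) (s := Qb) (by decide +kernel)
    (Sg_mono (by decide +kernel) hu : u ∈ Sg c.X (insert 6 Qb))
  obtain ⟨b0, rfl⟩ := (c.pa_lo _).1 h0
  obtain ⟨d0, hd0, rfl⟩ := (c.par.mem6 _).1 h6
  have e6 : c.x6 d0 = c.pa (up ⟨d0, hd0⟩) := (c.pa_up ⟨d0, hd0⟩).symm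
  obtain ⟨l, hl⟩ : ∃ l : SL2 ↥(fx σ), l = lo b0 * up ⟨d0, hd0⟩ := ⟨_, rfl⟩
  have e' : y * g * y⁻¹ = v1 * c.pa l * u1 := by
    rw [e, e6, hl, map_mul]
    group
  by_cases hsc : ent l 0 1 = 0 ∧ ent l 1 0 = 0 ∧ ent l 0 0 = ent l 1 1
  · -- `l = 1`
    have h00 : ent l 0 0 = 1 := by
      rw [hl, ent_mul, lo_00, lo_01, up_00]
      ring
    have hl1 : l = 1 := by
      obtain ⟨h1, h2, h3⟩ := hsc
      refine ext_ent ?_ ?_ ?_ ?_
      · rw [h00]; rfl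
      · rw [h1]; rfl
      · rw [h2]; rfl
      · rw [← h3, h00]; rfl
    obtain ⟨m, hm⟩ : ∃ m : SL2 ↥(fx σ), m = mk 0 1 (-1) a (by ring) := ⟨_, rfl⟩
    have hmt : tr m = a := by
      rw [hm]
      unfold tr
      rw [mk_00, mk_11, zero_add]
    refine pr_of_levi hs hsN h2 ha ha hmt (m2 := m⁻¹) (by rw [tr_inv, hmt]) hv1 hu1 (e'.trans ?_)
    rw [hl1, mul_inv_cancel]
  · obtain ⟨A, B, hAB, hA, hB⟩ := exists_prod a b hab l hsc
    exact pr_of_levi hs hsN h2 ha hb hA hB hv1 hu1 (by rw [e', hAB])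

/-- two `r`-elements -/
theorem all_unip (hG : HG c) {r n : ℕ} (hr : r.Coprime n)
    (hp : ∀ x ∈ Sg c.X {0, 7, 8, 9, 10, 11}, ∃ k, x ^ r ^ k = 1)
    (hp' : ∀ x ∈ Sg c.X {1, 2, 3, 4, 5, 6}, ∃ k, x ^ r ^ k = 1) : All n L := by
  intro g
  by_cases hg : g = 1
  · rw [hg]; exact Pr.one n
  obtain ⟨y, v, hv, u, hu, e⟩ := hG g hg
  obtain ⟨k, hk⟩ := hp v hv
  obtain ⟨k', hk'⟩ := hp' u hu
  exact Pr.of_conj (x := y) ⟨v, u, e, Nat.Coprime.of_dvd_left (orderOf_dvd_of_pow_eq_one hk) (hr.pow_left k),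
    Nat.Coprime.of_dvd_left (orderOf_dvd_of_pow_eq_one hk') (hr.pow_left k')⟩

end Cfsg.Agent.H538.Pw
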