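import Cfsg.Agent.H346.DP.Cox
import Cfsg.Agent.H162.GaussMain
import Cfsg.Agent.H538.Pw.HexSix

/-!
# S2465: Gauss decomposition of a `HexGrp` from a root group datum (helper538)
-/

set_option autoImplicit false
set_option linter.unusedSectionVars false

namespace Cfsg.Agent.H538.Pw

open CoxeterSystem Cfsg.Agent.ChevalleyStructure.CoxeterGeom Cfsg.Agent.Tits.Roots Cfsg.Agent.Tits.Core
  Cfsg.Agent.Nodes.Reps
  Cfsg.Agent.Nodes.BNOf Cfsg.Agent.Nodes.RGDLib Cfsg.Agent.Nodes.OppDec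
  Cfsg.Agent.OddHalf.NI.Mult

section

variable {I W Y : Type*} [Fintype I] [DecidableEq I] [Group W] [Group Y] {M : CoxeterMatrix I}
  {cs : CoxeterSystem M W} {A : I → I → ℤ} {h : IsCartan M A} {p : ℕ} {T : Subgroup Y} {n : I → Y}
  {X : (I → ℤ) → Subgroup Y} {F : I → Type*} [∀ i, Field (F i)]
  {s : ∀ i, Matrix.SpecialLinearGroup (Fin 2) (F i) →* Y}

theorem notMem_core [Finite W] [Nonempty I] (R : RGD cs h p T n X) [IsSimpleGroup Y] {g : Y} (hg : g ≠ 1) :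
    g ∉ (RGD.B cs h T X).normalCore := by
  intro h1
  have h2 := H162.GaussMain.core_le_ker R (MonoidHom.id Y)
    Function.surjective_id (fun x hx => by
      rw [MonoidHom.mem_ker] at hx
      change x = 1 at hx
      rw [hx]
      exact one_mem _) h1
  exact hg h2

/-- **The own characteristic**: every element is a product of two `r`-elements. -/
theorem all_own [Finite W] [Finite Y] [Nonempty I] [Fact p.Prime] [IsSimpleGroup Y] (R : RGD cs h p T n X)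
    (hG : G1 cs h X = ⊤) (C : Coord X F s)
    (hconn : ∀ J : Set I, J.Nonempty → J ≠ Set.univ → ∃ a ∈ J, ∃ b, b ∉ J ∧ M a b ≠ 2) {N : ℕ} (hN : p.Coprime N) :
    H78.Pw.All N Y := by
  intro g
  by_cases hg : g = 1
  · rw [hg]; exact H78.Pw.Pr.one N
  obtain ⟨x, v, hv, u, hu, e⟩ := Cfsg.Agent.H162.GaussDec.gauss R hG C hconn (notMem_core R hg)
  obtain ⟨k, hk⟩ := (RGD.isPGroup_Upos R) ⟨u, hu⟩
  have hR' := Cfsg.Agent.KFacts.RgdOpp.opp R
  obtain ⟨k', hk'⟩ := (RGD.isPGroup_Upos hR') ⟨v, by rw [Cfsg.Agent.KFacts.RgdOpp.U_opp]; exact hv⟩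
  exact H78.Pw.Pr.of_conj (x := x) ⟨v, u, e,
    Nat.Coprime.of_dvd_left (orderOf_dvd_of_pow_eq_one (congrArg Subtype.val hk')) (hN.pow_left k'),
    Nat.Coprime.of_dvd_left (orderOf_dvd_of_pow_eq_one (congrArg Subtype.val hk)) (hN.pow_left k)⟩

open Cfsg.Agent.TitsThree.RankTwoZ Cfsg.Agent.Cit.HexBase Cfsg.Agent.Cit.HexBase.HexGrp in
theorem hg_of_rgd [Finite W] [Nonempty I] [IsSimpleGroup Y] (R : RGD cs h p T n X)
    (hG : G1 cs h X = ⊤) (C : Coord X F s)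
    (hconn : ∀ J : Set I, J.Nonempty → J ≠ Set.univ → ∃ a ∈ J, ∃ b, b ∉ J ∧ M a b ≠ 2)
    {E : Type*} [Field E] {σ : E ≃+* E} {c : HexGrp σ Y} (hU : RGD.Sup X (RGD.Pos cs h) ≤ Sg c.X {1, 2, 3, 4, 5, 6})
    (hV : RGD.Sup X (Neg cs h) ≤ Sg c.X {0, 7, 8, 9, 10, 11}) : HG c := by
  intro g hg
  obtain ⟨x, v, hv, u, hu, e⟩ := Cfsg.Agent.H162.GaussDec.gauss R hG C hconn (notMem_core R hg)
  exact ⟨x, v, hV hv, u, hU hu, e⟩

end

end Cfsg.Agent.H538.Pw
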