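import Cfsg.Agent.H538.Pw.HexGTwo
import Cfsg.Agent.H538.Pw.Arith
import Cfsg.Agent.S2461

/-!
# S2465: `G₂(q)`, `q ≠ 3, 4, 9` (helper538)
-/

set_option autoImplicit false
set_option linter.unusedSimpArgs false

namespace Cfsg.Agent.H538.Pw

open Cfsg.Agent.SplitTwo Cfsg.Agent.TitsThree.RankTwoZ Cfsg.Agent.Lib.SL2Mat Cfsg.Agent.Cit.HexBase
  Cfsg.Agent.Cit.HexBase.HexGrp Cfsg.Agent.H148.SLTwo Cfsg.Agent.H148.Hex Cfsg.Agent.H78.Pw

universe u

variable {K : Type u} [Field K]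

theorem coprime_six {l : ℕ} (hl : l.Prime) (h5 : 5 ≤ l) : l.Coprime 6 := by
  rw [show (6 : ℕ) = 2 * 3 by norm_num]
  exact Nat.Coprime.mul_right ((Nat.coprime_primes hl Nat.prime_two).2 (by omega))
    ((Nat.coprime_primes hl Nat.prime_three).2 (by omega))

/-- an element of order dividing `q + 1` has no eigenvalues in `K` -/
theorem nr_of_plus [Fintype K] {r l : ℕ} [CharP K r] (hr : r = 2 ∨ r = 3) (hl : l.Prime) (h5 : 5 ≤ l)
    (hd : l ∣ Fintype.card K + 1) {X : S K} (hXo : orderOf X = l) (x : K) : NR (tr X) x := by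
  intro h
  obtain ⟨-, n2, n2', -, -⟩ := facts_ell hr hl h5 hXo
  have hx : x ≠ 0 := by
    rintro rfl
    simp at h
  have ht : tr X = x + x⁻¹ := by
    have h1 : x * x⁻¹ = 1 := mul_inv_cancel₀ hx
    linear_combination (-x⁻¹) * h + (x - tr X) * h1
  have hxx : x ≠ x⁻¹ := by
    intro h1
    have h2 : (x - 1) * (x + 1) = 0 := by
      have : x * x = 1 := by
        calc x * x = x * x⁻¹ := by rw [← h1]
          _ = 1 := mul_inv_cancel₀ hx
      linear_combination this
    rw [← h1] at ht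
    rcases mul_eq_zero.1 h2 with h3 | h3
    · exact n2 (by rw [ht]; linear_combination 2 * h3)
    · exact n2' (by rw [ht]; linear_combination 2 * h3)
  have hns : NSc (dg x hx) := by
    rintro ⟨-, -, h3⟩
    rw [dg_00, dg_11] at h3
    exact hxx h3
  have hp : (dg x hx) ^ (Fintype.card K - 1) = 1 := by
    rw [dg_pow]
    refine ext_ent ?_ ?_ ?_ ?_ <;> simp [one_00, one_01, one_10, one_11, FiniteField.pow_card_sub_one_eq_one x hx]
  have h1 : X ^ (Fintype.card K - 1) = 1 := pow_of_trace hns hp (by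
    rw [ht]
    unfold tr
    rw [dg_00, dg_11])
  have h2 := orderOf_dvd_of_pow_eq_one h1
  rw [hXo] at h2
  have h3 := Nat.dvd_sub hd h2
  have hq : 1 < Fintype.card K := Fintype.one_lt_card
  rw [show Fintype.card K + 1 - (Fintype.card K - 1) = 2 by omega] at h3
  have := Nat.le_of_dvd (by norm_num) h3
  omega

/-- the coprimality for all elements with the trace of `X` -/
theorem ord_tr {N k : ℕ} {X : S K} (hX : NSc X) (hk : X ^ k = 1) (hN : k.Coprime N) (m : S K) (hm : tr m = tr X) :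
    (orderOf m).Coprime N :=
  Nat.Coprime.of_dvd_left (orderOf_dvd_of_pow_eq_one (pow_of_trace hX hk hm)) hN

variable {F : Type u} [Field F] [Fintype F]

/-- the fixed field of the identity -/
def fxe (F : Type u) [Field F] : F ≃+* ↥(fx (RingEquiv.refl F)) where
  toFun x := ⟨x, rfl⟩
  invFun x := x
  left_inv _ := rfl
  right_inv _ := rfl
  map_mul' _ _ := rfl
  map_add' _ _ := rfl

theorem p3_dg_order {E : Type*} [Field E] {σ : E ≃+* E} {L : Type u} [Group L] (c : HexGrp σ L) {z : E} (hz : z ≠ 0)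
    {l : ℕ} (hl : z ^ l = 1) : (p3 c (dg z hz)) ^ l = 1 := by
  have h1 : (dg z hz) ^ l = 1 := by
    rw [dg_pow]
    refine ext_ent ?_ ?_ ?_ ?_ <;> simp [one_00, one_01, one_10, one_11, hl]
  rw [← map_pow, h1, map_one]

/-- the torus part for `G₂` -/
theorem all_g2_of (c : HexGrp (RingEquiv.refl F) ↥(Cfsg.Lie.chevG2.group F)) (hG : HG c) {N l : ℕ} {z : F} (hz : z ≠ 0)
    (hl : z ^ l = 1) (hN : l.Coprime N) (hz2 : z ^ 2 ≠ 1) {X Y : S ↥(fx (RingEquiv.refl F))} {k : ℕ} (hX : NSc X)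
    (hXk : X ^ k = 1) (hY : NSc Y) (hYk : Y ^ k = 1) (hk : k.Coprime N)
    (hab : (tr X ≠ tr Y ∧ tr X ≠ -tr Y) ∨ ∃ w : ↥(fx (RingEquiv.refl F)), w * w - tr Y * w + 1 = 0)
    (n1 : NR ((tr X : ↥(fx (RingEquiv.refl F))) : F) z) (n2 : NR ((tr X : ↥(fx (RingEquiv.refl F))) : F) (z ^ 3))
    (n3 : NR ((tr Y : ↥(fx (RingEquiv.refl F))) : F) z) (n4 : NR ((tr Y : ↥(fx (RingEquiv.refl F))) : F) (z ^ 3)) :
    All N ↥(Cfsg.Lie.chevG2.group F) := by
  have := Cfsg.Agent.H148.Hex.finite_g2 F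
  have := Fintype.ofEquiv F (fxe F).toEquiv
  have hs := act_p3_dg c z hz
  have hnrm : nrm (RingEquiv.refl F) z = z ^ 3 := by rw [nrm_of_fix rfl]
  have e1 : nrm (RingEquiv.refl F) z / z ^ 2 = z := by
    rw [hnrm]
    field_simp
  rw [e1] at hs
  refine all_of_hex hG hs (Nat.Coprime.of_dvd_left (orderOf_dvd_of_pow_eq_one (p3_dg_order c hz hl)) hN) ?_
    ⟨n1, by rw [hnrm]; exact n2, ord_tr hX hXk hk⟩ ⟨n3, by rw [hnrm]; exact n4, ord_tr hY hYk hk⟩ hab
  unfold shp
  intro h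
  apply hz2
  have h1 : z * z = 1 := h
  linear_combination h1

/-- **`G₂(q)`, `q = 2 ^ n` or `3 ^ n`, `n ≥ 3`.** -/
theorem six_g2 {r n : ℕ} (hr : r = 2 ∨ r = 3) (hn : 3 ≤ n) (hF : Fintype.card F = r ^ n) :
    All 6 ↥(Cfsg.Lie.chevG2.group F) := by
  have hrp : r.Prime := by rcases hr with rfl | rfl; exacts [Nat.prime_two, Nat.prime_three]
  have : Fact r.Prime := ⟨hrp⟩
  have h8 : 2 ^ 3 ≤ r ^ n := (Nat.pow_le_pow_left hrp.two_le 3).trans (Nat.pow_le_pow_right hrp.pos hn)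
  have hch : CharP F r := by
    obtain ⟨p, hp⟩ := CharP.exists F
    obtain ⟨m, hpp, hc⟩ := FiniteField.card F p
    have h1 : p ∣ r ^ n := by rw [← hF, hc]; exact dvd_pow_self p m.ne_zero
    have h2 := (Nat.prime_dvd_prime_iff_eq hpp hrp).1 (hpp.dvd_of_dvd_pow h1)
    rwa [← h2]
  have hne := Cfsg.Agent.H148.Hex.exists_ne (F := F) (by rw [hF]; omega)
  let c := g2' F hne
  have hG := hg_g2 hne
  let K := ↥(fx (RingEquiv.refl F))
  have iK : Fintype K := Fintype.ofEquiv F (fxe F).toEquiv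
  have hcK : Fintype.card K = r ^ n := by rw [← hF]; exact (Fintype.card_congr (fxe F).toEquiv).symm
  have hchK : CharP K r := (Subfield.subtype (fx (RingEquiv.refl F))).charP (Subfield.subtype (fx (RingEquiv.refl F))).injective r
  by_cases h8' : r = 2 ∧ n = 3
  · -- `q = 8`
    obtain ⟨rfl, rfl⟩ := h8'
    obtain ⟨g, hg⟩ := IsCyclic.exists_ofOrder_eq_natCard (α := Kˣ)
    rw [Nat.card_units, Nat.card_eq_fintype_card, hcK, show 2 ^ 3 - 1 = 7 by norm_num] at hg
    obtain ⟨w, hw⟩ : ∃ w : K, w = (g : K) := ⟨_, rfl⟩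
    have hw0 : w ≠ 0 := by rw [hw]; exact g.ne_zero
    have hw7 : w ^ 7 = 1 := by
      rw [hw, ← Units.val_pow_eq_pow_val, ← hg, pow_orderOf_eq_one, Units.val_one]
    have hwn : ∀ m : ℕ, ¬ 7 ∣ m → w ^ m ≠ 1 := by
      intro m hm h
      apply hm
      rw [← hg]
      apply orderOf_dvd_of_pow_eq_one
      apply Units.ext
      rw [Units.val_pow_eq_pow_val, ← hw, h, Units.val_one]
    have hwi : w * w⁻¹ = 1 := mul_inv_cancel₀ hw0
    have hns : NSc (dg w hw0) := by
      rintro ⟨-, -, h3⟩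
      rw [dg_00, dg_11] at h3
      refine hwn 2 (by norm_num) ?_
      calc w ^ 2 = w * w := pow_two w
        _ = w * w⁻¹ := by rw [← h3]
        _ = 1 := hwi
    have hX7 : (dg w hw0) ^ 7 = 1 := by
      rw [dg_pow]
      refine ext_ent ?_ ?_ ?_ ?_ <;> simp [one_00, one_01, one_10, one_11, hw7]
    have htr : tr (dg w hw0) = w + w⁻¹ := by
      unfold tr
      rw [dg_00, dg_11]
    have hnr : ∀ j : ℕ, ¬ 7 ∣ j + 6 → ¬ 7 ∣ j + 1 → NR ((tr (dg w hw0) : K) : F) (((w ^ j : K)) : F) := by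
      intro j h1 h2 h
      have h3 : (1 : K) - w ^ j * tr (dg w hw0) + (w ^ j) ^ 2 = 0 := Subtype.ext h
      rw [htr] at h3
      have h4 : (w ^ j - w) * (w ^ j - w⁻¹) = 0 := by linear_combination h3 + hwi
      rcases mul_eq_zero.1 h4 with h5 | h5
      · apply hwn _ h1
        rw [pow_add, sub_eq_zero.1 h5, ← pow_succ']
        exact hw7
      · apply hwn _ h2
        rw [pow_add, sub_eq_zero.1 h5, pow_one, mul_comm]
        exact hwi
    have hz0 : ((w ^ 3 : K) : F) ≠ 0 := by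
      intro h
      exact pow_ne_zero 3 hw0 (Subtype.ext h)
    refine all_g2_of c hG (N := 6) (l := 7) (z := ((w ^ 3 : K) : F)) hz0 ?_ (by norm_num) ?_ hns hX7 hns hX7 (by norm_num)
      (Or.inr ⟨w, ?_⟩) (hnr 3 (by norm_num) (by norm_num)) ?_ (hnr 3 (by norm_num) (by norm_num)) ?_
    · have h1 : (w ^ 3) ^ 7 = 1 := by rw [← pow_mul, mul_comm, pow_mul, hw7, one_pow]
      exact congrArg Subtype.val h1
    · intro h
      have h1 : (w ^ 3) ^ 2 = 1 := Subtype.ext h
      rw [← pow_mul] at h1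
      exact hwn 6 (by norm_num) h1
    · rw [htr]
      linear_combination -hwi
    · have h1 := hnr 9 (by norm_num) (by norm_num)
      have e : ((w ^ 9 : K) : F) = ((w ^ 3 : K) : F) ^ 3 := by
        have : (w ^ 9 : K) = (w ^ 3) ^ 3 := by rw [← pow_mul]
        exact congrArg Subtype.val this
      rwa [e] at h1
    · have h1 := hnr 9 (by norm_num) (by norm_num)
      have e : ((w ^ 9 : K) : F) = ((w ^ 3 : K) : F) ^ 3 := by
        have : (w ^ 9 : K) = (w ^ 3) ^ 3 := by rw [← pow_mul]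
        exact congrArg Subtype.val this
      rwa [e] at h1
  · obtain ⟨l, hl, hl5, hd⟩ := ell_plus (r := r) (n := n) (by omega)
    obtain ⟨l', hl', hl5', hd'⟩ := ell_minus hr hn
    have : Fact l.Prime := ⟨hl⟩
    have : Fact l'.Prime := ⟨hl'⟩
    obtain ⟨X, hXo⟩ := exists_prime_orderOf_dvd_card' (G := S K) l (by
      rw [Cfsg.Agent.ClassicalGeometry.PSL2Basic.card_SL2, hcK]
      refine Dvd.dvd.mul_left (hd.trans ⟨r ^ n - 1, ?_⟩) _
      obtain ⟨k, hk⟩ : ∃ k, r ^ n = k + 1 := ⟨r ^ n - 1, by omega⟩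
      rw [hk, Nat.add_sub_cancel, show (k + 1) ^ 2 = (k + 1 + 1) * k + 1 by ring, Nat.add_sub_cancel])
    have hYo := order_sq hl hl5 hXo
    obtain ⟨z, hz⟩ := exists_prime_orderOf_dvd_card' (G := Fˣ) l' (by
      rw [Nat.card_units, Nat.card_eq_fintype_card, hF]; exact hd')
    have hdK : l ∣ Fintype.card K + 1 := by rw [hcK]; exact hd
    have key : ∀ {Z : S K}, orderOf Z = l → ∀ x : F, NR ((tr Z : K) : F) x := by
      intro Z hZ x h
      refine nr_of_plus hr hl hl5 hdK hZ (⟨x, rfl⟩ : K) ?_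
      exact Subtype.ext h
    refine all_g2_of c hG (N := 6) (l := l') (z := (z : F)) z.ne_zero ?_ (coprime_six hl' hl5') ?_
      (facts_ell hr hl hl5 hXo).1 (by rw [← hXo]; exact pow_orderOf_eq_one X) (facts_ell hr hl hl5 hYo).1
      (by conv_lhs => rw [← hYo]
          exact pow_orderOf_eq_one _) (coprime_six hl hl5) (Or.inl (tr_ne_sq hr hl hl5 hXo)) (key hXo _) (key hXo _)
      (key hYo _) (key hYo _)
    · rw [← Units.val_pow_eq_pow_val, ← hz, pow_orderOf_eq_one, Units.val_one]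
    · intro h
      rw [← Units.val_pow_eq_pow_val] at h
      have h1 := orderOf_dvd_of_pow_eq_one (Units.ext (h.trans Units.val_one.symm))
      rw [hz] at h1
      have := Nat.le_of_dvd (by norm_num) h1
      omega

/-- **The row `G₂(q)`** up to `q = 3, 4, 9`. -/
theorem pw_g2_of (h3 : 3 ≤ Fintype.card F)
    (h : Fintype.card F = 3 ∨ Fintype.card F = 4 ∨ Fintype.card F = 9 → All 6 ↥(Cfsg.Lie.chevG2.group F)) :
    Pw ↥(Cfsg.Lie.chevG2.group F) := by
  obtain ⟨r, hr⟩ := CharP.exists F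
  obtain ⟨n, hrp, hc⟩ := FiniteField.card F r
  have : Fact r.Prime := ⟨hrp⟩
  have ha := Cfsg.Agent.H148.Hex.exists_ne h3
  have hpr : ∀ p : ℕ, p.Prime → p ≠ r → All p ↥(Cfsg.Lie.chevG2.group F) := fun p hp hne =>
    own_g2 ha r ((Nat.coprime_primes hrp hp).2 (Ne.symm hne))
  refine ⟨?_, fun p hp h5 => ?_⟩
  · by_cases h23 : r = 2 ∨ r = 3
    · by_cases hn : 3 ≤ (n : ℕ)
      · exact six_g2 h23 hn hc
      · apply h
        have hn0 := n.pos
        obtain ⟨m, hm⟩ : ∃ m : ℕ, m = (n : ℕ) := ⟨_, rfl⟩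
        rw [← hm] at hc hn hn0
        rw [hc] at h3 ⊢
        rcases h23 with rfl | rfl
        · interval_cases m
          · norm_num at h3
          · norm_num
        · interval_cases m
          · norm_num
          · norm_num
    · exact own_g2 ha r (coprime_six hrp (by
        have := hrp.two_le
        by_contra hlt
        have h4 : r = 4 := by omega
        rw [h4] at hrp
        exact absurd hrp (by decide)))
  · by_cases hp' : p = r
    · subst hp'
      obtain ⟨x, hx, hcl⟩ := Cfsg.Agent.S2461.result p h3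
      intro g
      by_cases hg : g = 1
      · rw [hg]; exact Pr.one p
      obtain ⟨u, v, e⟩ := hcl g hg
      have key : ∀ w : ↥(Cfsg.Lie.chevG2.group F), (orderOf (w * x * w⁻¹)).Coprime p := by
        intro w
        have := (MulAut.conj w).orderOf_eq x
        rw [MulAut.conj_apply] at this
        rw [this, Nat.coprime_comm, Nat.Prime.coprime_iff_not_dvd hp]
        exact hx
      exact ⟨_, _, e, key u, key v⟩
    · exact hpr p hp hp'

end Cfsg.Agent.H538.Pw
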