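import Cfsg.Agent.H538.Pw.HexDFour
import Cfsg.Agent.H538.Pw.SixGTwo
import Cfsg.Agent.S2462

/-!
# S2465: `³D₄(q)`, `q ≠ 2, 3` (helper538)
-/

set_option autoImplicit false

namespace Cfsg.Agent.H538.Pw

open Cfsg.Agent.SplitTwo Cfsg.Agent.TitsThree.RankTwoZ Cfsg.Agent.Lib.SL2Mat Cfsg.Agent.Cit.HexBase
  Cfsg.Agent.Cit.HexBase.HexGrp Cfsg.Agent.H148.SLTwo Cfsg.Agent.H148.Hex Cfsg.Agent.H78.Pw

universe u

variable {K : Type u} [Field K] [Fintype K] {q : ℕ}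

theorem card_fxD {σ : K ≃+* K} (hK : Fintype.card K = q ^ 3) (hσ : ∀ x, σ x = x ^ q) (hq : 1 < q) :
    Nat.card ↥(fx σ) = q :=
  Cfsg.Agent.ChevalleyStructure.D4U.card_fix_field (φ := (σ : K →+* K)) hq hK hσ

/-- **`³D₄(q)`, `q ≥ 4` a power of 2 or 3.** -/
theorem six_d4 {r n : ℕ} (hr : r = 2 ∨ r = 3) (hqr : q = r ^ n) (h4 : 4 ≤ q) (hK : Fintype.card K = q ^ 3) :
    All 6 ↥(Cfsg.Lie.twistedD4 K q) := by
  have hrp : r.Prime := by rcases hr with rfl | rfl; exacts [Nat.prime_two, Nat.prime_three]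
  have : Fact r.Prime := ⟨hrp⟩
  have hn : n ≠ 0 := by
    rintro rfl
    rw [pow_zero] at hqr
    omega
  have hq : IsPrimePow q := by rw [hqr]; exact hrp.isPrimePow.pow hn
  obtain ⟨φ, hφ⟩ := Cfsg.Agent.ChevalleyStructure.D4Fixed.exists_frob hq hK
  have hb : Function.Bijective φ := by
    rw [Fintype.bijective_iff_injective_and_card]
    exact ⟨RingHom.injective (φ : K →+* K), rfl⟩
  obtain ⟨σ, hσ⟩ : ∃ σ : K ≃+* K, ∀ x, σ x = x ^ q := ⟨RingEquiv.ofBijective φ hb, hφ⟩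
  have hch : CharP K r := by
    obtain ⟨p, hp⟩ := CharP.exists K
    obtain ⟨m, hpp, hc⟩ := FiniteField.card K p
    have h1 : p ∣ (r ^ n) ^ 3 := by rw [← hqr, ← hK, hc]; exact dvd_pow_self p m.ne_zero
    have h2 := (Nat.prime_dvd_prime_iff_eq hpp hrp).1 (hpp.dvd_of_dvd_pow (hpp.dvd_of_dvd_pow h1))
    rwa [← h2]
  let c := Cfsg.Agent.Cit.HexD4.d4 hq hK hσ
  have hG : HG c := hg_d4 hK hσ hq
  have iK : Fintype ↥(fx σ) := Fintype.ofFinite _
  have hcK : Fintype.card ↥(fx σ) = q := by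
    rw [← Nat.card_eq_fintype_card]
    exact card_fxD hK hσ (by omega)
  have hchK : CharP ↥(fx σ) r := (Subfield.subtype (fx σ)).charP (Subfield.subtype (fx σ)).injective r
  have hfin : Finite ↥(Cfsg.Lie.twistedD4 K q) := Cfsg.Agent.H148.Hex.finite_d4
  obtain ⟨l, hl, hl5, hd⟩ := exists_ell hr (by rw [hcK]; exact hqr : Fintype.card ↥(fx σ) = r ^ n) (by rw [hcK]; exact h4)
  obtain ⟨l', hl', hl5', hd'⟩ := ell_cyc (q := q) (by omega)
  have : Fact l.Prime := ⟨hl⟩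
  have : Fact l'.Prime := ⟨hl'⟩
  obtain ⟨X, hXo⟩ := exists_prime_orderOf_dvd_card' (G := S ↥(fx σ)) l (by
    rw [Cfsg.Agent.ClassicalGeometry.PSL2Basic.card_SL2]
    exact hd.mul_left _)
  have hYo := order_sq hl hl5 hXo
  have hq3 : q ^ 3 - 1 = (q - 1) * (q ^ 2 + q + 1) := by
    obtain ⟨m, rfl⟩ : ∃ m, q = m + 1 := ⟨q - 1, by omega⟩
    have : (m + 1) ^ 3 = m * ((m + 1) ^ 2 + (m + 1) + 1) + 1 := by ring
    rw [this, Nat.add_sub_cancel, Nat.add_sub_cancel]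
  obtain ⟨z, hz⟩ := exists_prime_orderOf_dvd_card' (G := Kˣ) l' (by
    rw [Nat.card_units, Nat.card_eq_fintype_card, hK, hq3]
    exact hd'.mul_left _)
  have hzl : (z : K) ^ l' = 1 := by
    rw [← Units.val_pow_eq_pow_val, ← hz, pow_orderOf_eq_one, Units.val_one]
  have hzn : ∀ m : ℕ, (z : K) ^ m = 1 → l' ∣ m := by
    intro m hm
    rw [← hz]
    apply orderOf_dvd_of_pow_eq_one
    apply Units.ext
    rw [Units.val_pow_eq_pow_val, hm, Units.val_one]
  have hz0 : (z : K) ≠ 0 := z.ne_zero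
  have hnz : nrm σ (z : K) = 1 := by
    have e : nrm σ (z : K) = (z : K) ^ (q ^ 2 + q + 1) := by
      unfold nrm
      rw [hσ, hσ, ← pow_mul]
      ring
    rw [e]
    obtain ⟨k, hk⟩ := hd'
    rw [hk, pow_mul, hzl, one_pow]
  have hlq : ¬ l' ∣ q - 1 := by
    intro h
    obtain ⟨m, hm⟩ : ∃ m, q = m + 1 := ⟨q - 1, by omega⟩
    rw [hm, Nat.add_sub_cancel] at h
    rw [hm, show (m + 1) ^ 2 + (m + 1) + 1 = 3 + m * (m + 3) by ring] at hd'
    have h3 : l' ∣ 3 := (Nat.dvd_add_left (h.mul_right _)).1 hd'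
    have := Nat.le_of_dvd (by norm_num) h3
    omega
  have hzf : ∀ m : ℕ, ¬ l' ∣ m → σ ((z : K) ^ m) ≠ (z : K) ^ m := by
    intro m hm h
    rw [hσ, ← pow_mul] at h
    have h1 : (z : K) ^ (m * (q - 1)) = 1 := by
      have e : (z : K) ^ (m * q) = (z : K) ^ m * (z : K) ^ (m * (q - 1)) := by
        rw [← pow_add]
        congr 1
        obtain ⟨t, rfl⟩ : ∃ t, q = t + 1 := ⟨q - 1, by omega⟩
        rw [Nat.add_sub_cancel]
        ring
      rw [e] at h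
      exact mul_left_cancel₀ (pow_ne_zero m hz0) (h.trans (mul_one _).symm)
    rcases hl'.dvd_mul.1 (hzn _ h1) with h2 | h2
    · exact hm h2
    · exact hlq h2
  have hs := act_p3_dg c (z : K) hz0
  rw [hnz] at hs
  obtain ⟨c1, hc1⟩ : ∃ c1 : K, c1 = 1 / (z : K) ^ 2 := ⟨_, rfl⟩
  rw [← hc1] at hs
  have hc0 : c1 ≠ 0 := hs.ne1
  have hcf : σ c1 ≠ c1 := by
    intro h
    apply hzf 2 (by
      intro h2
      have := Nat.le_of_dvd (by norm_num) h2
      omega)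
    rw [hc1, map_div₀, map_one] at h
    have h1 : σ ((z : K) ^ 2) ≠ 0 := (map_ne_zero σ).2 (pow_ne_zero 2 hz0)
    have h2 : (z : K) ^ 2 ≠ 0 := pow_ne_zero 2 hz0
    field_simp at h
    exact h.symm
  have hnc : nrm σ c1 = 1 := by
    rw [hc1, one_div, nrm_inv, show (z : K) ^ 2 = z * z from pow_two _, nrm_mul, hnz, one_mul, inv_one]
  have hσ3 : ∀ x : K, σ (σ (σ x)) = x := by
    intro x
    rw [hσ, hσ, hσ, ← pow_mul, ← pow_mul, show q * (q * q) = q ^ 3 by ring, ← hK, FiniteField.pow_card]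
  -- no roots
  have hnr1 : ∀ τ : ↥(fx σ), NR (τ : K) c1 := by
    intro τ h
    have hτ : σ (τ : K) = τ := τ.2
    have h1 : 1 - σ c1 * (τ : K) + σ c1 ^ 2 = 0 := by
      have h2 := congrArg σ h
      simp only [map_add, map_sub, map_mul, map_pow, map_one, map_zero, hτ] at h2
      exact h2
    have hNR : 1 - c1 * (τ : K) + c1 ^ 2 = 0 := h
    have h3 : (σ c1 - c1) * (σ c1 * c1 - 1) = 0 := by linear_combination c1 * h1 - σ c1 * hNR
    rcases mul_eq_zero.1 h3 with h4 | h4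
    · exact hcf (sub_eq_zero.1 h4)
    · have h5 : σ c1 * c1 = 1 := sub_eq_zero.1 h4
      have h6 : σ (σ c1) * σ c1 = 1 := by rw [← map_mul, h5, map_one]
      have h7 : σ (σ c1) = c1 := by
        have h8 : σ c1 ≠ 0 := (map_ne_zero σ).2 hc0
        exact mul_right_cancel₀ h8 (by rw [h6, mul_comm, h5])
      apply hcf
      have h9 := hσ3 c1
      rwa [h7] at h9
  have hnr2 : ∀ {Z : S ↥(fx σ)}, orderOf Z = l → NR ((tr Z : ↥(fx σ)) : K) (nrm σ c1) := by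
    intro Z hZ h
    rw [hnc] at h
    obtain ⟨-, n2, -, -, -⟩ := facts_ell hr hl hl5 hZ
    apply n2
    have h1 : (1 : K) - 1 * ((tr Z : ↥(fx σ)) : K) + 1 ^ 2 = 0 := h
    have h2 : ((tr Z : ↥(fx σ)) : K) = 2 := by linear_combination -h1
    exact Subtype.ext (by rw [h2]; rfl)
  have hshp : shp σ c1 ≠ 1 := by
    intro h
    have h3 : nrm σ c1 = c1 * shp σ c1 := by unfold nrm shp; ring
    rw [h, hnc, mul_one] at h3
    apply hcf
    rw [← h3, map_one]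
  have hXl : X ^ l = 1 := by rw [← hXo]; exact pow_orderOf_eq_one X
  have hYl : (X ^ 2) ^ l = 1 := by
    have := pow_orderOf_eq_one (X ^ 2)
    rwa [hYo] at this
  have hOK1 : OK c 6 (p3 c (dg (z : K) hz0)) c1 (tr X) :=
    ⟨hnr1 _, hnr2 hXo, ord_tr (facts_ell hr hl hl5 hXo).1 hXl (coprime_six hl hl5)⟩
  have hOK2 : OK c 6 (p3 c (dg (z : K) hz0)) c1 (tr (X ^ 2)) :=
    ⟨hnr1 _, hnr2 hYo, ord_tr (facts_ell hr hl hl5 hYo).1 hYl (coprime_six hl hl5)⟩
  exact all_of_hex hG hs (Nat.Coprime.of_dvd_left (orderOf_dvd_of_pow_eq_one (p3_dg_order c hz0 hzl))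
    (coprime_six hl' hl5')) hshp hOK1 hOK2 (Or.inl (tr_ne_sq hr hl hl5 hXo))

/-- **The row `³D₄(q)`** up to `q = 2, 3`. -/
theorem pw_d4_of (hq : IsPrimePow q) (hK : Fintype.card K = q ^ 3)
    (h : q = 2 ∨ q = 3 → All 6 ↥(Cfsg.Lie.twistedD4 K q)) : Pw ↥(Cfsg.Lie.twistedD4 K q) := by
  obtain ⟨r, n, hrp', hn, hqr⟩ := hq
  have hrp : r.Prime := hrp'.nat_prime
  have hq : IsPrimePow q := ⟨r, n, hrp', hn, hqr⟩
  have : Fact r.Prime := ⟨hrp⟩
  have hch : CharP K r := by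
    obtain ⟨p, hp⟩ := CharP.exists K
    obtain ⟨m, hpp, hc⟩ := FiniteField.card K p
    have h1 : p ∣ (r ^ n) ^ 3 := by rw [hqr, ← hK, hc]; exact dvd_pow_self p m.ne_zero
    have h2 := (Nat.prime_dvd_prime_iff_eq hpp hrp).1 (hpp.dvd_of_dvd_pow (hpp.dvd_of_dvd_pow h1))
    rwa [← h2]
  refine ⟨?_, fun p hp h5 => ?_⟩
  · by_cases h23 : r = 2 ∨ r = 3
    · by_cases h4 : 4 ≤ q
      · exact six_d4 h23 hqr.symm h4 hK
      · apply h
        have := hq.one_lt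
        omega
    · exact own_d4 hK hq r (coprime_six hrp (by
        have := hrp.two_le
        by_contra hlt
        have h4 : r = 4 := by omega
        rw [h4] at hrp
        exact absurd hrp (by decide)))
  · by_cases hp' : p = r
    · subst hp'
      obtain ⟨x, hx, hcl⟩ := Cfsg.Agent.S2462.result p q hq hK
      intro g
      by_cases hg : g = 1
      · rw [hg]; exact Pr.one p
      obtain ⟨u, v, e⟩ := hcl g hg
      have key : ∀ w : ↥(Cfsg.Lie.twistedD4 K q), (orderOf (w * x * w⁻¹)).Coprime p := by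
        intro w
        have := (MulAut.conj w).orderOf_eq x
        rw [MulAut.conj_apply] at this
        rw [this, Nat.coprime_comm, Nat.Prime.coprime_iff_not_dvd hp]
        exact hx
      exact ⟨_, _, e, key u, key v⟩
    · exact own_d4 hK hq r ((Nat.coprime_primes hrp hp).2 (Ne.symm hp'))

end Cfsg.Agent.H538.Pw
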