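import Cfsg.Agent.H538.Pw.SpNineA
import Cfsg.Agent.H78.Pw.Base
import Cfsg.Prelude.Def_Classical

/-!
# S2465: `PSp₄(9)`: every element is a product of two elements of order prime to 6 (helper538)
-/

set_option autoImplicit false
set_option linter.unusedVariables false
set_option linter.unusedSimpArgs false
set_option linter.unusedSectionVars false
set_option maxHeartbeats 1000000

namespace Cfsg.Agent.H538.Pw.SpNine

open Matrix
open Cfsg.Agent.H78.Pw

variable {F : Type*} [Field F]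

/-- the form in coordinates -/
def Bf (x y : Ix → F) : F :=
  x (Sum.inr 0) * y (Sum.inl 0) + x (Sum.inr 1) * y (Sum.inl 1) - x (Sum.inl 0) * y (Sum.inr 0) -
    x (Sum.inl 1) * y (Sum.inr 1)

theorem Bf_eq (x y : Ix → F) : Bf x y = x ⬝ᵥ (JJ F *ᵥ y) := by
  simp [Bf, dotProduct, mulVec, Matrix.J, Fintype.sum_sum_type, Fin.sum_univ_two, Matrix.one_apply]
  ring

theorem Bf_act {g : Mt F} (hg : SpM g) (x y : Ix → F) : Bf (g *ᵥ x) (g *ᵥ y) = Bf x y := by
  rw [Bf_eq, Bf_eq, mulVec_mulVec, dotProduct_mulVec, ← vecMul_transpose, vecMul_vecMul, ← Matrix.mul_assoc,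
    show gᵀ * JJ F * g = JJ F from hg, ← dotProduct_mulVec]

theorem Bf_self (x : Ix → F) : Bf x x = 0 := by rw [Bf]; ring
theorem Bf_comm (x y : Ix → F) : Bf x y = - Bf y x := by rw [Bf, Bf]; ring
theorem Bf_add_left (x y z : Ix → F) : Bf (x + y) z = Bf x z + Bf y z := by
  simp only [Bf, Pi.add_apply]; ring
theorem Bf_add_right (x y z : Ix → F) : Bf x (y + z) = Bf x y + Bf x z := by
  simp only [Bf, Pi.add_apply]; ring
theorem Bf_smul_left (c : F) (x y : Ix → F) : Bf (c • x) y = c * Bf x y := by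
  simp only [Bf, Pi.smul_apply, smul_eq_mul]; ring
theorem Bf_smul_right (c : F) (x y : Ix → F) : Bf x (c • y) = c * Bf x y := by
  simp only [Bf, Pi.smul_apply, smul_eq_mul]; ring
theorem Bf_sub_right (x y z : Ix → F) : Bf x (y - z) = Bf x y - Bf x z := by
  simp only [Bf, Pi.sub_apply]; ring
theorem Bf_sub_left (x y z : Ix → F) : Bf (x - y) z = Bf x z - Bf y z := by
  simp only [Bf, Pi.sub_apply]; ring

theorem exists_Bf {x : Ix → F} (hx : x ≠ 0) : ∃ y, Bf x y ≠ 0 := by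
  by_contra hcon
  push Not at hcon
  apply hx
  funext c
  rcases c with c | c <;> fin_cases c
  · have := hcon (Pi.single (Sum.inr 0) 1)
    simpa [Bf] using this
  · have := hcon (Pi.single (Sum.inr 1) 1)
    simpa [Bf] using this
  · have := hcon (Pi.single (Sum.inl 0) 1)
    simpa [Bf] using this
  · have := hcon (Pi.single (Sum.inl 1) 1)
    simpa [Bf] using this

/-- a vector orthogonal to two given ones -/
theorem exists_perp (u v : Ix → F) : ∃ w : Ix → F, w ≠ 0 ∧ Bf u w = 0 ∧ Bf v w = 0 := by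
  let L : (Ix → F) →ₗ[F] (Fin 2 → F) :=
    { toFun := fun w => ![Bf u w, Bf v w]
      map_add' := fun x y => by
        funext k; fin_cases k <;> simp [Bf_add_right]
      map_smul' := fun c x => by
        funext k; fin_cases k <;> simp [Bf_smul_right] }
  have h : LinearMap.ker L ≠ ⊥ := L.ker_ne_bot_of_finrank_lt (by
    rw [Module.finrank_fintype_fun_eq_card, Module.finrank_fintype_fun_eq_card]
    decide)
  obtain ⟨w, hw, hw0⟩ := (Submodule.ne_bot_iff _).1 h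
  have h1 : L w = 0 := hw
  exact ⟨w, hw0, congrFun h1 0, congrFun h1 1⟩

/-- the fourth vector of a frame -/
theorem exists_dual {e1 f1 e2 : Ix → F} {κ : F} (hκ : κ ≠ 0) (h1 : Bf f1 e1 = κ) (h0 : e2 ≠ 0)
    (h2 : Bf e1 e2 = 0) (h3 : Bf f1 e2 = 0) :
    ∃ f2 : Ix → F, Bf e1 f2 = 0 ∧ Bf f1 f2 = 0 ∧ Bf f2 e2 = κ := by
  obtain ⟨z, hz⟩ := exists_Bf h0
  have h1' : Bf e1 f1 = -κ := by rw [Bf_comm, h1]
  obtain ⟨z', hz'⟩ : ∃ z' : Ix → F, z' = z + (Bf e1 z / κ) • f1 - (Bf f1 z / κ) • e1 := ⟨_, rfl⟩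
  have a1 : Bf e1 z' = 0 := by
    rw [hz', Bf_sub_right, Bf_add_right, Bf_smul_right, Bf_smul_right, h1', Bf_self]
    field_simp
    ring
  have a2 : Bf f1 z' = 0 := by
    rw [hz', Bf_sub_right, Bf_add_right, Bf_smul_right, Bf_smul_right, h1, Bf_self]
    field_simp
    ring
  have a3 : Bf e2 z' = Bf e2 z := by
    rw [hz', Bf_sub_right, Bf_add_right, Bf_smul_right, Bf_smul_right, Bf_comm e2 f1, Bf_comm e2 e1, h2, h3]
    ring
  refine ⟨(-κ / Bf e2 z) • z', ?_, ?_, ?_⟩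
  · rw [Bf_smul_right, a1, mul_zero]
  · rw [Bf_smul_right, a2, mul_zero]
  · rw [Bf_comm, Bf_smul_right, a3]
    field_simp

/-- the matrix with given columns -/
def PM (e1 e2 f1 f2 : Ix → F) : Mt F := Matrix.of fun r c => (Sum.elim ![e1, e2] ![f1, f2] c) r

theorem PM_toM (e1 e2 f1 f2 : Ix → F) : PM e1 e2 f1 f2 = toM ⟨e1 (Sum.inl 0), e2 (Sum.inl 0), f1 (Sum.inl 0),
    f2 (Sum.inl 0), e1 (Sum.inl 1), e2 (Sum.inl 1), f1 (Sum.inl 1), f2 (Sum.inl 1), e1 (Sum.inr 0), e2 (Sum.inr 0),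
    f1 (Sum.inr 0), f2 (Sum.inr 0), e1 (Sum.inr 1), e2 (Sum.inr 1), f1 (Sum.inr 1), f2 (Sum.inr 1)⟩ := by
  ext i j
  rcases i with i | i <;> rcases j with j | j <;> fin_cases i <;> fin_cases j <;> rfl

theorem PM_gram {e1 e2 f1 f2 : Ix → F} {κ : F} (h11 : Bf f1 e1 = κ) (h22 : Bf f2 e2 = κ) (h12 : Bf e1 e2 = 0)
    (h13 : Bf e1 f2 = 0) (h23 : Bf f1 e2 = 0) (h33 : Bf f1 f2 = 0) :
    (PM e1 e2 f1 f2)ᵀ * JJ F * PM e1 e2 f1 f2 = κ • JJ F := by
  have hk : κ • JJ F = toM ⟨0, 0, -κ, 0, 0, 0, 0, -κ, κ, 0, 0, 0, 0, κ, 0, 0⟩ := by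
    rw [J_toM]
    ext i j
    rcases i with i | i <;> rcases j with j | j <;> fin_cases i <;> fin_cases j <;> simp [toM]
  rw [PM_toM, toM_transpose, hk, J_toM, ← toM_mul, ← toM_mul]
  congr 1
  simp only [Bf] at h11 h22 h12 h13 h23 h33
  simp only [mulF, M16.mk.injEq]
  refine ⟨?_, ?_, ?_, ?_, ?_, ?_, ?_, ?_, ?_, ?_, ?_, ?_, ?_, ?_, ?_, ?_⟩
  · ring
  · linear_combination h12
  · linear_combination -h11
  · linear_combination h13
  · linear_combination -h12
  · ring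
  · linear_combination -h23
  · linear_combination -h22
  · linear_combination h11
  · linear_combination h23
  · ring
  · linear_combination h33
  · linear_combination -h13
  · linear_combination h22
  · linear_combination -h33
  · ring

/-- the inverse of the frame matrix -/
theorem exists_Q {P : Mt F} {κ : F} (hκ : κ ≠ 0) (hP : Pᵀ * JJ F * P = κ • JJ F) : ∃ Q : Mt F, Q * P = 1 := by
  refine ⟨κ⁻¹ • (-(JJ F * Pᵀ * JJ F)), ?_⟩
  calc (κ⁻¹ • (-(JJ F * Pᵀ * JJ F))) * P = -(κ⁻¹ • (JJ F * (Pᵀ * JJ F * P))) := by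
        rw [Matrix.smul_mul, Matrix.neg_mul, smul_neg]
        simp only [Matrix.mul_assoc]
    _ = 1 := by
        rw [hP, Matrix.mul_smul, Matrix.J_squared, smul_smul, inv_mul_cancel₀ hκ, one_smul, neg_neg]

/-- the transformed matrix is symplectic -/
theorem sp_of_frame {g P N : Mt F} {κ : F} (hκ : κ ≠ 0) (hg : SpM g) (hP : Pᵀ * JJ F * P = κ • JJ F)
    (hN : g * P = P * N) : SpM N := by
  have h1 : κ • (Nᵀ * JJ F * N) = κ • JJ F := by
    calc κ • (Nᵀ * JJ F * N) = Nᵀ * (κ • JJ F) * N := by rw [Matrix.mul_smul, Matrix.smul_mul]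
      _ = Nᵀ * (Pᵀ * JJ F * P) * N := by rw [hP]
      _ = (P * N)ᵀ * JJ F * (P * N) := by simp only [transpose_mul, Matrix.mul_assoc]
      _ = (g * P)ᵀ * JJ F * (g * P) := by rw [hN]
      _ = Pᵀ * (gᵀ * JJ F * g) * P := by simp only [transpose_mul, Matrix.mul_assoc]
      _ = κ • JJ F := by rw [show gᵀ * JJ F * g = JJ F from hg, hP]
  have h2 := congrArg (fun M => κ⁻¹ • M) h1
  simp only [smul_smul, inv_mul_cancel₀ hκ, one_smul] at h2
  exact h2

theorem PM_mulVec (e1 e2 f1 f2 : Ix → F) (v : Ix → F) : PM e1 e2 f1 f2 *ᵥ v =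
    v (Sum.inl 0) • e1 + v (Sum.inl 1) • e2 + v (Sum.inr 0) • f1 + v (Sum.inr 1) • f2 := by
  funext r
  simp [PM, mulVec, dotProduct, Fintype.sum_sum_type, Fin.sum_univ_two]
  ring

section main
variable [CharP F 3] {i : F} (hi : i * i = -1) (hsur : ∀ r : F, ∃ x : C9, phi i x = r)
  (hinj : ∀ x : C9, phi i x = 1 → x = .c1)
include hi hsur hinj

/-- first case: `B(v, g v) ≠ 0` -/
theorem RR_of_ne {g : Mt F} (hg : SpM g) {v : Ix → F} (hv : Bf (g *ᵥ v) v ≠ 0) : RR g := by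
  obtain ⟨κ, hκ⟩ : ∃ κ, κ = Bf (g *ᵥ v) v := ⟨_, rfl⟩
  have hκ0 : κ ≠ 0 := by rw [hκ]; exact hv
  obtain ⟨f1, hf1⟩ : ∃ f1, f1 = g *ᵥ v := ⟨_, rfl⟩
  have h11 : Bf f1 v = κ := by rw [hκ, hf1]
  have h11' : Bf v f1 = -κ := by rw [Bf_comm, h11]
  have hgf : Bf (g *ᵥ f1) f1 = κ := by
    rw [hf1, Bf_act hg, hκ]
  -- the component of `g f1`
  obtain ⟨β, hβ⟩ : ∃ β, β = -(Bf v (g *ᵥ f1)) / κ := ⟨_, rfl⟩
  obtain ⟨w, hw⟩ : ∃ w, w = g *ᵥ f1 + v - β • f1 := ⟨_, rfl⟩
  have hw1 : Bf v w = 0 := by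
    rw [hw, Bf_sub_right, Bf_add_right, Bf_smul_right, Bf_self, h11', hβ]
    field_simp
    ring
  have hw2 : Bf f1 w = 0 := by
    rw [hw, Bf_sub_right, Bf_add_right, Bf_smul_right, Bf_self, h11, Bf_comm f1, hgf]
    ring
  -- the third vector
  obtain ⟨e2, τ, hτ, he0, he1, he2, he3⟩ : ∃ (e2 : Ix → F) (τ : F), (τ = 0 ∨ τ = 1) ∧ e2 ≠ 0 ∧ Bf v e2 = 0 ∧
      Bf f1 e2 = 0 ∧ g *ᵥ f1 = -v + τ • e2 + β • f1 := by
    by_cases hw0 : w = 0
    · obtain ⟨e2, h1, h2, h3⟩ := exists_perp v f1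
      refine ⟨e2, 0, Or.inl rfl, h1, h2, h3, ?_⟩
      rw [zero_smul, add_zero]
      have h4 : g *ᵥ f1 = w - v + β • f1 := by rw [hw]; abel
      rw [h4, hw0, zero_sub]
    · refine ⟨w, 1, Or.inr rfl, hw0, hw1, hw2, ?_⟩
      rw [one_smul, hw]; abel
  obtain ⟨f2, hf21, hf22, hf23⟩ := exists_dual hκ0 h11 he0 he1 he2
  obtain ⟨P, hP⟩ : ∃ P, P = PM v e2 f1 f2 := ⟨_, rfl⟩
  have hPJ : Pᵀ * JJ F * P = κ • JJ F := by
    rw [hP]; exact PM_gram h11 hf23 he1 hf21 he2 hf22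
  obtain ⟨Q, hQP⟩ := exists_Q hκ0 hPJ
  have hPQ : P * Q = 1 := mul_eq_one_comm.1 hQP
  obtain ⟨N, hN⟩ : ∃ N, N = Q * g * P := ⟨_, rfl⟩
  have hgP : g * P = P * N := by
    rw [hN, ← Matrix.mul_assoc, ← Matrix.mul_assoc, hPQ, Matrix.one_mul]
  refine RR_of_frame hκ0 hPJ hQP hgP ?_
  have hNs := sp_of_frame hκ0 hg hPJ hgP
  -- the columns of `N`
  have hQv : ∀ x, Q *ᵥ (P *ᵥ x) = x := by
    intro x; rw [mulVec_mulVec, hQP, one_mulVec]
  have hcol : ∀ x, N *ᵥ x = Q *ᵥ (g *ᵥ (P *ᵥ x)) := by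
    intro x; rw [hN, mulVec_mulVec, mulVec_mulVec, Matrix.mul_assoc]
  have hc0 : N *ᵥ Pi.single (Sum.inl 0) 1 = Pi.single (Sum.inr 0) 1 := by
    have h1 : P *ᵥ Pi.single (Sum.inl 0) 1 = v := by rw [hP, PM_mulVec]; simp
    have h2 : P *ᵥ Pi.single (Sum.inr 0) 1 = f1 := by rw [hP, PM_mulVec]; simp
    rw [hcol, h1, ← hf1, ← h2, hQv]
  have hc2 : N *ᵥ Pi.single (Sum.inr 0) 1 = fun c => Sum.elim ![-1, τ] ![β, 0] c := by
    have h1 : P *ᵥ Pi.single (Sum.inr 0) 1 = f1 := by rw [hP, PM_mulVec]; simp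
    have h2 : P *ᵥ (fun c => Sum.elim ![-1, τ] ![β, 0] c) = g *ᵥ f1 := by
      rw [hP, PM_mulVec, he3]; simp
    rw [hcol, h1, ← h2, hQv]
  obtain ⟨m, rfl⟩ := exists_toM N
  have hm := (spM_iff m).1 hNs
  have h00 : m.a00 = 0 := by
    have := congrFun hc0 (Sum.inl 0)
    rw [mulVec_single_one] at this
    simpa [toM] using this
  have h10 : m.a10 = 0 := by
    have := congrFun hc0 (Sum.inl 1)
    rw [mulVec_single_one] at this
    simpa [toM] using this
  have h20 : m.a20 = 1 := by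
    have := congrFun hc0 (Sum.inr 0)
    rw [mulVec_single_one] at this
    simpa [toM] using this
  have h30 : m.a30 = 0 := by
    have := congrFun hc0 (Sum.inr 1)
    rw [mulVec_single_one] at this
    simpa [toM] using this
  have h02 : m.a02 = -1 := by
    have := congrFun hc2 (Sum.inl 0)
    rw [mulVec_single_one] at this
    simpa [toM] using this
  have h12 : m.a12 = τ := by
    have := congrFun hc2 (Sum.inl 1)
    rw [mulVec_single_one] at this
    simpa [toM] using this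
  have h22 : m.a22 = β := by
    have := congrFun hc2 (Sum.inr 0)
    rw [mulVec_single_one] at this
    simpa [toM] using this
  have h32 : m.a32 = 0 := by
    have := congrFun hc2 (Sum.inr 1)
    rw [mulVec_single_one] at this
    simpa [toM] using this
  obtain ⟨s1, s2, s3, s4, s5, s6⟩ := hm
  rw [h00, h10, h20, h30] at s1 s3
  have h01 : m.a01 = 0 := by linear_combination -s1
  have h03 : m.a03 = 0 := by linear_combination -s3
  rw [h01, h22, h32, h02, h12] at s4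
  have h21 : m.a21 = τ * m.a31 := by linear_combination s4
  rw [h01, h03] at s5
  have hdet : m.a11 * m.a33 - m.a31 * m.a13 = 1 := by linear_combination s5
  rw [h02, h12, h22, h32, h03] at s6
  have h23 : m.a23 = τ * m.a33 := by linear_combination -s6
  have e : m = nfF τ β m.a11 m.a31 m.a13 m.a33 := by
    obtain ⟨a00, a01, a02, a03, a10, a11, a12, a13, a20, a21, a22, a23, a30, a31, a32, a33⟩ := m
    simp only at h00 h01 h02 h03 h10 h12 h20 h21 h22 h23 h30 h32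
    subst h00 h01 h02 h03 h10 h12 h20 h21 h22 h23 h30 h32
    rfl
  rw [e]
  exact RR_nf hi hsur hinj hτ hdet

/-- second case: an involution -/
theorem RR_of_sq {g : Mt F} (hg : SpM g) (h2 : g * g = 1) (h1 : g ≠ 1) (h1' : g ≠ -1) : RR g := by
  have h20 : (2 : F) ≠ 0 := by
    intro h
    have h3 : (3 : F) = 0 := CharP.cast_eq_zero F 3
    have : (1 : F) = 0 := by linear_combination h3 - h
    exact one_ne_zero this
  have hgg : ∀ x, g *ᵥ (g *ᵥ x) = x := fun x => by rw [mulVec_mulVec, h2, one_mulVec]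
  obtain ⟨u, hu0, hu⟩ : ∃ u : Ix → F, u ≠ 0 ∧ g *ᵥ u = u := by
    by_contra hcon
    push Not at hcon
    apply h1'
    have h3 : ∀ x, g *ᵥ x = -x := by
      intro x
      have h4 : x + g *ᵥ x = 0 := by
        by_contra hne
        exact hcon _ hne (by rw [mulVec_add, hgg, add_comm])
      rw [eq_neg_iff_add_eq_zero, add_comm]; exact h4
    exact Matrix.ext_of_mulVec_single fun c => by rw [h3, neg_mulVec, one_mulVec]
  obtain ⟨w, hw0, hw⟩ : ∃ w : Ix → F, w ≠ 0 ∧ g *ᵥ w = -w := by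
    by_contra hcon
    push Not at hcon
    apply h1
    have h3 : ∀ x, g *ᵥ x = x := by
      intro x
      have h4 : x - g *ᵥ x = 0 := by
        by_contra hne
        exact hcon _ hne (by rw [mulVec_sub, hgg, neg_sub])
      exact (sub_eq_zero.1 h4).symm
    exact Matrix.ext_of_mulVec_single fun c => by rw [h3, one_mulVec]
  obtain ⟨z, hz⟩ := exists_Bf hu0
  obtain ⟨z', hz'⟩ := exists_Bf hw0
  have hpm : ∀ x y, g *ᵥ x = x → g *ᵥ y = -y → Bf x y = 0 := by
    intro x y hx hy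
    have h3 := Bf_act hg x y
    rw [hx, hy] at h3
    have h4 : Bf x (-y) = - Bf x y := by rw [← neg_one_smul F y, Bf_smul_right]; ring
    rw [h4] at h3
    have h5 : 2 * Bf x y = 0 := by linear_combination -h3
    exact (mul_eq_zero.1 h5).resolve_left h20
  obtain ⟨f1, hf1⟩ : ∃ f1 : Ix → F, f1 = (-(1 / (2 * Bf u z))) • (z + g *ᵥ z) := ⟨_, rfl⟩
  obtain ⟨f2, hf2⟩ : ∃ f2 : Ix → F, f2 = (-(1 / (2 * Bf w z'))) • (z' - g *ᵥ z') := ⟨_, rfl⟩
  have gf1 : g *ᵥ f1 = f1 := by rw [hf1, mulVec_smul, mulVec_add, hgg, add_comm]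
  have gf2 : g *ᵥ f2 = -f2 := by rw [hf2, mulVec_smul, mulVec_sub, hgg, ← smul_neg, neg_sub]
  have b1 : Bf f1 u = 1 := by
    have h3 : Bf u (g *ᵥ z) = Bf u z := by
      conv_lhs => rw [← hu]
      exact Bf_act hg u z
    rw [Bf_comm, hf1, Bf_smul_right, Bf_add_right, h3]
    field_simp
    ring
  have b2 : Bf f2 w = 1 := by
    have h3 : Bf w (g *ᵥ z') = - Bf w z' := by
      have h4 := Bf_act hg w z'
      rw [hw] at h4
      have h5 : Bf (-w) (g *ᵥ z') = - Bf w (g *ᵥ z') := by rw [← neg_one_smul F w, Bf_smul_left]; ring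
      rw [h5] at h4
      linear_combination -h4
    rw [Bf_comm, hf2, Bf_smul_right, Bf_sub_right, h3]
    field_simp
    ring
  have hPJ : (PM u w f1 f2)ᵀ * JJ F * PM u w f1 f2 = (1 : F) • JJ F :=
    PM_gram b1 b2 (hpm _ _ hu hw) (hpm _ _ hu gf2) (hpm _ _ gf1 hw) (hpm _ _ gf1 gf2)
  obtain ⟨Q, hQP⟩ := exists_Q one_ne_zero hPJ
  refine RR_of_frame one_ne_zero hPJ hQP ?_ (RR_inv i hi)
  apply Matrix.ext_of_mulVec_single
  intro c
  rw [← mulVec_mulVec, ← mulVec_mulVec, PM_mulVec, PM_mulVec]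
  simp only [mulVec_add, mulVec_smul, hu, hw, gf1, gf2]
  rcases c with c | c <;> fin_cases c <;>
    simp [toM, mulVec_single_one]

/-- **every symplectic matrix except `±1`** -/
theorem RR_all {g : Mt F} (hg : SpM g) (h1 : g ≠ 1) (h1' : g ≠ -1) : RR g := by
  by_cases h : ∃ v, Bf (g *ᵥ v) v ≠ 0
  · obtain ⟨v, hv⟩ := h
    exact RR_of_ne hi hsur hinj hg hv
  · push Not at h
    refine RR_of_sq hi hsur hinj hg ?_ h1 h1'
    have h2 : ∀ x y, Bf (g *ᵥ x) y = Bf x (g *ᵥ y) := by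
      intro x y
      have h3 := h (x + y)
      rw [mulVec_add, Bf_add_left, Bf_add_right, Bf_add_right, h, h, zero_add, add_zero] at h3
      rw [Bf_comm x]
      linear_combination h3
    have h4 : ∀ x, g *ᵥ (g *ᵥ x) = x := by
      intro x
      by_contra hne
      obtain ⟨y, hy⟩ := exists_Bf (sub_ne_zero.2 hne)
      apply hy
      rw [Bf_sub_left, h2, Bf_act hg, sub_self]
    exact Matrix.ext_of_mulVec_single fun c => by rw [← mulVec_mulVec, h4, one_mulVec]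

end main

/-! ### The field with nine elements -/

theorem exists_setup (F : Type*) [Field F] [Fintype F] (hF : Fintype.card F = 9) :
    ∃ (_ : CharP F 3) (i : F), i * i = -1 ∧ Function.Bijective (phi i) := by
  obtain ⟨p, hp⟩ := CharP.exists F
  obtain ⟨n, hpp, hc⟩ := FiniteField.card F p
  have hp3 : p = 3 := by
    have h1 : p ∣ 9 := by
      rw [← hF, hc]; exact dvd_pow_self p n.pos.ne'
    have h2 : p ∣ 3 := hpp.dvd_of_dvd_pow (show p ∣ 3 ^ 2 by norm_num; exact h1)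
    exact (Nat.prime_dvd_prime_iff_eq hpp Nat.prime_three).1 h2
  subst hp3
  obtain ⟨i, hi⟩ : IsSquare (-1 : F) := by
    rw [FiniteField.isSquare_neg_one_iff, hF]; norm_num
  refine ⟨hp, i, hi.symm, ?_⟩
  have hcard : Fintype.card (ZMod 3 × ZMod 3) = 9 := by decide
  have hinj : ∀ a b : ZMod 3, ZMod.castHom (dvd_refl 3) F a + ZMod.castHom (dvd_refl 3) F b * i = 0 → a = 0 ∧ b = 0 := by
    intro a b h
    have hb : b = 0 := by
      by_contra hb
      have h1 : ZMod.castHom (dvd_refl 3) F (a * a + b * b) = 0 := by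
        rw [map_add, map_mul, map_mul]
        have h2 : ZMod.castHom (dvd_refl 3) F a = -(ZMod.castHom (dvd_refl 3) F b * i) := by
          linear_combination h
        rw [h2]
        linear_combination (-(ZMod.castHom (dvd_refl 3) F b * ZMod.castHom (dvd_refl 3) F b)) * hi
      have h3 : a * a + b * b = 0 := (ZMod.castHom_injective F) (by rw [h1, map_zero])
      have h4 : ∀ a b : ZMod 3, b ≠ 0 → a * a + b * b ≠ 0 := by decide
      exact h4 a b hb h3
    subst hb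
    rw [map_zero, zero_mul, add_zero] at h
    exact ⟨(ZMod.castHom_injective F) (by rw [h, map_zero]), rfl⟩
  have hinj' : Function.Injective (phi i) := by
    intro x y h
    have h1 : ZMod.castHom (dvd_refl 3) F (x.re - y.re) + ZMod.castHom (dvd_refl 3) F (x.im - y.im) * i = 0 := by
      rw [map_sub, map_sub]
      rw [phi, phi] at h
      linear_combination h
    obtain ⟨h2, h3⟩ := hinj _ _ h1
    have h4 : ∀ x y : C9, x.re - y.re = 0 → x.im - y.im = 0 → x = y := by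
      intro x y; cases x <;> cases y <;> decide
    exact h4 x y h2 h3
  let ψ : ZMod 3 × ZMod 3 → F := fun p =>
    ZMod.castHom (dvd_refl 3) F p.1 + ZMod.castHom (dvd_refl 3) F p.2 * i
  have hψ : Function.Injective ψ := by
    rintro ⟨a, b⟩ ⟨c, d⟩ h
    have h1 : ZMod.castHom (dvd_refl 3) F (a - c) + ZMod.castHom (dvd_refl 3) F (b - d) * i = 0 := by
      rw [map_sub, map_sub]
      change ZMod.castHom (dvd_refl 3) F a + ZMod.castHom (dvd_refl 3) F b * i =
        ZMod.castHom (dvd_refl 3) F c + ZMod.castHom (dvd_refl 3) F d * i at h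
      linear_combination h
    obtain ⟨h2, h3⟩ := hinj _ _ h1
    rw [Prod.mk.injEq]
    exact ⟨sub_eq_zero.1 h2, sub_eq_zero.1 h3⟩
  have hψ' : Function.Surjective ψ :=
    ((Fintype.bijective_iff_injective_and_card ψ).2 ⟨hψ, by rw [hcard, hF]⟩).2
  refine ⟨hinj', fun r => ?_⟩
  obtain ⟨⟨a, b⟩, rfl⟩ := hψ' r
  obtain ⟨x, hx1, hx2⟩ := C9.exists_code a b
  exact ⟨x, by rw [phi, hx1, hx2]⟩

/-- **`PSp₄(9)`** -/
theorem six_psp_nine {F : Type*} [Field F] [Fintype F] (hF : Fintype.card F = 9) : All 6 (Cfsg.PSp 2 F) := by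
  obtain ⟨hc3, i, hi, hbij⟩ := exists_setup F hF
  intro g
  obtain ⟨A, rfl⟩ := QuotientGroup.mk'_surjective (Subgroup.center (Matrix.symplecticGroup (Fin 2) F)) g
  have hcen : ∀ X : Matrix.symplecticGroup (Fin 2) F, ((X : Mt F) = 1 ∨ (X : Mt F) = -1) →
      QuotientGroup.mk' (Subgroup.center (Matrix.symplecticGroup (Fin 2) F)) X = 1 := by
    intro X hX
    rw [QuotientGroup.mk'_apply, QuotientGroup.eq_one_iff, Subgroup.mem_center_iff]
    intro Y
    apply Subtype.ext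
    change (Y : Mt F) * (X : Mt F) = (X : Mt F) * (Y : Mt F)
    rcases hX with h | h
    · rw [h, Matrix.mul_one, Matrix.one_mul]
    · rw [h, Matrix.mul_neg, Matrix.neg_mul, Matrix.mul_one, Matrix.one_mul]
  by_cases h1 : (A : Mt F) = 1 ∨ (A : Mt F) = -1
  · rw [hcen A h1]
    exact Pr.one 6
  · push Not at h1
    have hA : SpM (A : Mt F) := SymplecticGroup.mem_iff'.1 A.2
    obtain ⟨X, Y, hX, hY, e, hX4, hY4⟩ := RR_all hi hbij.2
      (fun x hx => hbij.1 (by rw [hx, phi_c1])) hA h1.1 h1.2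
    let X' : Matrix.symplecticGroup (Fin 2) F := ⟨X, SymplecticGroup.mem_iff'.2 hX⟩
    let Y' : Matrix.symplecticGroup (Fin 2) F := ⟨Y, SymplecticGroup.mem_iff'.2 hY⟩
    have hAe : A = X' * Y' := Subtype.ext e
    refine ⟨QuotientGroup.mk' _ X', QuotientGroup.mk' _ Y', by rw [hAe, map_mul], ?_, ?_⟩
    · refine Nat.Coprime.of_dvd_left (orderOf_dvd_of_pow_eq_one (n := 41) ?_) (by norm_num)
      rw [← map_pow]
      exact hcen _ hX4
    · refine Nat.Coprime.of_dvd_left (orderOf_dvd_of_pow_eq_one (n := 41) ?_) (by norm_num)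
      rw [← map_pow]
      exact hcen _ hY4

end Cfsg.Agent.H538.Pw.SpNine
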