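import Mathlib

/-!
# S2465, `PSp₄(9)`: the kernel check (helper538)

Codes of the field with nine elements, codes of matrices of size four, and the check that every normal form of an
element of `Sp₄(9)` is a product of two elements whose 41st powers are `±1`.
-/

set_option autoImplicit false
set_option linter.unusedVariables false
set_option linter.constructorNameAsVariable false
set_option maxHeartbeats 1000000
set_option maxRecDepth 100000

namespace Cfsg.Agent.H538.Pw.SpNine

noncomputable section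

/-- codes of the elements `a + b i`, number `a + 3 b` -/
inductive C9 | c0 | c1 | c2 | c3 | c4 | c5 | c6 | c7 | c8
  deriving DecidableEq

namespace C9

def re : C9 → ZMod 3
  | c0 => 0
  | c1 => 1
  | c2 => 2
  | c3 => 0
  | c4 => 1
  | c5 => 2
  | c6 => 0
  | c7 => 1
  | c8 => 2
def im : C9 → ZMod 3
  | c0 => 0
  | c1 => 0
  | c2 => 0
  | c3 => 1
  | c4 => 1
  | c5 => 1
  | c6 => 2
  | c7 => 2
  | c8 => 2
def neg (x : C9) : C9 := C9.rec (motive := fun _ => C9) c0 c2 c1 c6 c8 c7 c3 c5 c4 x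
def add0 (y : C9) : C9 := C9.rec (motive := fun _ => C9) c0 c1 c2 c3 c4 c5 c6 c7 c8 y
def add1 (y : C9) : C9 := C9.rec (motive := fun _ => C9) c1 c2 c0 c4 c5 c3 c7 c8 c6 y
def add2 (y : C9) : C9 := C9.rec (motive := fun _ => C9) c2 c0 c1 c5 c3 c4 c8 c6 c7 y
def add3 (y : C9) : C9 := C9.rec (motive := fun _ => C9) c3 c4 c5 c6 c7 c8 c0 c1 c2 y
def add4 (y : C9) : C9 := C9.rec (motive := fun _ => C9) c4 c5 c3 c7 c8 c6 c1 c2 c0 y
def add5 (y : C9) : C9 := C9.rec (motive := fun _ => C9) c5 c3 c4 c8 c6 c7 c2 c0 c1 y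
def add6 (y : C9) : C9 := C9.rec (motive := fun _ => C9) c6 c7 c8 c0 c1 c2 c3 c4 c5 y
def add7 (y : C9) : C9 := C9.rec (motive := fun _ => C9) c7 c8 c6 c1 c2 c0 c4 c5 c3 y
def add8 (y : C9) : C9 := C9.rec (motive := fun _ => C9) c8 c6 c7 c2 c0 c1 c5 c3 c4 y
def mul0 (y : C9) : C9 := C9.rec (motive := fun _ => C9) c0 c0 c0 c0 c0 c0 c0 c0 c0 y
def mul1 (y : C9) : C9 := C9.rec (motive := fun _ => C9) c0 c1 c2 c3 c4 c5 c6 c7 c8 y
def mul2 (y : C9) : C9 := C9.rec (motive := fun _ => C9) c0 c2 c1 c6 c8 c7 c3 c5 c4 y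
def mul3 (y : C9) : C9 := C9.rec (motive := fun _ => C9) c0 c3 c6 c2 c5 c8 c1 c4 c7 y
def mul4 (y : C9) : C9 := C9.rec (motive := fun _ => C9) c0 c4 c8 c5 c6 c1 c7 c2 c3 y
def mul5 (y : C9) : C9 := C9.rec (motive := fun _ => C9) c0 c5 c7 c8 c1 c3 c4 c6 c2 y
def mul6 (y : C9) : C9 := C9.rec (motive := fun _ => C9) c0 c6 c3 c1 c7 c4 c2 c8 c5 y
def mul7 (y : C9) : C9 := C9.rec (motive := fun _ => C9) c0 c7 c5 c4 c2 c6 c8 c3 c1 y
def mul8 (y : C9) : C9 := C9.rec (motive := fun _ => C9) c0 c8 c4 c7 c3 c2 c5 c1 c6 y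
def add (x : C9) : C9 → C9 := C9.rec (motive := fun _ => C9 → C9) add0 add1 add2 add3 add4 add5 add6 add7 add8 x
def mul (x : C9) : C9 → C9 := C9.rec (motive := fun _ => C9 → C9) mul0 mul1 mul2 mul3 mul4 mul5 mul6 mul7 mul8 x

theorem re_add : ∀ x y : C9, (add x y).re = x.re + y.re := by intro x y; cases x <;> cases y <;> decide
theorem im_add : ∀ x y : C9, (add x y).im = x.im + y.im := by intro x y; cases x <;> cases y <;> decide
theorem re_neg : ∀ x : C9, (neg x).re = -x.re := by intro x; cases x <;> decide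
theorem im_neg : ∀ x : C9, (neg x).im = -x.im := by intro x; cases x <;> decide
theorem re_mul : ∀ x y : C9, (mul x y).re = x.re * y.re - x.im * y.im := by
  intro x y; cases x <;> cases y <;> decide
theorem im_mul : ∀ x y : C9, (mul x y).im = x.re * y.im + x.im * y.re := by
  intro x y; cases x <;> cases y <;> decide
theorem exists_code : ∀ a b : ZMod 3, ∃ x : C9, x.re = a ∧ x.im = b := by
  intro a b
  have h : ∀ a b : ZMod 3, (∃ x ∈ [c0, c1, c2, c3, c4, c5, c6, c7, c8], x.re = a ∧ x.im = b) := by decide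
  obtain ⟨x, -, hx⟩ := h a b
  exact ⟨x, hx⟩

/-- quantifier -/
def all (f : C9 → Bool) : Bool :=
  f c0 && (f c1 && (f c2 && (f c3 && (f c4 && (f c5 && (f c6 && (f c7 && f c8)))))))

theorem all_spec {f : C9 → Bool} (h : all f = true) : ∀ x, f x = true := by
  simp only [all, Bool.and_eq_true] at h
  obtain ⟨h0, h1, h2, h3, h4, h5, h6, h7, h8⟩ := h
  intro x
  cases x <;> assumption

/-- evaluate first -/
def force {α : Type} (x : C9) (k : C9 → α) : α :=
  C9.rec (motive := fun _ => (C9 → α) → α) (fun k => k c0) (fun k => k c1) (fun k => k c2) (fun k => k c3)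
    (fun k => k c4) (fun k => k c5) (fun k => k c6) (fun k => k c7) (fun k => k c8) x k

theorem force_eq {α : Type} (x : C9) (k : C9 → α) : force x k = k x := by cases x <;> rfl

def isOne (x : C9) : Bool := C9.rec (motive := fun _ => Bool) false true false false false false false false false x
def isZero (x : C9) : Bool := C9.rec (motive := fun _ => Bool) true false false false false false false false false x

theorem isOne_iff : ∀ x : C9, isOne x = true ↔ x = c1 := by intro x; cases x <;> decide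
theorem isZero_iff : ∀ x : C9, isZero x = true ↔ x = c0 := by intro x; cases x <;> decide

def good0 (d : C9) : Bool := C9.rec (motive := fun _ => Bool) false false false false false false false false false d
def good1 (d : C9) : Bool := C9.rec (motive := fun _ => Bool) false false false true false false true false false d
def good2 (d : C9) : Bool := C9.rec (motive := fun _ => Bool) false false false true false false true false false d
def good3 (d : C9) : Bool := C9.rec (motive := fun _ => Bool) false false false true true false true true false d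
def good4 (d : C9) : Bool := C9.rec (motive := fun _ => Bool) false true false false false true false false false d
def good5 (d : C9) : Bool := C9.rec (motive := fun _ => Bool) false true false false false false false false true d
def good6 (d : C9) : Bool := C9.rec (motive := fun _ => Bool) false false false true true false true true false d
def good7 (d : C9) : Bool := C9.rec (motive := fun _ => Bool) false true false false false false false false true d
def good8 (d : C9) : Bool := C9.rec (motive := fun _ => Bool) false true false false false true false false false d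
/-- the pairs (trace, second invariant) of the elements of order 41 and 82 -/
def good (a : C9) : C9 → Bool := C9.rec (motive := fun _ => C9 → Bool) good0 good1 good2 good3 good4 good5 good6 good7 good8 a

end C9

/-- sixteen entries -/
structure M16 (T : Type*) where
  (a00 a01 a02 a03 a10 a11 a12 a13 a20 a21 a22 a23 a30 a31 a32 a33 : T)

def M16.map {T S : Type*} (φ : T → S) (m : M16 T) : M16 S :=
  ⟨φ m.a00, φ m.a01, φ m.a02, φ m.a03, φ m.a10, φ m.a11, φ m.a12, φ m.a13,
   φ m.a20, φ m.a21, φ m.a22, φ m.a23, φ m.a30, φ m.a31, φ m.a32, φ m.a33⟩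

open C9 in
/-- the witnesses -/
def ZL : List (M16 C9) := [
  ⟨c5, c6, c0, c2, c1, c5, c2, c0, c3, c5, c0, c7, c1, c0, c0, c0⟩,
  ⟨c8, c5, c5, c8, c7, c8, c6, c4, c6, c1, c5, c8, c5, c1, c1, c5⟩,
  ⟨c2, c0, c5, c6, c7, c6, c4, c0, c3, c5, c2, c0, c2, c6, c3, c8⟩,
  ⟨c0, c6, c5, c3, c8, c0, c8, c6, c6, c7, c7, c1, c0, c5, c6, c7⟩,
  ⟨c0, c7, c1, c2, c7, c0, c4, c1, c6, c0, c1, c1, c0, c6, c1, c7⟩,
  ⟨c4, c8, c1, c6, c8, c3, c6, c5, c5, c6, c5, c2, c4, c8, c0, c8⟩,
  ⟨c5, c7, c2, c2, c0, c5, c8, c6, c8, c8, c3, c8, c4, c0, c0, c6⟩,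
  ⟨c5, c2, c1, c5, c6, c7, c7, c3, c8, c0, c2, c1, c2, c1, c5, c2⟩,
  ⟨c3, c3, c4, c1, c7, c3, c2, c5, c4, c0, c5, c3, c6, c7, c2, c5⟩,
  ⟨c4, c2, c6, c5, c7, c4, c5, c4, c7, c2, c7, c7, c6, c3, c4, c2⟩,
  ⟨c8, c2, c0, c7, c6, c7, c1, c5, c0, c8, c3, c8, c6, c6, c0, c4⟩,
  ⟨c4, c3, c7, c2, c1, c1, c0, c2, c8, c0, c2, c1, c6, c4, c3, c3⟩,
  ⟨c2, c8, c8, c3, c0, c2, c7, c2, c1, c4, c3, c6, c0, c7, c1, c6⟩,
  ⟨c4, c1, c3, c0, c1, c6, c3, c1, c3, c4, c1, c8, c7, c5, c0, c4⟩,
  ⟨c1, c2, c0, c0, c1, c6, c7, c7, c4, c2, c8, c7, c8, c2, c3, c3⟩,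
  ⟨c2, c1, c5, c6, c0, c8, c3, c8, c3, c0, c8, c5, c8, c0, c2, c1⟩]

open C9 in
/-- the check of one witness on the normal form -/
def chkZ (z : M16 C9) (t b x3 x4 y3 y4 : C9) : Bool :=
  force (add (add z.a02 (neg z.a20)) (add (mul b z.a22) (mul t z.a21))) fun m00 =>
  force (add (add (mul x3 z.a11) (mul x4 (add (mul t z.a12) z.a13)))
    (add (mul y3 z.a31) (mul y4 (add (mul t z.a32) z.a33)))) fun m11 =>
  good (add m00 m11) (add (add (mul m00 m11)
    (neg (mul (add (add (mul x3 z.a01) (mul x4 (add (mul t z.a02) z.a03)))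
        (add (add (neg z.a30) (mul b z.a32)) (mul t z.a31)))
      (add z.a12 (add (mul y3 z.a21) (mul y4 (add (mul t z.a22) z.a23)))))))
    (mul (add (add (mul y3 z.a01) (mul y4 (add (mul t z.a02) z.a03)))
        (add z.a10 (neg (add (mul b z.a12) (mul t z.a11)))))
      (add (add (mul x3 z.a21) (mul x4 (add (mul t z.a22) z.a23))) (neg z.a32))))

def chk (t b x3 x4 y3 y4 : C9) : Bool := ZL.any fun z => chkZ z t b x3 x4 y3 y4

open C9 in
/-- the check, `x₄ ≠ 0`, `x₃ = 0` -/
def ok1 (t b : C9) : Bool :=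
  all fun x4 => all fun y3 => !(isOne (neg (mul x4 y3))) || (all fun y4 => chk t b c0 x4 y3 y4)

open C9 in
/-- the check, `x₄ = 0` -/
def ok2 (t b : C9) : Bool :=
  all fun x3 => all fun y4 => !(isOne (mul x3 y4)) || (all fun y3 => chk t b x3 c0 y3 y4)

open C9 in
theorem check10 : (all fun b => ok1 c0 b) = true := by decide +kernel
open C9 in
theorem check11 : (all fun b => ok1 c1 b) = true := by decide +kernel
open C9 in
theorem check20 : (all fun b => ok2 c0 b) = true := by decide +kernel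
open C9 in
theorem check21 : (all fun b => ok2 c1 b) = true := by decide +kernel

open C9 in
/-- the invariants of a matrix -/
def chkM (m : M16 C9) : Bool :=
  force (add m.a00 m.a22) fun m00 => force (add m.a11 m.a33) fun m11 =>
  good (add m00 m11) (add (add (mul m00 m11) (neg (mul (add m.a01 m.a32) (add m.a10 m.a23))))
    (mul (add m.a03 (neg m.a12)) (add m.a21 (neg m.a30))))

/-- the witnesses have the good invariants -/
theorem ZL_good : (ZL.all chkM) = true := by decide +kernel

open C9 in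
/-- the product with the involution `diag (1, -1, 1, -1)` -/
def mulInv (m : M16 C9) : M16 C9 :=
  ⟨m.a00, neg m.a01, m.a02, neg m.a03, m.a10, neg m.a11, m.a12, neg m.a13,
   m.a20, neg m.a21, m.a22, neg m.a23, m.a30, neg m.a31, m.a32, neg m.a33⟩

theorem inv_check : (ZL.any fun z => chkM (mulInv z)) = true := by decide +kernel

open C9 in
/-- the symplectic relations -/
def splOk (m : M16 C9) : Bool :=
  isZero (add (add (mul m.a00 m.a21) (mul m.a10 m.a31)) (neg (add (mul m.a20 m.a01) (mul m.a30 m.a11)))) &&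
  (isOne (add (add (mul m.a00 m.a22) (mul m.a10 m.a32)) (neg (add (mul m.a20 m.a02) (mul m.a30 m.a12)))) &&
  (isZero (add (add (mul m.a00 m.a23) (mul m.a10 m.a33)) (neg (add (mul m.a20 m.a03) (mul m.a30 m.a13)))) &&
  (isZero (add (add (mul m.a01 m.a22) (mul m.a11 m.a32)) (neg (add (mul m.a21 m.a02) (mul m.a31 m.a12)))) &&
  (isOne (add (add (mul m.a01 m.a23) (mul m.a11 m.a33)) (neg (add (mul m.a21 m.a03) (mul m.a31 m.a13)))) &&
   isZero (add (add (mul m.a02 m.a23) (mul m.a12 m.a33)) (neg (add (mul m.a22 m.a03) (mul m.a32 m.a13))))))))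

theorem ZL_spl : (ZL.all splOk) = true := by decide +kernel

/-! ### The powers -/

open C9 in
/-- multiplication by `X` modulo `X⁴ - a X³ + b X² - a X + 1` -/
def shF {α : Type} (a b u0 u1 u2 u3 : C9) (k : C9 → C9 → C9 → C9 → α) : α :=
  force (neg u3) fun v0 => force (add u0 (mul a u3)) fun v1 => force (add u1 (neg (mul b u3))) fun v2 =>
    force (add u2 (mul a u3)) fun v3 => k v0 v1 v2 v3

/-- `n` steps -/
def itF {α : Type} (a b : C9) (n : ℕ) : C9 → C9 → C9 → C9 → (C9 → C9 → C9 → C9 → α) → α :=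
  Nat.rec (motive := fun _ => C9 → C9 → C9 → C9 → (C9 → C9 → C9 → C9 → α) → α)
    (fun u0 u1 u2 u3 k => k u0 u1 u2 u3)
    (fun _ ih u0 u1 u2 u3 k => shF a b u0 u1 u2 u3 fun v0 v1 v2 v3 => ih v0 v1 v2 v3 k) n

open C9 in
/-- the 41st power is `±1` -/
def powOk (a d : C9) : Bool :=
  force (add d c2) fun b => itF a b 41 c1 c0 c0 c0 fun u0 u1 u2 u3 =>
    (isOne u0 || isOne (neg u0)) && (isZero u1 && (isZero u2 && isZero u3))

theorem pow_check : ∀ a d : C9, C9.good a d = true → powOk a d = true := by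
  have h : (C9.all fun a => C9.all fun d => !(C9.good a d) || powOk a d) = true := by decide +kernel
  intro a d hg
  have h1 := C9.all_spec (C9.all_spec h a) d
  rw [hg] at h1
  exact h1

end

end Cfsg.Agent.H538.Pw.SpNine
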