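import Mathlib
import Cfsg.Agent.H538.Pw.SpNineC

/-!
# S2465, `PSp₄(9)`: from codes to matrices (helper538)
-/

set_option autoImplicit false
set_option linter.unusedVariables false
set_option linter.unusedSimpArgs false
set_option linter.unusedSectionVars false
set_option linter.constructorNameAsVariable false
set_option maxHeartbeats 1000000

namespace Cfsg.Agent.H538.Pw.SpNine

noncomputable section

open Matrix

/-- the index type -/
abbrev Ix : Type := Fin 2 ⊕ Fin 2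

variable {F : Type*} [Field F]

abbrev Mt (F : Type*) : Type _ := Matrix Ix Ix F

/-- the form -/
abbrev JJ (F : Type*) [Field F] : Mt F := Matrix.J (Fin 2) F

/-- symplectic matrices -/
def SpM (X : Mt F) : Prop := Xᵀ * JJ F * X = JJ F

/-- the 41st power is `±1` -/
def P41 (X : Mt F) : Prop := X ^ 41 = 1 ∨ X ^ 41 = -1

/-- product of two symplectic matrices with 41st power `±1` -/
def RR (g : Mt F) : Prop := ∃ X Y : Mt F, SpM X ∧ SpM Y ∧ g = X * Y ∧ P41 X ∧ P41 Y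

/-! ### Matrices from entries -/

def toM (m : M16 F) : Mt F :=
  fromBlocks !![m.a00, m.a01; m.a10, m.a11] !![m.a02, m.a03; m.a12, m.a13]
    !![m.a20, m.a21; m.a30, m.a31] !![m.a22, m.a23; m.a32, m.a33]

def mulF (x y : M16 F) : M16 F := ⟨
  x.a00 * y.a00 + x.a01 * y.a10 + x.a02 * y.a20 + x.a03 * y.a30,
  x.a00 * y.a01 + x.a01 * y.a11 + x.a02 * y.a21 + x.a03 * y.a31,
  x.a00 * y.a02 + x.a01 * y.a12 + x.a02 * y.a22 + x.a03 * y.a32,
  x.a00 * y.a03 + x.a01 * y.a13 + x.a02 * y.a23 + x.a03 * y.a33,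
  x.a10 * y.a00 + x.a11 * y.a10 + x.a12 * y.a20 + x.a13 * y.a30,
  x.a10 * y.a01 + x.a11 * y.a11 + x.a12 * y.a21 + x.a13 * y.a31,
  x.a10 * y.a02 + x.a11 * y.a12 + x.a12 * y.a22 + x.a13 * y.a32,
  x.a10 * y.a03 + x.a11 * y.a13 + x.a12 * y.a23 + x.a13 * y.a33,
  x.a20 * y.a00 + x.a21 * y.a10 + x.a22 * y.a20 + x.a23 * y.a30,
  x.a20 * y.a01 + x.a21 * y.a11 + x.a22 * y.a21 + x.a23 * y.a31,
  x.a20 * y.a02 + x.a21 * y.a12 + x.a22 * y.a22 + x.a23 * y.a32,
  x.a20 * y.a03 + x.a21 * y.a13 + x.a22 * y.a23 + x.a23 * y.a33,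
  x.a30 * y.a00 + x.a31 * y.a10 + x.a32 * y.a20 + x.a33 * y.a30,
  x.a30 * y.a01 + x.a31 * y.a11 + x.a32 * y.a21 + x.a33 * y.a31,
  x.a30 * y.a02 + x.a31 * y.a12 + x.a32 * y.a22 + x.a33 * y.a32,
  x.a30 * y.a03 + x.a31 * y.a13 + x.a32 * y.a23 + x.a33 * y.a33⟩

theorem toM_mul (x y : M16 F) : toM (mulF x y) = toM x * toM y := by
  rw [toM, toM, toM, fromBlocks_multiply]
  congr 1 <;>
  · ext i j
    fin_cases i <;> fin_cases j <;> simp [mulF, Matrix.mul_apply, Fin.sum_univ_two] <;> ring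

theorem exists_toM (X : Mt F) : ∃ m : M16 F, X = toM m := by
  refine ⟨⟨X (Sum.inl 0) (Sum.inl 0), X (Sum.inl 0) (Sum.inl 1), X (Sum.inl 0) (Sum.inr 0), X (Sum.inl 0) (Sum.inr 1),
    X (Sum.inl 1) (Sum.inl 0), X (Sum.inl 1) (Sum.inl 1), X (Sum.inl 1) (Sum.inr 0), X (Sum.inl 1) (Sum.inr 1),
    X (Sum.inr 0) (Sum.inl 0), X (Sum.inr 0) (Sum.inl 1), X (Sum.inr 0) (Sum.inr 0), X (Sum.inr 0) (Sum.inr 1),
    X (Sum.inr 1) (Sum.inl 0), X (Sum.inr 1) (Sum.inl 1), X (Sum.inr 1) (Sum.inr 0), X (Sum.inr 1) (Sum.inr 1)⟩, ?_⟩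
  ext i j
  rcases i with i | i <;> rcases j with j | j <;> fin_cases i <;> fin_cases j <;> rfl

/-- the relations -/
def SplF (m : M16 F) : Prop :=
  (m.a00 * m.a21 + m.a10 * m.a31 - (m.a20 * m.a01 + m.a30 * m.a11) = 0) ∧
  (m.a00 * m.a22 + m.a10 * m.a32 - (m.a20 * m.a02 + m.a30 * m.a12) = 1) ∧
  (m.a00 * m.a23 + m.a10 * m.a33 - (m.a20 * m.a03 + m.a30 * m.a13) = 0) ∧
  (m.a01 * m.a22 + m.a11 * m.a32 - (m.a21 * m.a02 + m.a31 * m.a12) = 0) ∧
  (m.a01 * m.a23 + m.a11 * m.a33 - (m.a21 * m.a03 + m.a31 * m.a13) = 1) ∧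
  (m.a02 * m.a23 + m.a12 * m.a33 - (m.a22 * m.a03 + m.a32 * m.a13) = 0)

theorem J_toM : JJ F = toM ⟨0, 0, -1, 0, 0, 0, 0, -1, 1, 0, 0, 0, 0, 1, 0, 0⟩ := by
  ext i j
  rcases i with i | i <;> rcases j with j | j <;> fin_cases i <;> fin_cases j <;> simp [toM, Matrix.J]

theorem toM_transpose (m : M16 F) : (toM m)ᵀ = toM ⟨m.a00, m.a10, m.a20, m.a30, m.a01, m.a11, m.a21, m.a31,
    m.a02, m.a12, m.a22, m.a32, m.a03, m.a13, m.a23, m.a33⟩ := by
  ext i j
  rcases i with i | i <;> rcases j with j | j <;> fin_cases i <;> fin_cases j <;> rfl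

theorem toM_inj {m n : M16 F} (h : toM m = toM n) : m = n := by
  have hh : ∀ i j, toM m i j = toM n i j := fun i j => by rw [h]
  obtain ⟨a00, a01, a02, a03, a10, a11, a12, a13, a20, a21, a22, a23, a30, a31, a32, a33⟩ := m
  obtain ⟨b00, b01, b02, b03, b10, b11, b12, b13, b20, b21, b22, b23, b30, b31, b32, b33⟩ := n
  have h00 : a00 = b00 := hh (Sum.inl 0) (Sum.inl 0)
  have h01 : a01 = b01 := hh (Sum.inl 0) (Sum.inl 1)
  have h02 : a02 = b02 := hh (Sum.inl 0) (Sum.inr 0)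
  have h03 : a03 = b03 := hh (Sum.inl 0) (Sum.inr 1)
  have h10 : a10 = b10 := hh (Sum.inl 1) (Sum.inl 0)
  have h11 : a11 = b11 := hh (Sum.inl 1) (Sum.inl 1)
  have h12 : a12 = b12 := hh (Sum.inl 1) (Sum.inr 0)
  have h13 : a13 = b13 := hh (Sum.inl 1) (Sum.inr 1)
  have h20 : a20 = b20 := hh (Sum.inr 0) (Sum.inl 0)
  have h21 : a21 = b21 := hh (Sum.inr 0) (Sum.inl 1)
  have h22 : a22 = b22 := hh (Sum.inr 0) (Sum.inr 0)
  have h23 : a23 = b23 := hh (Sum.inr 0) (Sum.inr 1)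
  have h30 : a30 = b30 := hh (Sum.inr 1) (Sum.inl 0)
  have h31 : a31 = b31 := hh (Sum.inr 1) (Sum.inl 1)
  have h32 : a32 = b32 := hh (Sum.inr 1) (Sum.inr 0)
  have h33 : a33 = b33 := hh (Sum.inr 1) (Sum.inr 1)
  subst h00 h01 h02 h03 h10 h11 h12 h13 h20 h21 h22 h23 h30 h31 h32 h33
  rfl

theorem spM_iff (m : M16 F) : SpM (toM m) ↔ SplF m := by
  rw [SpM, toM_transpose, J_toM, ← toM_mul, ← toM_mul]
  constructor
  · intro h
    have h1 := toM_inj h
    simp only [mulF, M16.mk.injEq] at h1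
    obtain ⟨h00, h01, h02, h03, h10, h11, h12, h13, h20, h21, h22, h23, h30, h31, h32, h33⟩ := h1
    refine ⟨?_, ?_, ?_, ?_, ?_, ?_⟩
    · linear_combination -h01
    · linear_combination -h02
    · linear_combination -h03
    · linear_combination -h12
    · linear_combination -h13
    · linear_combination -h23
  · rintro ⟨h1, h2, h3, h4, h5, h6⟩
    congr 1
    simp only [mulF, M16.mk.injEq]
    refine ⟨?_, ?_, ?_, ?_, ?_, ?_, ?_, ?_, ?_, ?_, ?_, ?_, ?_, ?_, ?_, ?_⟩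
    · ring
    · linear_combination -h1
    · linear_combination -h2
    · linear_combination -h3
    · linear_combination h1
    · ring
    · linear_combination -h4
    · linear_combination -h5
    · linear_combination h2
    · linear_combination h4
    · ring
    · linear_combination -h6
    · linear_combination h3
    · linear_combination h5
    · linear_combination h6
    · ring

/-! ### The quadratic equation of `Y + Y⁻¹` -/

def trF (m : M16 F) : F := (m.a00 + m.a22) + (m.a11 + m.a33)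
def sdF (m : M16 F) : F := (m.a00 + m.a22) * (m.a11 + m.a33) - (m.a01 + m.a32) * (m.a10 + m.a23) +
  (m.a03 - m.a12) * (m.a21 - m.a30)

/-- the inverse -/
def iv (Y : Mt F) : Mt F := -(JJ F * Yᵀ * JJ F)

theorem iv_mul {Y : Mt F} (h : SpM Y) : iv Y * Y = 1 := by
  have h1 : JJ F * Yᵀ * JJ F * Y = JJ F * (Yᵀ * JJ F * Y) := by simp only [Matrix.mul_assoc]
  rw [iv, Matrix.neg_mul, h1, show Yᵀ * JJ F * Y = JJ F from h, Matrix.J_squared, neg_neg]

theorem mul_iv {Y : Mt F} (h : SpM Y) : Y * iv Y = 1 := mul_eq_one_comm.1 (iv_mul h)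

/-- entries of the sum -/
theorem add_iv (m : M16 F) : toM m + iv (toM m) = toM ⟨m.a00 + m.a22, m.a01 + m.a32, 0, m.a03 - m.a12,
    m.a10 + m.a23, m.a11 + m.a33, m.a12 - m.a03, 0, 0, m.a21 - m.a30, m.a00 + m.a22, m.a10 + m.a23,
    m.a30 - m.a21, 0, m.a01 + m.a32, m.a11 + m.a33⟩ := by
  rw [iv, toM_transpose, J_toM, ← toM_mul, ← toM_mul]
  ext i j
  rcases i with i | i <;> rcases j with j | j <;> fin_cases i <;> fin_cases j <;>
    simp [toM, mulF] <;> ring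

theorem one_toM : (1 : Mt F) = toM ⟨1, 0, 0, 0, 0, 1, 0, 0, 0, 0, 1, 0, 0, 0, 0, 1⟩ := by
  ext i j
  rcases i with i | i <;> rcases j with j | j <;> fin_cases i <;> fin_cases j <;> simp [toM]

theorem quad (m : M16 F) : (toM m + iv (toM m)) * (toM m + iv (toM m)) =
    trF m • (toM m + iv (toM m)) - sdF m • 1 := by
  rw [add_iv, ← toM_mul, one_toM]
  ext i j
  rcases i with i | i <;> rcases j with j | j <;> fin_cases i <;> fin_cases j <;>
    simp [toM, mulF, trF, sdF] <;> ring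

/-- **the characteristic equation** -/
theorem quart {m : M16 F} (h : SpM (toM m)) :
    toM m ^ 4 = trF m • toM m ^ 3 - (sdF m + 2) • toM m ^ 2 + trF m • toM m - 1 := by
  obtain ⟨Y, hY⟩ : ∃ Y, Y = toM m := ⟨_, rfl⟩
  obtain ⟨Z, hZ⟩ : ∃ Z, Z = iv (toM m) := ⟨_, rfl⟩
  have h1 : Y * Z = 1 := by rw [hY, hZ]; exact mul_iv h
  have h2 : Z * Y = 1 := by rw [hY, hZ]; exact iv_mul h
  have h3 := quad m
  rw [← hZ, ← hY] at h3
  rw [← hY]
  have e1 : Y * (Y + Z) = Y ^ 2 + 1 := by rw [mul_add, h1, pow_two]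
  have e2 : (Y + Z) * Y = Y ^ 2 + 1 := by rw [add_mul, h2, pow_two]
  have e3 : (Y ^ 2 + 1) * (Y ^ 2 + 1) = trF m • (Y ^ 3 + Y) - sdF m • Y ^ 2 := by
    calc (Y ^ 2 + 1) * (Y ^ 2 + 1) = (Y * (Y + Z)) * ((Y + Z) * Y) := by rw [e1, e2]
      _ = Y * ((Y + Z) * (Y + Z)) * Y := by simp only [mul_assoc]
      _ = Y * (trF m • (Y + Z) - sdF m • 1) * Y := by rw [h3]
      _ = trF m • ((Y * (Y + Z)) * Y) - sdF m • (Y * Y) := by
          rw [mul_sub, sub_mul, mul_smul_comm, smul_mul_assoc, mul_smul_comm, smul_mul_assoc, mul_one]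
      _ = _ := by rw [e1, add_mul, one_mul, ← pow_two, ← pow_succ]
  have e4 : (Y ^ 2 + 1) * (Y ^ 2 + 1) = Y ^ 4 + (2 : F) • Y ^ 2 + 1 := by
    rw [add_mul, mul_add, mul_one, one_mul, ← pow_add, two_smul]
    abel
  rw [e4] at e3
  have e5 : Y ^ 4 = trF m • (Y ^ 3 + Y) - sdF m • Y ^ 2 - (2 : F) • Y ^ 2 - 1 := by
    rw [← e3]; abel
  rw [e5, smul_add, add_smul]
  abel

/-! ### The powers -/

/-- evaluation -/
def evm (Y : Mt F) (u0 u1 u2 u3 : F) : Mt F := u0 • 1 + u1 • Y + u2 • Y ^ 2 + u3 • Y ^ 3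

theorem evm_shift {Y : Mt F} {a b : F} (h : Y ^ 4 = a • Y ^ 3 - b • Y ^ 2 + a • Y - 1) (u0 u1 u2 u3 : F) :
    Y * evm Y u0 u1 u2 u3 = evm Y (-u3) (u0 + a * u3) (u1 - b * u3) (u2 + a * u3) := by
  have e1 : Y * Y ^ 2 = Y ^ 3 := (pow_succ' Y 2).symm
  have e2 : Y * Y ^ 3 = Y ^ 4 := (pow_succ' Y 3).symm
  rw [evm, evm, mul_add, mul_add, mul_add, mul_smul_comm, mul_smul_comm, mul_smul_comm, mul_smul_comm,
    mul_one, ← pow_two, e1, e2, h]
  simp only [smul_add, smul_sub, add_smul, sub_smul, mul_smul, neg_smul]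
  rw [smul_comm u3 a, smul_comm u3 b, smul_comm u3 a]
  abel

section codes
variable [CharP F 3] (i : F)

/-- the element with a given code -/
def phi (x : C9) : F := ZMod.castHom (dvd_refl 3) F x.re + ZMod.castHom (dvd_refl 3) F x.im * i

theorem phi_add (x y : C9) : phi i (C9.add x y) = phi i x + phi i y := by
  rw [phi, phi, phi, C9.re_add, C9.im_add, map_add, map_add]; ring

theorem phi_neg (x : C9) : phi i (C9.neg x) = - phi i x := by
  rw [phi, phi, C9.re_neg, C9.im_neg, map_neg, map_neg]; ring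

theorem phi_mul (hi : i * i = -1) (x y : C9) : phi i (C9.mul x y) = phi i x * phi i y := by
  rw [phi, phi, phi, C9.re_mul, C9.im_mul, map_sub, map_add, map_mul, map_mul, map_mul, map_mul]
  linear_combination (-(ZMod.castHom (dvd_refl 3) F x.im * ZMod.castHom (dvd_refl 3) F y.im)) * hi

theorem phi_c0 : phi i .c0 = 0 := by
  have h : (C9.c0.re = 0 ∧ C9.c0.im = 0) := by decide
  rw [phi, h.1, h.2, map_zero, zero_mul, zero_add]
theorem phi_c1 : phi i .c1 = 1 := by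
  have h : (C9.c1.re = 1 ∧ C9.c1.im = 0) := by decide
  rw [phi, h.1, h.2, map_one, map_zero, zero_mul, add_zero]
theorem phi_c2 : phi i .c2 = 2 := by
  have h : (C9.c2.re = 2 ∧ C9.c2.im = 0) := by decide
  rw [phi, h.1, h.2, map_zero, zero_mul, add_zero]
  exact map_ofNat _ 2

theorem itF_spec (hi : i * i = -1) {Y : Mt F} {a b : C9}
    (h : Y ^ 4 = phi i a • Y ^ 3 - phi i b • Y ^ 2 + phi i a • Y - 1) (n : ℕ) :
    ∀ u0 u1 u2 u3 : C9, ∃ v0 v1 v2 v3 : C9,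
      (∀ k : C9 → C9 → C9 → C9 → Bool, itF a b n u0 u1 u2 u3 k = k v0 v1 v2 v3) ∧
      Y ^ n * evm Y (phi i u0) (phi i u1) (phi i u2) (phi i u3) =
        evm Y (phi i v0) (phi i v1) (phi i v2) (phi i v3) := by
  induction n with
  | zero => exact fun u0 u1 u2 u3 => ⟨u0, u1, u2, u3, fun k => rfl, by rw [pow_zero, one_mul]⟩
  | succ n ih =>
    intro u0 u1 u2 u3
    obtain ⟨v0, v1, v2, v3, h1, h2⟩ := ih (C9.neg u3) (C9.add u0 (C9.mul a u3))
      (C9.add u1 (C9.neg (C9.mul b u3))) (C9.add u2 (C9.mul a u3))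
    refine ⟨v0, v1, v2, v3, fun k => ?_, ?_⟩
    · rw [← h1 k]
      have e : itF a b (n + 1) u0 u1 u2 u3 k =
        shF a b u0 u1 u2 u3 fun v0 v1 v2 v3 => itF a b n v0 v1 v2 v3 k := rfl
      rw [e, shF]
      simp only [C9.force_eq]
    · rw [pow_succ, mul_assoc, evm_shift h, ← h2]
      simp only [phi_add, phi_neg, phi_mul i hi, sub_eq_add_neg]

theorem pow41 (hi : i * i = -1) {m : M16 F} (h : SpM (toM m)) {a d : C9} (ha : trF m = phi i a)
    (hd : sdF m = phi i d) (hg : C9.good a d = true) : P41 (toM m) := by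
  have h1 := pow_check a d hg
  rw [powOk, C9.force_eq] at h1
  have h2 := quart h
  rw [ha, hd, ← phi_c2 i, ← phi_add] at h2
  obtain ⟨v0, v1, v2, v3, h3, h4⟩ := itF_spec i hi h2 41 .c1 .c0 .c0 .c0
  rw [h3, Bool.and_eq_true, Bool.and_eq_true, Bool.and_eq_true, C9.isZero_iff, C9.isZero_iff,
    C9.isZero_iff, Bool.or_eq_true, C9.isOne_iff, C9.isOne_iff] at h1
  obtain ⟨h5, rfl, rfl, rfl⟩ := h1
  have e1 : ∀ x : F, evm (toM m) x 0 0 0 = x • 1 := by intro x; rw [evm]; simp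
  rw [phi_c0, phi_c1, e1, e1, one_smul, mul_one] at h4
  rcases h5 with rfl | h5
  · left
    rw [h4, phi_c1, one_smul]
  · right
    have h6 : phi i v0 = -1 := by
      rw [← phi_c1 i, ← h5, phi_neg, neg_neg]
    rw [h4, h6, neg_smul, one_smul]

theorem spl_of_code (hi : i * i = -1) {z : M16 C9} (h : splOk z = true) : SplF (z.map (phi i)) := by
  simp only [splOk, Bool.and_eq_true, C9.isZero_iff, C9.isOne_iff] at h
  obtain ⟨h1, h2, h3, h4, h5, h6⟩ := h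
  have f1 := congrArg (phi i) h1
  have f2 := congrArg (phi i) h2
  have f3 := congrArg (phi i) h3
  have f4 := congrArg (phi i) h4
  have f5 := congrArg (phi i) h5
  have f6 := congrArg (phi i) h6
  simp only [phi_add, phi_neg, phi_mul i hi, phi_c0, phi_c1] at f1 f2 f3 f4 f5 f6
  refine ⟨?_, ?_, ?_, ?_, ?_, ?_⟩ <;> simp only [M16.map, sub_eq_add_neg] <;> assumption

theorem trF_code (z : M16 C9) : trF (z.map (phi i)) =
    phi i (C9.add (C9.add z.a00 z.a22) (C9.add z.a11 z.a33)) := by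
  simp only [trF, M16.map, phi_add]

theorem sdF_code (hi : i * i = -1) (z : M16 C9) : sdF (z.map (phi i)) =
    phi i (C9.add (C9.add (C9.mul (C9.add z.a00 z.a22) (C9.add z.a11 z.a33))
      (C9.neg (C9.mul (C9.add z.a01 z.a32) (C9.add z.a10 z.a23))))
      (C9.mul (C9.add z.a03 (C9.neg z.a12)) (C9.add z.a21 (C9.neg z.a30)))) := by
  simp only [sdF, M16.map, phi_add, phi_neg, phi_mul i hi, sub_eq_add_neg]

theorem pow41_code (hi : i * i = -1) {z : M16 C9} (hs : SpM (toM (z.map (phi i)))) (h : chkM z = true) :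
    P41 (toM (z.map (phi i))) := by
  rw [chkM, C9.force_eq, C9.force_eq] at h
  exact pow41 i hi hs (trF_code i z) (sdF_code i hi z) h

/-- a witness gives a factorisation -/
theorem RR_of_wit (hi : i * i = -1) {z : M16 C9} (hz : z ∈ ZL) {N : M16 F} (hN : SpM (toM N))
    (h : P41 (toM (mulF (z.map (phi i)) N))) : RR (toM N) := by
  obtain ⟨Z, hZ⟩ : ∃ Z, Z = toM (z.map (phi i)) := ⟨_, rfl⟩
  have hzs : SpM Z := by
    rw [hZ]
    exact (spM_iff _).2 (spl_of_code i hi (List.all_eq_true.1 ZL_spl z hz))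
  have hz41 : P41 Z := by
    have h1 := hzs
    rw [hZ] at h1 ⊢
    exact pow41_code i hi h1 (List.all_eq_true.1 ZL_good z hz)
  rw [toM_mul, ← hZ] at h
  have hiv : SpM (iv Z) := by
    have h1 : Z * iv Z = 1 := mul_iv hzs
    have h2 : (iv Z)ᵀ * Zᵀ = 1 := by rw [← transpose_mul, h1, transpose_one]
    rw [SpM]
    calc (iv Z)ᵀ * JJ F * iv Z = (iv Z)ᵀ * (Zᵀ * JJ F * Z) * iv Z := by rw [show Zᵀ * JJ F * Z = JJ F from hzs]
      _ = ((iv Z)ᵀ * Zᵀ) * JJ F * (Z * iv Z) := by simp only [Matrix.mul_assoc]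
      _ = JJ F := by rw [h1, h2, Matrix.one_mul, Matrix.mul_one]
  refine ⟨iv Z, Z * toM N, hiv, ?_, ?_, ?_, h⟩
  · rw [SpM, transpose_mul]
    calc (toM N)ᵀ * Zᵀ * JJ F * (Z * toM N) = (toM N)ᵀ * (Zᵀ * JJ F * Z) * toM N := by
          simp only [Matrix.mul_assoc]
      _ = JJ F := by rw [show Zᵀ * JJ F * Z = JJ F from hzs]; exact hN
  · rw [← Matrix.mul_assoc, iv_mul hzs, Matrix.one_mul]
  · have h1 : iv Z ^ 41 * Z ^ 41 = 1 := by
      have hc : Commute (iv Z) Z := by rw [Commute, SemiconjBy, iv_mul hzs, mul_iv hzs]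
      rw [← hc.mul_pow, iv_mul hzs, one_pow]
    rcases hz41 with h2 | h2
    · left; rw [h2, mul_one] at h1; exact h1
    · right
      rw [h2, mul_neg, mul_one] at h1
      rw [← h1, neg_neg]

/-- the normal form -/
def nfF (t b x3 x4 y3 y4 : F) : M16 F :=
  ⟨0, 0, -1, 0, 0, x3, t, y3, 1, t * x4, b, t * y4, 0, x4, 0, y4⟩

theorem spl_nf {t b x3 x4 y3 y4 : F} (h : x3 * y4 - x4 * y3 = 1) : SpM (toM (nfF t b x3 x4 y3 y4)) := by
  rw [spM_iff]
  refine ⟨?_, ?_, ?_, ?_, ?_, ?_⟩ <;> simp only [nfF]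
  · ring
  · ring
  · ring
  · ring
  · linear_combination h
  · ring

theorem wit_nf (hi : i * i = -1) {z : M16 C9} (hz : z ∈ ZL) {t b x3 x4 y3 y4 : C9}
    (hd : phi i x3 * phi i y4 - phi i x4 * phi i y3 = 1) (h : chkZ z t b x3 x4 y3 y4 = true) :
    RR (toM (nfF (phi i t) (phi i b) (phi i x3) (phi i x4) (phi i y3) (phi i y4))) := by
  rw [chkZ, C9.force_eq, C9.force_eq] at h
  have hN := spl_nf hd (t := phi i t) (b := phi i b)
  refine RR_of_wit i hi hz hN ?_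
  have hP : SpM (toM (mulF (z.map (phi i)) (nfF (phi i t) (phi i b) (phi i x3) (phi i x4) (phi i y3) (phi i y4)))) := by
    have hzs : SpM (toM (z.map (phi i))) := (spM_iff _).2 (spl_of_code i hi (List.all_eq_true.1 ZL_spl z hz))
    rw [toM_mul, SpM, transpose_mul]
    calc (toM (nfF (phi i t) (phi i b) (phi i x3) (phi i x4) (phi i y3) (phi i y4)))ᵀ * (toM (z.map (phi i)))ᵀ *
          JJ F * (toM (z.map (phi i)) * toM (nfF (phi i t) (phi i b) (phi i x3) (phi i x4) (phi i y3) (phi i y4)))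
        = (toM (nfF (phi i t) (phi i b) (phi i x3) (phi i x4) (phi i y3) (phi i y4)))ᵀ *
          ((toM (z.map (phi i)))ᵀ * JJ F * toM (z.map (phi i))) *
          toM (nfF (phi i t) (phi i b) (phi i x3) (phi i x4) (phi i y3) (phi i y4)) := by
          simp only [Matrix.mul_assoc]
      _ = JJ F := by rw [show (toM (z.map (phi i)))ᵀ * JJ F * toM (z.map (phi i)) = JJ F from hzs]; exact hN
  refine pow41 i hi hP ?_ ?_ h
  · simp only [trF, mulF, nfF, M16.map, phi_add, phi_neg, phi_mul i hi]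
    ring
  · simp only [sdF, mulF, nfF, M16.map, phi_add, phi_neg, phi_mul i hi]
    ring

/-- the normal forms with `x₃ = 0` or `x₄ = 0` -/
theorem RR_nf0 (hi : i * i = -1) {t b x3 x4 y3 y4 : C9} (ht : t = .c0 ∨ t = .c1)
    (hx : x3 = .c0 ∨ x4 = .c0) (hd : phi i x3 * phi i y4 - phi i x4 * phi i y3 = 1)
    (hinj : ∀ x : C9, phi i x = 1 → x = .c1) :
    RR (toM (nfF (phi i t) (phi i b) (phi i x3) (phi i x4) (phi i y3) (phi i y4))) := by
  have key : chk t b x3 x4 y3 y4 = true := by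
    rcases hx with rfl | rfl
    · have h1 : C9.neg (C9.mul x4 y3) = .c1 := by
        apply hinj
        rw [phi_neg, phi_mul i hi, ← hd, phi_c0]; ring
      have h2 : (C9.all fun b => ok1 t b) = true := by
        rcases ht with rfl | rfl
        · exact check10
        · exact check11
      have h3 := C9.all_spec (C9.all_spec (C9.all_spec h2 b) x4) y3
      rw [Bool.or_eq_true, (C9.isOne_iff _).2 h1] at h3
      rcases h3 with h3 | h3
      · exact absurd h3 (by decide)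
      · exact C9.all_spec h3 y4
    · have h1 : C9.mul x3 y4 = .c1 := by
        apply hinj
        rw [phi_mul i hi, ← hd, phi_c0]; ring
      have h2 : (C9.all fun b => ok2 t b) = true := by
        rcases ht with rfl | rfl
        · exact check20
        · exact check21
      have h3 := C9.all_spec (C9.all_spec (C9.all_spec h2 b) x3) y4
      rw [Bool.or_eq_true, (C9.isOne_iff _).2 h1] at h3
      rcases h3 with h3 | h3
      · exact absurd h3 (by decide)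
      · exact C9.all_spec h3 y3
  obtain ⟨z, hz, h⟩ := List.any_eq_true.1 key
  exact wit_nf i hi hz hd h

/-- the involution -/
theorem RR_inv (hi : i * i = -1) :
    RR (toM (⟨1, 0, 0, 0, 0, -1, 0, 0, 0, 0, 1, 0, 0, 0, 0, -1⟩ : M16 F)) := by
  obtain ⟨z, hz, h⟩ := List.any_eq_true.1 inv_check
  have hN : SpM (toM (⟨1, 0, 0, 0, 0, -1, 0, 0, 0, 0, 1, 0, 0, 0, 0, -1⟩ : M16 F)) := by
    rw [spM_iff]
    refine ⟨?_, ?_, ?_, ?_, ?_, ?_⟩ <;> ring
  refine RR_of_wit i hi hz hN ?_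
  have e : mulF (z.map (phi i)) ⟨1, 0, 0, 0, 0, -1, 0, 0, 0, 0, 1, 0, 0, 0, 0, -1⟩ = (mulInv z).map (phi i) := by
    simp only [mulF, mulInv, M16.map, phi_neg, M16.mk.injEq]
    refine ⟨?_, ?_, ?_, ?_, ?_, ?_, ?_, ?_, ?_, ?_, ?_, ?_, ?_, ?_, ?_, ?_⟩ <;> ring
  rw [e]
  refine pow41_code i hi ?_ h
  rw [← e]
  have hzs : SpM (toM (z.map (phi i))) := (spM_iff _).2 (spl_of_code i hi (List.all_eq_true.1 ZL_spl z hz))
  rw [toM_mul, SpM, transpose_mul]
  calc (toM (⟨1, 0, 0, 0, 0, -1, 0, 0, 0, 0, 1, 0, 0, 0, 0, -1⟩ : M16 F))ᵀ * (toM (z.map (phi i)))ᵀ *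
        JJ F * (toM (z.map (phi i)) * toM ⟨1, 0, 0, 0, 0, -1, 0, 0, 0, 0, 1, 0, 0, 0, 0, -1⟩)
      = (toM (⟨1, 0, 0, 0, 0, -1, 0, 0, 0, 0, 1, 0, 0, 0, 0, -1⟩ : M16 F))ᵀ *
        ((toM (z.map (phi i)))ᵀ * JJ F * toM (z.map (phi i))) *
        toM ⟨1, 0, 0, 0, 0, -1, 0, 0, 0, 0, 1, 0, 0, 0, 0, -1⟩ := by
        simp only [Matrix.mul_assoc]
    _ = JJ F := by rw [show (toM (z.map (phi i)))ᵀ * JJ F * toM (z.map (phi i)) = JJ F from hzs]; exact hN

end codes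

/-! ### Frames -/

/-- **change of frame** -/
theorem RR_of_frame {g P Q N : Mt F} {κ : F} (hκ : κ ≠ 0) (hP : Pᵀ * JJ F * P = κ • JJ F) (hQP : Q * P = 1)
    (hN : g * P = P * N) (h : RR N) : RR g := by
  have hPQ : P * Q = 1 := mul_eq_one_comm.1 hQP
  obtain ⟨X, Y, hX, hY, rfl, hX4, hY4⟩ := h
  have hg : g = P * (X * Y) * Q := by
    rw [← hN, Matrix.mul_assoc, hPQ, Matrix.mul_one]
  have hJ : κ • (Qᵀ * JJ F * Q) = JJ F := by
    have h1 : (P * Q)ᵀ * JJ F * (P * Q) = JJ F := by rw [hPQ, transpose_one, Matrix.one_mul, Matrix.mul_one]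
    calc κ • (Qᵀ * JJ F * Q) = Qᵀ * (κ • JJ F) * Q := by
          rw [Matrix.mul_smul, Matrix.smul_mul]
      _ = Qᵀ * (Pᵀ * JJ F * P) * Q := by rw [hP]
      _ = (P * Q)ᵀ * JJ F * (P * Q) := by simp only [transpose_mul, Matrix.mul_assoc]
      _ = JJ F := h1
  have hsp : ∀ X : Mt F, SpM X → SpM (P * X * Q) := by
    intro X hX
    rw [SpM]
    calc (P * X * Q)ᵀ * JJ F * (P * X * Q) = Qᵀ * (Xᵀ * (Pᵀ * JJ F * P) * X) * Q := by
          simp only [transpose_mul, Matrix.mul_assoc]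
      _ = κ • (Qᵀ * (Xᵀ * JJ F * X) * Q) := by
          rw [hP]; simp only [Matrix.mul_smul, Matrix.smul_mul]
      _ = JJ F := by rw [show Xᵀ * JJ F * X = JJ F from hX, hJ]
  have hpw : ∀ (X : Mt F) (n : ℕ), (P * X * Q) ^ n = P * X ^ n * Q := by
    intro X n
    induction n with
    | zero => rw [pow_zero, pow_zero, Matrix.mul_one, hPQ]
    | succ n ih =>
      rw [pow_succ, ih, pow_succ]
      calc P * X ^ n * Q * (P * X * Q) = P * X ^ n * (Q * P) * X * Q := by simp only [Matrix.mul_assoc]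
        _ = _ := by rw [hQP, Matrix.mul_one]; simp only [Matrix.mul_assoc]
  have hp41 : ∀ X : Mt F, P41 X → P41 (P * X * Q) := by
    rintro X (h | h)
    · left; rw [hpw, h, Matrix.mul_one, hPQ]
    · right; rw [hpw, h, Matrix.mul_neg, Matrix.mul_one, Matrix.neg_mul, hPQ]
  refine ⟨P * X * Q, P * Y * Q, hsp X hX, hsp Y hY, ?_, hp41 X hX4, hp41 Y hY4⟩
  rw [hg]
  calc P * (X * Y) * Q = P * X * 1 * Y * Q := by simp only [Matrix.mul_assoc, Matrix.one_mul]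
    _ = P * X * (Q * P) * Y * Q := by rw [hQP]
    _ = _ := by simp only [Matrix.mul_assoc]

/-- all the normal forms -/
theorem RR_nf [CharP F 3] {i : F} (hi : i * i = -1) (hsur : ∀ r : F, ∃ x : C9, phi i x = r)
    (hinj : ∀ x : C9, phi i x = 1 → x = .c1) {t b x3 x4 y3 y4 : F} (ht : t = 0 ∨ t = 1)
    (hd : x3 * y4 - x4 * y3 = 1) : RR (toM (nfF t b x3 x4 y3 y4)) := by
  have key : ∀ {t b x3 x4 y3 y4 : F}, (t = 0 ∨ t = 1) → x3 * y4 - x4 * y3 = 1 → (x3 = 0 ∨ x4 = 0) →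
      RR (toM (nfF t b x3 x4 y3 y4)) := by
    intro t b x3 x4 y3 y4 ht hd hx
    obtain ⟨b', rfl⟩ := hsur b
    obtain ⟨y3', rfl⟩ := hsur y3
    obtain ⟨y4', rfl⟩ := hsur y4
    obtain ⟨t', ht', rfl⟩ : ∃ t' : C9, (t' = .c0 ∨ t' = .c1) ∧ phi i t' = t := by
      rcases ht with rfl | rfl
      · exact ⟨.c0, Or.inl rfl, phi_c0 i⟩
      · exact ⟨.c1, Or.inr rfl, phi_c1 i⟩
    rcases hx with rfl | rfl
    · obtain ⟨x4', rfl⟩ := hsur x4
      have h := RR_nf0 i hi (t := t') (b := b') (x3 := .c0) (x4 := x4') (y3 := y3') (y4 := y4') ht' (Or.inl rfl)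
        (by rw [phi_c0]; exact hd) hinj
      rw [phi_c0] at h
      exact h
    · obtain ⟨x3', rfl⟩ := hsur x3
      have h := RR_nf0 i hi (t := t') (b := b') (x3 := x3') (x4 := .c0) (y3 := y3') (y4 := y4') ht' (Or.inr rfl)
        (by rw [phi_c0]; exact hd) hinj
      rw [phi_c0] at h
      exact h
  by_cases hx4 : x4 = 0
  · exact key ht hd (Or.inr hx4)
  · obtain ⟨c, hc⟩ : ∃ c : F, c * x4 = x3 := ⟨x3 / x4, div_mul_cancel₀ _ hx4⟩
    have hd' : 0 * (y4 + c * x4) - x4 * (y3 + c * x3 - c * (y4 + c * x4)) = 1 := by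
      rw [← hd, ← hc]; ring
    have h := key (b := b) ht hd' (Or.inl rfl)
    refine RR_of_frame (P := toM ⟨1, 0, 0, 0, 0, 1, 0, c, 0, 0, 1, 0, 0, 0, 0, 1⟩)
      (Q := toM ⟨1, 0, 0, 0, 0, 1, 0, -c, 0, 0, 1, 0, 0, 0, 0, 1⟩) (κ := 1) one_ne_zero ?_ ?_ ?_ h
    · rw [one_smul]
      exact (spM_iff _).2 ⟨by ring, by ring, by ring, by ring, by ring, by ring⟩
    · rw [← toM_mul, one_toM]
      congr 1
      simp only [mulF, M16.mk.injEq]
      refine ⟨?_, ?_, ?_, ?_, ?_, ?_, ?_, ?_, ?_, ?_, ?_, ?_, ?_, ?_, ?_, ?_⟩ <;> ring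
    · rw [← toM_mul, ← toM_mul]
      congr 1
      simp only [mulF, nfF, M16.mk.injEq]
      subst hc
      refine ⟨?_, ?_, ?_, ?_, ?_, ?_, ?_, ?_, ?_, ?_, ?_, ?_, ?_, ?_, ?_, ?_⟩ <;> ring

end

end Cfsg.Agent.H538.Pw.SpNine
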