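import Cfsg.Agent.H78.Pw.Base
import Cfsg.Agent.S2457
import Cfsg.Agent.S2458
import Cfsg.Agent.S1069
import Cfsg.Agent.H438.SzMax
import Cfsg.Prelude.Def_LieChev
import Cfsg.Prelude.Def_LieTwisted
import Cfsg.Prelude.Def_Sz

/-!
# S2465: the rows `Sz(q)` and `²G₂(q)` (helper538)
-/

set_option autoImplicit false

namespace Cfsg.Agent.H538.Pw

open Cfsg.Agent.H78.Pw

/-- `x` of order prime to `n` with `g = x ^ u * x ^ v` for all `g ≠ 1` -/
theorem all_of_class {G : Type*} [Group G] {n : ℕ} (x : G) (hx : (orderOf x).Coprime n)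
    (h : ∀ g : G, g ≠ 1 → ∃ u v : G, g = (u * x * u⁻¹) * (v * x * v⁻¹)) : All n G := by
  intro g
  by_cases hg : g = 1
  · rw [hg]; exact Pr.one n
  · obtain ⟨u, v, e⟩ := h g hg
    have key : ∀ w : G, orderOf (w * x * w⁻¹) = orderOf x := by
      intro w
      have := (MulAut.conj w).orderOf_eq x
      rwa [MulAut.conj_apply] at this
    exact ⟨_, _, e, by rwa [key], by rwa [key]⟩

/-- an element of prime order `l` -/
theorem exists_prime {G : Type*} [Group G] [Finite G] {l : ℕ} (hl : l.Prime) (h : l ∣ Nat.card G) :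
    ∃ x : G, orderOf x = l := by
  have : Fact l.Prime := ⟨hl⟩
  exact exists_prime_orderOf_dvd_card' l h

/-- Suzuki groups -/
theorem pw_sz' {F : Type*} [Field F] [Fintype F] (m : ℕ) (hm : 1 ≤ m) (hF : Fintype.card F = 2 ^ (2 * m + 1)) :
    Pw ↥(Cfsg.Lie.Sz F (2 ^ (m + 1))) := by
  have H := Cfsg.Agent.LieRecognition.SzMatrix.good hF
  have h8 : 2 ^ 3 ≤ Fintype.card F := by
    rw [hF]
    exact Nat.pow_le_pow_right (by norm_num) (by omega)
  obtain ⟨g, hg⟩ := IsCyclic.exists_generator (α := Fˣ)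
  have ho := orderOf_eq_card_of_forall_mem_zpowers hg
  rw [Nat.card_units, Nat.card_eq_fintype_card] at ho
  have hinj : Function.Injective (MonoidHom.mk' H.d (fun a b => (H.d_mul a b).symm)) := fun a b hab => H.d_inj hab
  have ho' := orderOf_injective _ hinj g
  rw [MonoidHom.mk'_apply, ho] at ho'
  have hcl := Cfsg.Agent.S2457.result m hm hF (H.d g) (by rw [ho']; omega)
  have hcard := Cfsg.Agent.H438.SzMax.card_sz (F := F) hF
  obtain ⟨q, hq⟩ : ∃ q, q = 2 ^ (2 * m + 1) := ⟨_, rfl⟩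
  rw [hF] at ho' h8
  rw [← hq] at ho' h8 hcard
  have hq2 : q % 2 = 0 := by rw [hq, pow_succ]; omega
  have hq3 : q % 3 = 2 := by
    rw [hq, pow_succ, pow_mul]
    have : (2 ^ 2) ^ m % 3 = 1 := by
      rw [Nat.pow_mod]
      norm_num
    omega
  refine ⟨all_of_class _ ?_ hcl, fun p hp h5 => ?_⟩
  · rw [ho', show (6 : ℕ) = 2 * 3 by norm_num]
    refine Nat.Coprime.mul_right ?_ ?_
    · rw [Nat.coprime_comm, Nat.Prime.coprime_iff_not_dvd Nat.prime_two]
      omega
    · rw [Nat.coprime_comm, Nat.Prime.coprime_iff_not_dvd Nat.prime_three]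
      omega
  by_cases hpq : p ∣ q - 1
  · -- an element of prime order dividing `q ^ 2 + 1`
    obtain ⟨l, hl, hl'⟩ := Nat.exists_prime_and_dvd (show q ^ 2 + 1 ≠ 1 by nlinarith)
    have hl2 : l ≠ 2 := by
      rintro rfl
      have h1 : (q ^ 2 + 1) % 2 = 0 := Nat.mod_eq_zero_of_dvd hl'
      rw [Nat.add_mod, Nat.pow_mod, hq2] at h1
      norm_num at h1
    have hlp : l ≠ p := by
      rintro rfl
      have h1 : l ∣ (q ^ 2 + 1) - (q - 1) * (q + 1) := Nat.dvd_sub hl' (hpq.mul_right _)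
      have h2 : (q ^ 2 + 1) - (q - 1) * (q + 1) = 2 := by
        obtain ⟨k, rfl⟩ : ∃ k, q = k + 1 := ⟨q - 1, by omega⟩
        rw [Nat.add_sub_cancel, show (k + 1) ^ 2 + 1 = 2 + k * (k + 1 + 1) by ring, Nat.add_sub_cancel]
      rw [h2] at h1
      exact hl2 ((Nat.prime_dvd_prime_iff_eq hl Nat.prime_two).1 h1)
    obtain ⟨x, hx⟩ := exists_prime hl (show l ∣ Nat.card ↥(Cfsg.Lie.Sz F (2 ^ (m + 1))) by
      rw [hcard]; exact hl'.mul_left _)
    refine all_of_class x ?_ (Cfsg.Agent.S2457.result m hm hF x ?_)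
    · rw [hx]
      exact (Nat.coprime_primes hl hp).2 hlp
    · rw [hx]
      exact lt_of_le_of_ne hl.two_le (Ne.symm hl2)
  · refine all_of_class _ ?_ hcl
    rw [ho', Nat.coprime_comm, Nat.Prime.coprime_iff_not_dvd hp]
    exact hpq

/-- small Ree groups -/
theorem pw_ree' {K : Type*} [Field K] [Fintype K] (m : ℕ) (hm : 1 ≤ m) (hK : Fintype.card K = 3 ^ (2 * m + 1)) :
    Pw ↥(Cfsg.Lie.twistedG2 K (3 ^ m)) := by
  have D := Cfsg.Agent.LieRecognition.ReeFinal.data hK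
  have h27 : 3 ^ 3 ≤ Fintype.card K := by
    rw [hK]
    exact Nat.pow_le_pow_right (by norm_num) (by omega)
  have hcard := Cfsg.Agent.S1069.result hK
  have hfin : Finite ↥(Cfsg.Lie.twistedG2 K (3 ^ m)) := inferInstance
  obtain ⟨g, hg⟩ := IsCyclic.exists_generator (α := Kˣ)
  have ho := orderOf_eq_card_of_forall_mem_zpowers hg
  rw [Nat.card_units, Nat.card_eq_fintype_card] at ho
  let φ := MonoidHom.mk' (Cfsg.Agent.LieRecognition.ReeData.h hK) D.h_mul
  have hinj : Function.Injective φ := fun a b hab => Cfsg.Agent.LieRecognition.ReeData.h_injective hK hab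
  have ho' : orderOf (Cfsg.Agent.LieRecognition.ReeData.h hK g) = orderOf g := orderOf_injective φ hinj g
  have hq4 : 3 ^ (2 * m + 1) % 4 = 3 := by
    rw [pow_succ, pow_mul]
    have : (3 ^ 2) ^ m % 4 = 1 := by
      rw [Nat.pow_mod]
      norm_num
    omega
  have hq3 : 3 ^ (2 * m + 1) % 3 = 0 := by rw [pow_succ]; omega
  obtain ⟨q, hq⟩ : ∃ q, q = 3 ^ (2 * m + 1) := ⟨_, rfl⟩
  rw [ho, hK] at ho'
  rw [hK] at h27
  rw [← hq] at ho' h27 hcard hq4 hq3
  -- the element `h(g) ^ 2`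
  have hx : orderOf (Cfsg.Agent.LieRecognition.ReeData.h hK g ^ 2) = (q - 1) / 2 := by
    rw [orderOf_pow, ho']
    congr 1
    exact Nat.gcd_eq_right (by omega)
  have hx3 : ¬ 3 ∣ (q - 1) / 2 := by omega
  have hcl := Cfsg.Agent.S2458.result m hm hK (Cfsg.Agent.LieRecognition.ReeData.h hK g ^ 2) (by rw [hx]; omega)
    (by rw [hx]; exact hx3)
  refine ⟨all_of_class _ ?_ hcl, fun p hp h5 => ?_⟩
  · rw [hx, show (6 : ℕ) = 2 * 3 by norm_num]
    refine Nat.Coprime.mul_right ?_ ?_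
    · rw [Nat.coprime_comm, Nat.Prime.coprime_iff_not_dvd Nat.prime_two]
      omega
    · rw [Nat.coprime_comm, Nat.Prime.coprime_iff_not_dvd Nat.prime_three]
      exact hx3
  by_cases hpq : p ∣ (q - 1) / 2
  · -- an element of prime order dividing `q ^ 2 - q + 1`
    have hpq1 : p ∣ q - 1 := hpq.trans (Nat.div_dvd_of_dvd (by omega))
    obtain ⟨k, hk⟩ : ∃ k, q = k + 1 := ⟨q - 1, by omega⟩
    obtain ⟨l, hl, hl'⟩ := Nat.exists_prime_and_dvd (show q * k + 1 ≠ 1 by
      have : 0 < q * k := Nat.mul_pos (by omega) (by omega)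
      omega)
    have hl2 : l ≠ 2 := by
      rintro rfl
      have h1 : (q * k + 1) % 2 = 0 := Nat.mod_eq_zero_of_dvd hl'
      rw [Nat.add_mod, Nat.mul_mod, show k % 2 = 0 by omega] at h1
      norm_num at h1
    have hl3 : l ≠ 3 := by
      rintro rfl
      have h1 : (q * k + 1) % 3 = 0 := Nat.mod_eq_zero_of_dvd hl'
      rw [Nat.add_mod, Nat.mul_mod, hq3] at h1
      norm_num at h1
    have hlp : l ≠ p := by
      rintro rfl
      rw [hk, Nat.add_sub_cancel] at hpq1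
      have h1 : l ∣ 1 := (Nat.dvd_add_right (hpq1.mul_left q)).1 hl'
      exact hl.one_lt.ne' (Nat.dvd_one.1 h1)
    obtain ⟨x, hx⟩ := exists_prime hl (show l ∣ Nat.card ↥(Cfsg.Lie.twistedG2 K (3 ^ m)) by
      rw [hcard]
      refine Dvd.dvd.mul_left (hl'.trans ⟨q + 1, ?_⟩) _
      rw [hk]
      ring)
    refine all_of_class x ?_ (Cfsg.Agent.S2458.result m hm hK x ?_ ?_)
    · rw [hx]
      exact (Nat.coprime_primes hl hp).2 hlp
    · rw [hx]
      exact lt_of_le_of_ne hl.two_le (Ne.symm hl2)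
    · rw [hx]
      intro h
      exact hl3 ((Nat.prime_dvd_prime_iff_eq Nat.prime_three hl).1 h).symm
  · refine all_of_class _ ?_ hcl
    rw [hx, Nat.coprime_comm, Nat.Prime.coprime_iff_not_dvd hp]
    exact hpq

variable {G : Type*} [Group G]

theorem pw_sz (h : Cfsg.Lie.IsoSuzuki G) : Pw G := by
  obtain ⟨F, _, _, m, hm, hF, ⟨e⟩⟩ := h
  exact (pw_sz' m hm hF).congr e.symm

theorem pw_ree (h : Cfsg.Lie.IsoRee G) : Pw G := by
  obtain ⟨K, _, _, m, hm, hK, ⟨e⟩⟩ := h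
  exact (pw_ree' m hm hK).congr e.symm

end Cfsg.Agent.H538.Pw
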